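import Mathlib

/-!
# Chains of subgroups, each normal in the next
-/

set_option linter.unusedSectionVars false
set_option linter.style.longLine false

namespace Cfsg.Agent.H12.CL

open Function

/-- `Ch A l`: there is a chain `1 = H₀ < ⋯ < H_l = A`, each term normal in the next. -/
inductive Ch {G : Type*} [Group G] : Subgroup G → ℕ → Prop
  | bot : Ch ⊥ 0
  | step {A B : Subgroup G} {l : ℕ} : Ch A l → A < B → (∀ b ∈ B, ∀ a ∈ A, b * a * b⁻¹ ∈ A) → Ch B (l + 1)

section
variable {G : Type*} [Group G] {G' : Type*} [Group G']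

theorem Ch.eq_bot {A : Subgroup G} (h : Ch A 0) : A = ⊥ := by
  cases h; rfl

theorem Ch.of_chain (l : ℕ) (H : Fin (l + 1) → Subgroup G) (h0 : H 0 = ⊥)
    (hchain : ∀ i : Fin l, H i.castSucc < H i.succ ∧ ((H i.castSucc).subgroupOf (H i.succ)).Normal) :
    ∀ i : Fin (l + 1), Ch (H i) i.1 := by
  intro i
  induction i using Fin.induction with
  | zero => rw [h0]; exact Ch.bot
  | succ i ih =>
    have h1 := hchain i
    refine Ch.step (l := i.1) ?_ h1.1 ?_
    · simpa using ih
    · intro b hb a ha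
      have h2 := h1.2.conj_mem ⟨a, h1.1.le ha⟩ (Subgroup.mem_subgroupOf.2 ha) ⟨b, hb⟩
      simpa [Subgroup.mem_subgroupOf] using h2

theorem Ch.map {f : G →* G'} (hf : Injective f) {A : Subgroup G} {l : ℕ} (h : Ch A l) :
    Ch (A.map f) l := by
  induction h with
  | bot => rw [Subgroup.map_bot]; exact Ch.bot
  | step h1 h2 h3 ih =>
    refine Ch.step ih ?_ ?_
    · exact lt_of_le_of_ne (Subgroup.map_mono h2.le)
        (fun h => h2.ne (Subgroup.map_injective hf h))
    · rintro _ ⟨b, hb, rfl⟩ _ ⟨a, ha, rfl⟩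
      exact ⟨b * a * b⁻¹, h3 b hb a ha, by simp⟩

theorem Ch.comap_subtype {C : Subgroup G} {A : Subgroup G} {l : ℕ} (h : Ch A l) (hA : A ≤ C) :
    Ch (A.subgroupOf C) l := by
  induction h with
  | bot => rw [Subgroup.bot_subgroupOf]; exact Ch.bot
  | @step A B l h1 h2 h3 ih =>
    refine Ch.step (ih (h2.le.trans hA)) ?_ ?_
    · refine lt_of_le_of_ne (fun x hx => h2.le hx) (fun h => h2.ne ?_)
      apply le_antisymm h2.le
      intro x hx
      have h5 : (⟨x, hA hx⟩ : C) ∈ B.subgroupOf C := Subgroup.mem_subgroupOf.2 hx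
      rw [← h] at h5
      exact Subgroup.mem_subgroupOf.1 h5
    · intro b hb a ha
      rw [Subgroup.mem_subgroupOf] at *
      exact h3 _ hb _ ha

theorem Ch.top_of {A : Subgroup G} {l : ℕ} (h : Ch A l) : Ch (⊤ : Subgroup A) l := by
  have := h.comap_subtype (C := A) le_rfl
  rwa [Subgroup.subgroupOf_self] at this

theorem Ch.of_top {A : Subgroup G} {l : ℕ} (h : Ch (⊤ : Subgroup A) l) : Ch A l := by
  have := h.map (f := A.subtype) A.subtype_injective
  rwa [← MonoidHom.range_eq_map, Subgroup.range_subtype] at this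

/-- splitting a chain along a homomorphism -/
theorem Ch.split (f : G →* G') {A : Subgroup G} {l : ℕ} (h : Ch A l) :
    ∃ a b, l ≤ a + b ∧ Ch (A ⊓ f.ker) a ∧ Ch (A.map f) b := by
  induction h with
  | bot =>
    refine ⟨0, 0, le_rfl, ?_, ?_⟩
    · rw [bot_inf_eq]; exact Ch.bot
    · rw [Subgroup.map_bot]; exact Ch.bot
  | @step A B l h1 h2 h3 ih =>
    obtain ⟨a, b, hab, ha, hb⟩ := ih
    have hk : ∀ y ∈ B ⊓ f.ker, ∀ x ∈ A ⊓ f.ker, y * x * y⁻¹ ∈ A ⊓ f.ker := by
      rintro y hy x hx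
      rw [Subgroup.mem_inf] at *
      refine ⟨h3 y hy.1 x hx.1, ?_⟩
      rw [MonoidHom.mem_ker] at *
      simp [hy.2, hx.2]
    have hm : ∀ y ∈ B.map f, ∀ x ∈ A.map f, y * x * y⁻¹ ∈ A.map f := by
      rintro _ ⟨b, hb, rfl⟩ _ ⟨a, ha, rfl⟩
      exact ⟨b * a * b⁻¹, h3 b hb a ha, by simp⟩
    by_cases hA : A ⊓ f.ker = B ⊓ f.ker
    · by_cases hB : A.map f = B.map f
      · exfalso
        apply h2.ne
        apply le_antisymm h2.le
        intro y hy
        have h5 : f y ∈ B.map f := ⟨y, hy, rfl⟩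
        rw [← hB] at h5
        obtain ⟨x, hx, hxy⟩ := h5
        have h6 : x⁻¹ * y ∈ B ⊓ f.ker := by
          rw [Subgroup.mem_inf, MonoidHom.mem_ker]
          exact ⟨B.mul_mem (B.inv_mem (h2.le hx)) hy, by simp [hxy]⟩
        rw [← hA, Subgroup.mem_inf] at h6
        have := A.mul_mem hx h6.1
        simpa using this
      · refine ⟨a, b + 1, by omega, ?_, ?_⟩
        · rw [← hA]; exact ha
        · exact Ch.step hb (lt_of_le_of_ne (Subgroup.map_mono h2.le) hB) hm
    · have hlt : A ⊓ f.ker < B ⊓ f.ker := lt_of_le_of_ne (inf_le_inf_right _ h2.le) hA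
      by_cases hB : A.map f = B.map f
      · refine ⟨a + 1, b, by omega, Ch.step ha hlt hk, ?_⟩
        rw [← hB]; exact hb
      · exact ⟨a + 1, b + 1, by omega, Ch.step ha hlt hk,
          Ch.step hb (lt_of_le_of_ne (Subgroup.map_mono h2.le) hB) hm⟩

theorem Ch.split_top (f : G →* G') {l : ℕ} (h : Ch (⊤ : Subgroup G) l) :
    ∃ a b, l ≤ a + b ∧ Ch f.ker a ∧ Ch f.range b := by
  obtain ⟨a, b, h1, h2, h3⟩ := h.split f
  refine ⟨a, b, h1, ?_, ?_⟩
  · rwa [top_inf_eq] at h2
  · rwa [← MonoidHom.range_eq_map] at h3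

/-- concatenation of a chain in the kernel and a chain in the image -/
theorem Ch.comap {f : G →* G'} (hf : Surjective f) {a : ℕ} (ha : Ch f.ker a) {B : Subgroup G'} {b : ℕ}
    (h : Ch B b) : Ch (B.comap f) (a + b) := by
  induction h with
  | bot => exact ha
  | @step A B l h1 h2 h3 ih =>
    refine Ch.step ih ?_ ?_
    · exact lt_of_le_of_ne (Subgroup.comap_mono h2.le)
        (fun h => h2.ne (Subgroup.comap_injective hf h))
    · intro y hy x hx
      rw [Subgroup.mem_comap] at *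
      rw [map_mul, map_mul, map_inv]
      exact h3 _ hy _ hx

theorem Ch.card_le [Finite G] {A : Subgroup G} {l : ℕ} (h : Ch A l) :
    l ≤ ArithmeticFunction.cardFactors (Nat.card A) := by
  induction h with
  | bot => simp
  | @step A B l h1 h2 h3 ih =>
    have h4 : Nat.card B = Nat.card A * A.relIndex B := by
      rw [← Subgroup.relIndex_bot_left, ← Subgroup.relIndex_bot_left,
        Subgroup.relIndex_mul_relIndex _ _ _ bot_le h2.le]
    have h5 : A.relIndex B ≠ 0 := Subgroup.index_ne_zero_of_finite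
    have h6 : A.relIndex B ≠ 1 := by
      intro h
      rw [Subgroup.relIndex_eq_one] at h
      exact absurd h (not_le_of_gt h2)
    rw [h4, ArithmeticFunction.cardFactors_mul (Nat.card_pos.ne') h5]
    have h7 : 1 ≤ ArithmeticFunction.cardFactors (A.relIndex B) := by
      rw [Nat.one_le_iff_ne_zero, Ne, ArithmeticFunction.cardFactors_eq_zero_iff_eq_zero_or_one]
      tauto
    omega

/-- a simple group has chains of length at most one -/
theorem Ch.simple {A : Subgroup G} (hs : ∀ B ≤ A, (∀ a ∈ A, ∀ b ∈ B, a * b * a⁻¹ ∈ B) → B = ⊥ ∨ B = A)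
    {l : ℕ} (h : Ch A l) : l ≤ 1 := by
  cases h with
  | bot => exact Nat.zero_le _
  | @step B _ l h1 h2 h3 =>
    rcases hs B h2.le h3 with h4 | h4
    · subst h4
      cases h1 with
      | bot => exact le_rfl
      | step h5 h6 h7 => exact absurd h6 not_lt_bot
    · exact absurd h4 h2.ne

theorem Ch.of_ne_bot {A : Subgroup G} (h : A ≠ ⊥) : Ch A 1 :=
  Ch.step Ch.bot (bot_lt_iff_ne_bot.2 h) (by
    intro b _ a ha
    rw [Subgroup.mem_bot] at *
    simp [ha])

end

end Cfsg.Agent.H12.CL
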