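import Mathlib
import Cfsg.Agent.H12.CompLen

/-!
# Composition length of permutation groups: reduction to the primitive case
-/

set_option linter.unusedSectionVars false
set_option linter.style.longLine false

namespace Cfsg.Agent.H12.CL

open Function

/-- the bound for degree `n` -/
def Bd (n : ℕ) : Prop :=
  ∀ (G Ω T : Type) [Group G] [Finite G] [MulAction G Ω] [FaithfulSMul G Ω] [Finite Ω] [Finite T]
    (f : Ω → T), Surjective f → (∀ (g : G) (x : Ω), f (g • x) = f x) → Nat.card Ω = n →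
    ∀ l, Ch (⊤ : Subgroup G) l → 3 * l + 4 * Nat.card T ≤ 4 * n

/-- the set of points with a property invariant under `G` -/
def subAct {G Ω : Type} [Group G] [MulAction G Ω] (p : Ω → Prop) (hp : ∀ (g : G) (x : Ω), p x → p (g • x)) :
    SubMulAction G Ω where
  carrier := {x | p x}
  smul_mem' := fun g x hx => hp g x hx

/-- the bound for a transitive image: `G` acts on a nonempty `Δ` with fewer than `n` points -/
theorem bound_range {n : ℕ} (IH : ∀ m < n, Bd m) {G Δ : Type} [Group G] [Finite G] [MulAction G Δ]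
    [Finite Δ] [Nonempty Δ] (hΔ : Nat.card Δ < n) {b : ℕ}
    (hb : Ch (MulAction.toPermHom G Δ).range b) : 3 * b + 4 ≤ 4 * Nat.card Δ := by
  have h1 := hb.top_of
  have : Finite (MulAction.toPermHom G Δ).range := inferInstance
  have h2 := IH _ hΔ (MulAction.toPermHom G Δ).range Δ Unit (fun _ => ()) (fun x => by
    obtain ⟨d⟩ := ‹Nonempty Δ›
    exact ⟨d, rfl⟩) (fun _ _ => rfl) rfl b h1
  simpa using h2

theorem bound_split {n : ℕ} (IH : ∀ m < n, Bd m) {G Ω T : Type} [Group G] [Finite G] [MulAction G Ω]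
    [FaithfulSMul G Ω] [Finite Ω] [Finite T] (f : Ω → T) (hf : Surjective f)
    (hinv : ∀ (g : G) (x : Ω), f (g • x) = f x) (hn : Nat.card Ω = n) (hT : 2 ≤ Nat.card T)
    {l : ℕ} (hl : Ch (⊤ : Subgroup G) l) : 3 * l + 4 * Nat.card T ≤ 4 * n := by
  classical
  have hT1 : Nontrivial T := (Finite.one_lt_card_iff_nontrivial).1 hT
  obtain ⟨t0, t1, ht01⟩ := exists_pair_ne T
  let Δ : SubMulAction G Ω := subAct (fun x => f x = t0) (fun g x hx => by
    show f (g • x) = t0
    rw [hinv]; exact hx)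
  let Δ' : SubMulAction G Ω := subAct (fun x => f x ≠ t0) (fun g x hx => by
    show f (g • x) ≠ t0
    rw [hinv]; exact hx)
  obtain ⟨x0, hx0⟩ := hf t0
  obtain ⟨x1, hx1⟩ := hf t1
  have : Nonempty Δ := ⟨⟨x0, hx0⟩⟩
  have hcard : Nat.card Δ + Nat.card Δ' = n := by
    rw [← hn]
    have e : Ω ≃ Δ ⊕ Δ' := (Equiv.sumCompl (fun x => f x = t0)).symm
    rw [Nat.card_congr e, Nat.card_sum]
  have hΔ'pos : 0 < Nat.card Δ' := by
    have : Nonempty Δ' := ⟨⟨x1, by show f x1 ≠ t0; rw [hx1]; exact ht01.symm⟩⟩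
    exact Nat.card_pos
  have hΔpos : 0 < Nat.card Δ := Nat.card_pos
  obtain ⟨a, b, hab, ha, hb⟩ := hl.split_top (MulAction.toPermHom G Δ)
  have h1 := bound_range IH (show Nat.card Δ < n by omega) hb
  -- the kernel acts on `Δ'`
  let K := (MulAction.toPermHom G Δ).ker
  have hfaith : FaithfulSMul K Δ' := by
    constructor
    intro k k' h
    apply Subtype.ext
    apply FaithfulSMul.eq_of_smul_eq_smul (α := Ω)
    intro x
    by_cases hx : f x = t0
    · have hk : ∀ k : K, (k : G) • x = x := by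
        intro k
        have h3 := k.2
        rw [MonoidHom.mem_ker] at h3
        have h4 := congrArg (fun e => (e (⟨x, hx⟩ : Δ) : Ω)) h3
        exact h4
      rw [hk, hk]
    · have h5 := congrArg (fun (y : Δ') => (y : Ω)) (h ⟨x, hx⟩)
      exact h5
  let T' := {t : T // t ≠ t0}
  let f' : Δ' → T' := fun x => ⟨f x, x.2⟩
  have hf' : Surjective f' := by
    rintro ⟨t, ht⟩
    obtain ⟨x, hx⟩ := hf t
    refine ⟨⟨x, by show f x ≠ t0; rw [hx]; exact ht⟩, ?_⟩
    exact Subtype.ext hx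
  have h2 := IH (Nat.card Δ') (by omega) K Δ' T' f' hf' (fun g x => Subtype.ext (hinv g x)) rfl a ha.top_of
  have hT' : Nat.card T' + 1 = Nat.card T := by
    have e : T ≃ T' ⊕ {t : T // t = t0} := ((Equiv.sumCompl (fun t => t = t0)).symm.trans (Equiv.sumComm _ _))
    rw [Nat.card_congr e, Nat.card_sum]
    simp
  omega

/-- induction hypothesis for core-free subgroups -/
theorem bound_core {n : ℕ} (IH : ∀ m < n, Bd m) {G : Type} [Group G] [Finite G] (Q : Subgroup G)
    (hQ : Q.index < n) (hcore : ∀ L : Subgroup G, L.Normal → L ≤ Q → L = ⊥) {l : ℕ}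
    (hl : Ch (⊤ : Subgroup G) l) : 3 * l + 4 ≤ 4 * Q.index := by
  obtain ⟨a, b, hab, ha, hb⟩ := hl.split_top (MulAction.toPermHom G (G ⧸ Q))
  have h1 := bound_range IH (show Nat.card (G ⧸ Q) < n from hQ) hb
  have h2 : (MulAction.toPermHom G (G ⧸ Q)).ker = ⊥ := by
    rw [← Subgroup.normalCore_eq_ker]
    exact hcore _ (Subgroup.normalCore_normal Q) (Subgroup.normalCore_le Q)
  rw [h2] at ha
  have h3 := ha.card_le
  simp at h3
  subst h3
  have h4 : Nat.card (G ⧸ Q) = Q.index := rfl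
  omega

/-- the imprimitive case -/
theorem bound_imprim {n : ℕ} (IH : ∀ m < n, Bd m) {G : Type} [Group G] [Finite G] (H Q : Subgroup G)
    (hH : H.index = n) (hcore : ∀ L : Subgroup G, L.Normal → L ≤ H → L = ⊥) (hHQ : H < Q) (hQ : Q ≠ ⊤) {l : ℕ}
    (hl : Ch (⊤ : Subgroup G) l) : 3 * l + 4 ≤ 4 * n := by
  have hidx : H.relIndex Q * Q.index = n := by
    rw [Subgroup.relIndex_mul_index hHQ.le, hH]
  have h1 : 2 ≤ Q.index := by
    have h2 : Q.index ≠ 1 := by rwa [Ne, Subgroup.index_eq_one]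
    have h3 : Q.index ≠ 0 := Subgroup.index_ne_zero_of_finite
    omega
  have h4 : 2 ≤ H.relIndex Q := by
    have h2 : H.relIndex Q ≠ 1 := by
      rw [Ne, Subgroup.relIndex_eq_one]
      exact not_le_of_gt hHQ
    have h3 : H.relIndex Q ≠ 0 := Subgroup.index_ne_zero_of_finite
    omega
  have h5 : Q.index < n := by nlinarith
  obtain ⟨a, b, hab, ha, hb⟩ := hl.split_top (MulAction.toPermHom G (G ⧸ Q))
  have h6 := bound_range IH (show Nat.card (G ⧸ Q) < n from h5) hb
  have h7 : Nat.card (G ⧸ Q) = Q.index := rfl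
  let K := (MulAction.toPermHom G (G ⧸ Q)).ker
  let f : G ⧸ H → G ⧸ Q := Quotient.map' id (fun a b h => by
    rw [QuotientGroup.leftRel_apply] at *
    exact hHQ.le h)
  have hfmk : ∀ g : G, f (g : G ⧸ H) = (g : G ⧸ Q) := fun g => rfl
  have hf : Surjective f := by
    intro q
    obtain ⟨g, rfl⟩ := QuotientGroup.mk_surjective q
    exact ⟨(g : G ⧸ H), hfmk g⟩
  have hinv : ∀ (k : K) (x : G ⧸ H), f (k • x) = f x := by
    intro k x
    obtain ⟨g, rfl⟩ := QuotientGroup.mk_surjective x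
    have h8 := k.2
    rw [MonoidHom.mem_ker] at h8
    have h9 := congrArg (fun e => e ((g : G ⧸ Q))) h8
    exact h9
  have hfaith : FaithfulSMul K (G ⧸ H) := by
    have h10 : (MulAction.toPermHom G (G ⧸ H)).ker = ⊥ := by
      rw [← Subgroup.normalCore_eq_ker]
      exact hcore _ (Subgroup.normalCore_normal H) (Subgroup.normalCore_le H)
    constructor
    intro k k' h
    apply Subtype.ext
    have h11 : (k' : G)⁻¹ * (k : G) ∈ (MulAction.toPermHom G (G ⧸ H)).ker := by
      rw [MonoidHom.mem_ker]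
      ext x
      simp only [map_mul, map_inv, Equiv.Perm.coe_mul, comp_apply, Equiv.Perm.coe_one, id_eq]
      rw [Equiv.Perm.inv_eq_iff_eq]
      exact h x
    rw [h10, Subgroup.mem_bot, inv_mul_eq_one] at h11
    exact h11.symm
  have h12 := bound_split (G := K) IH f hf hinv (show Nat.card (G ⧸ H) = n from hH) (by rw [h7]; exact h1) ha.top_of
  omega

/-- induction hypothesis for the point stabiliser -/
theorem bound_stab {n : ℕ} (IH : ∀ m < n, Bd m) {G : Type} [Group G] [Finite G] (H : Subgroup G)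
    (hH : H.index = n) (hn : 2 ≤ n) (hcore : ∀ L : Subgroup G, L.Normal → L ≤ H → L = ⊥) {l : ℕ}
    (hl : Ch H l) : 3 * l + 8 ≤ 4 * n := by
  classical
  let Δ : SubMulAction H (G ⧸ H) := subAct (fun x => x ≠ ((1 : G) : G ⧸ H)) (fun g x hx => by
    intro h
    apply hx
    have h1 : x = (g⁻¹ : H) • ((1 : G) : G ⧸ H) := by rw [← h, inv_smul_smul]
    rw [h1]
    show (((g⁻¹ : H) : G) * 1 : G) = ((1 : G) : G ⧸ H)
    rw [QuotientGroup.eq]
    simp)
  have hcard : Nat.card Δ + 1 = n := by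
    rw [← hH]
    have e : G ⧸ H ≃ {x : G ⧸ H // x ≠ ((1 : G) : G ⧸ H)} ⊕ {x : G ⧸ H // x = ((1 : G) : G ⧸ H)} :=
      ((Equiv.sumCompl (fun t => t = ((1 : G) : G ⧸ H))).symm.trans (Equiv.sumComm _ _))
    have h1 : H.index = Nat.card (G ⧸ H) := rfl
    rw [h1, Nat.card_congr e, Nat.card_sum]
    simp
    rfl
  have hpos : 0 < Nat.card Δ := by omega
  have hne : Nonempty Δ := (Nat.card_pos_iff.1 hpos).1
  have hfaith : FaithfulSMul H Δ := by
    have h10 : (MulAction.toPermHom G (G ⧸ H)).ker = ⊥ := by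
      rw [← Subgroup.normalCore_eq_ker]
      exact hcore _ (Subgroup.normalCore_normal H) (Subgroup.normalCore_le H)
    constructor
    intro k k' h
    apply Subtype.ext
    have h11 : (k' : G)⁻¹ * (k : G) ∈ (MulAction.toPermHom G (G ⧸ H)).ker := by
      rw [MonoidHom.mem_ker]
      ext x
      simp only [map_mul, map_inv, Equiv.Perm.coe_mul, comp_apply, Equiv.Perm.coe_one, id_eq]
      rw [Equiv.Perm.inv_eq_iff_eq]
      by_cases hx : x = ((1 : G) : G ⧸ H)
      · have h12 : ∀ m : H, (m : G) • ((1 : G) : G ⧸ H) = ((1 : G) : G ⧸ H) := by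
          intro m
          show (((m : G) * 1 : G) : G ⧸ H) = _
          rw [QuotientGroup.eq]
          simp
        rw [hx]
        show (k : G) • ((1 : G) : G ⧸ H) = (k' : G) • ((1 : G) : G ⧸ H)
        rw [h12, h12]
      · exact congrArg (fun (y : Δ) => (y : G ⧸ H)) (h ⟨x, hx⟩)
    rw [h10, Subgroup.mem_bot, inv_mul_eq_one] at h11
    exact h11.symm
  have h2 := IH (Nat.card Δ) (by omega) H Δ Unit (fun _ => ()) (fun x => by
    obtain ⟨d⟩ := hne
    exact ⟨d, rfl⟩) (fun _ _ => rfl) rfl l hl.top_of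
  have h3 : Nat.card Unit = 1 := by simp
  omega

end Cfsg.Agent.H12.CL
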