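import Mathlib
import Cfsg.Agent.H12.CompLen2

/-!
# Composition length of permutation groups: the general bound from the primitive one
-/

set_option linter.unusedSectionVars false
set_option linter.style.longLine false

namespace Cfsg.Agent.H12.CL

open Function

/-- the primitive bound for degree `n` -/
def Pb (n : ℕ) : Prop :=
  ∀ (G : Type) [Group G] [Finite G] (H : Subgroup G), H.index = n → IsCoatom H →
    (∀ L : Subgroup G, L.Normal → L ≤ H → L = ⊥) → ∀ l, Ch (⊤ : Subgroup G) l → 3 * l + 4 ≤ 4 * n

theorem Bd_of_Pb (hP : ∀ n, 2 ≤ n → (∀ m < n, Bd m) → Pb n) : ∀ n, Bd n := by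
  intro n
  induction n using Nat.strong_induction_on with
  | _ n IH =>
  intro G Ω T _ _ _ _ _ _ f hf hinv hn l hl
  classical
  let O := Quotient (MulAction.orbitRel G Ω)
  let q : Ω → O := Quotient.mk _
  have hq : Surjective q := Quotient.mk_surjective
  have hqinv : ∀ (g : G) (x : Ω), q (g • x) = q x := by
    intro g x
    apply Quotient.sound
    exact ⟨g, rfl⟩
  have : Finite O := Finite.of_surjective q hq
  let F : O → T := Quotient.lift f (fun a b h => by
    obtain ⟨g, rfl⟩ := h
    exact hinv g b)
  have hF : Surjective F := by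
    intro t
    obtain ⟨x, hx⟩ := hf t
    exact ⟨q x, hx⟩
  have hTO : Nat.card T ≤ Nat.card O := Nat.card_le_card_of_surjective F hF
  by_cases hO : 2 ≤ Nat.card O
  · have := bound_split IH q hq hqinv hn hO hl
    omega
  -- trivial groups
  have htriv : (∀ (g : G) (x : Ω), g • x = x) → l = 0 := by
    intro h
    have h1 : Subsingleton G := by
      constructor
      intro a b
      apply FaithfulSMul.eq_of_smul_eq_smul (α := Ω)
      intro x
      rw [h, h]
    have h2 := hl.card_le
    have h3 : Nat.card (⊤ : Subgroup G) = 1 := by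
      rw [Subgroup.card_top]
      exact Nat.card_eq_one_iff_unique.2 ⟨h1, ⟨1⟩⟩
    rw [h3] at h2
    simpa using h2
  by_cases hΩ : IsEmpty Ω
  · have h1 : l = 0 := htriv (fun g x => (hΩ.false x).elim)
    have h2 : IsEmpty T := ⟨fun t => by
      obtain ⟨x, _⟩ := hf t
      exact hΩ.false x⟩
    have h3 : Nat.card T = 0 := Nat.card_of_isEmpty
    omega
  rw [not_isEmpty_iff] at hΩ
  obtain ⟨α⟩ := hΩ
  have hOpos : 0 < Nat.card O := by
    have : Nonempty O := ⟨q α⟩
    exact Nat.card_pos
  have hO1 : Nat.card O = 1 := by omega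
  have htrans : MulAction.IsPretransitive G Ω := by
    constructor
    intro x y
    have h1 := (Nat.card_eq_one_iff_unique.1 hO1).1
    have h2 : q y = q x := Subsingleton.elim _ _
    exact Quotient.exact h2
  by_cases hn2 : 2 ≤ n
  · let H := MulAction.stabilizer G α
    have hH : H.index = n := by
      rw [MulAction.index_stabilizer_of_transitive, hn]
    have hcore : ∀ L : Subgroup G, L.Normal → L ≤ H → L = ⊥ := by
      intro L hL hLH
      rw [eq_bot_iff]
      intro x hx
      rw [Subgroup.mem_bot]
      apply FaithfulSMul.eq_of_smul_eq_smul (α := Ω)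
      intro y
      obtain ⟨g, rfl⟩ := MulAction.exists_smul_eq G α y
      have h1 : g⁻¹ * x * g ∈ H := by
        have := hLH (hL.conj_mem x hx g⁻¹)
        simpa using this
      have h2 : (g⁻¹ * x * g) • α = α := h1
      rw [one_smul]
      calc x • g • α = g • ((g⁻¹ * x * g) • α) := by simp [mul_smul]
        _ = g • α := by rw [h2]
    have hHtop : H ≠ ⊤ := by
      intro h
      rw [h, Subgroup.index_top] at hH
      omega
    by_cases hco : IsCoatom H
    · have := hP n hn2 IH G H hH hco hcore l hl
      omega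
    · have : ∃ Q : Subgroup G, H < Q ∧ Q ≠ ⊤ := by
        by_contra hcon
        push Not at hcon
        exact hco ⟨hHtop, fun Q hQ => hcon Q hQ⟩
      obtain ⟨Q, hHQ, hQ⟩ := this
      have := bound_imprim IH H Q hH hcore hHQ hQ hl
      omega
  · have hn1 : Nat.card Ω = 1 := by
      have : 0 < Nat.card Ω := by
        have : Nonempty Ω := ⟨α⟩
        exact Nat.card_pos
      omega
    have h1 := (Nat.card_eq_one_iff_unique.1 hn1).1
    have h2 : l = 0 := htriv (fun g x => Subsingleton.elim _ _)
    omega

theorem final (hB : ∀ n, Bd n) {G Ω : Type*} [Group G] [Finite G] [MulAction G Ω] [FaithfulSMul G Ω] [Fintype Ω]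
    (l : ℕ) (hl : Ch (⊤ : Subgroup G) l) :
    3 * l ≤ 4 * (Fintype.card Ω - Nat.card (Quotient (MulAction.orbitRel G Ω))) := by
  classical
  let n := Fintype.card Ω
  let e : Ω ≃ Fin n := Fintype.equivFin Ω
  let O := Quotient (MulAction.orbitRel G Ω)
  have : Finite O := Finite.of_surjective (Quotient.mk _ : Ω → O) Quotient.mk_surjective
  let r := Nat.card O
  let e' : O ≃ Fin r := Finite.equivFin O
  let φ : G →* Equiv.Perm (Fin n) := (e.permCongrHom.toMonoidHom).comp (MulAction.toPermHom G Ω)
  have hφ : ∀ (g : G) (i : Fin n), φ g i = e (g • e.symm i) := fun g i => rfl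
  have hinj : Injective φ := by
    intro a b h
    apply FaithfulSMul.eq_of_smul_eq_smul (α := Ω)
    intro x
    have h1 := congrArg (fun p => p (e x)) h
    simp only [hφ, Equiv.symm_apply_apply] at h1
    exact e.injective h1
  let G' := φ.range
  have hl' : Ch (⊤ : Subgroup G') l := by
    have := hl.map hinj
    rw [← MonoidHom.range_eq_map] at this
    exact this.top_of
  let f : Fin n → Fin r := fun i => e' (Quotient.mk _ (e.symm i))
  have hf : Surjective f := by
    intro j
    obtain ⟨x, hx⟩ := Quotient.mk_surjective (e'.symm j)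
    refine ⟨e x, ?_⟩
    show e' (Quotient.mk _ (e.symm (e x))) = j
    rw [Equiv.symm_apply_apply]
    have : (Quotient.mk _ x : O) = e'.symm j := hx
    rw [this, Equiv.apply_symm_apply]
  have hinv : ∀ (g : G') (i : Fin n), f (g • i) = f i := by
    rintro ⟨_, g, rfl⟩ i
    show e' (Quotient.mk _ (e.symm (φ g i))) = e' (Quotient.mk _ (e.symm i))
    congr 1
    rw [hφ, Equiv.symm_apply_apply]
    apply Quotient.sound
    exact ⟨g, rfl⟩
  have h := hB n G' (Fin n) (Fin r) f hf hinv (by simp) l hl'
  have h1 : Nat.card (Fin r) = r := by simp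
  rw [h1] at h
  show 3 * l ≤ 4 * (n - r)
  omega

end Cfsg.Agent.H12.CL
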