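import Mathlib
import Cfsg.Agent.H12.CompLen3
import Cfsg.Agent.H2.AutElem
import Cfsg.Agent.H21.Socle

/-!
# Composition length of primitive groups: the affine case
-/

set_option linter.unusedSectionVars false
set_option linter.style.longLine false

namespace Cfsg.Agent.H12.CL

open Function ArithmeticFunction Cfsg.Agent.H22

theorem two_pow_cardFactors_le {m : ℕ} (hm : m ≠ 0) : 2 ^ cardFactors m ≤ m := by
  rw [cardFactors_apply]
  conv_rhs => rw [← Nat.prod_primeFactorsList hm]
  exact List.pow_card_le_prod _ _ (fun p hp => (Nat.prime_of_mem_primeFactorsList hp).two_le)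

theorem cardFactors_le_of_dvd {a b : ℕ} (hb : b ≠ 0) (h : a ∣ b) : cardFactors a ≤ cardFactors b := by
  obtain ⟨c, rfl⟩ := h
  have ha : a ≠ 0 := left_ne_zero_of_mul hb
  have hc : c ≠ 0 := right_ne_zero_of_mul hb
  rw [cardFactors_mul ha hc]
  exact Nat.le_add_right _ _

theorem prod_ne_zero {p : ℕ} (hp : p.Prime) (d : ℕ) : (∏ i : Fin d, (p ^ d - p ^ (i : ℕ))) ≠ 0 := by
  rw [Finset.prod_ne_zero_iff]
  intro i _
  have := Nat.pow_lt_pow_right hp.one_lt i.2
  omega

theorem prod_succ {p : ℕ} (hp : p.Prime) (d : ℕ) :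
    cardFactors (∏ i : Fin (d + 1), (p ^ (d + 1) - p ^ (i : ℕ))) =
      cardFactors (p ^ (d + 1) - 1) + d + cardFactors (∏ i : Fin d, (p ^ d - p ^ (i : ℕ))) := by
  rw [Fin.prod_univ_succ]
  have h1 : (∏ i : Fin d, (p ^ (d + 1) - p ^ ((Fin.succ i : Fin (d + 1)) : ℕ))) =
      p ^ d * ∏ i : Fin d, (p ^ d - p ^ (i : ℕ)) := by
    have h2 : ∀ i : Fin d, (p ^ (d + 1) - p ^ ((Fin.succ i : Fin (d + 1)) : ℕ)) = p * (p ^ d - p ^ (i : ℕ)) := by
      intro i
      rw [Fin.val_succ, Nat.mul_sub, pow_succ, pow_succ, mul_comm p, mul_comm p]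
    simp_rw [h2]
    rw [Finset.prod_mul_distrib]
    simp
  have h3 : p ^ (d + 1) - p ^ ((0 : Fin (d + 1)) : ℕ) ≠ 0 := by
    have := Nat.one_lt_pow (Nat.succ_ne_zero d) hp.one_lt
    simp only [Fin.val_zero, pow_zero]
    simp only [Nat.succ_eq_add_one] at this
    omega
  rw [h1, cardFactors_mul h3 (mul_ne_zero (pow_ne_zero _ hp.ne_zero) (prod_ne_zero hp d)),
    cardFactors_mul (pow_ne_zero _ hp.ne_zero) (prod_ne_zero hp d), cardFactors_apply_prime_pow hp]
  simp only [Fin.val_zero, pow_zero]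
  omega

theorem arith_two (d : ℕ) (hd : 1 ≤ d) :
    3 * (d + cardFactors (∏ i : Fin d, (2 ^ d - 2 ^ (i : ℕ)))) + 4 ≤ 4 * 2 ^ d ∧
    (d = 1 → 3 * (d + cardFactors (∏ i : Fin d, (2 ^ d - 2 ^ (i : ℕ)))) + 5 ≤ 4 * 2 ^ d) := by
  have hΩ : ∀ j, 1 ≤ j → cardFactors (2 ^ j - 1) + 1 ≤ j := by
    intro j hj
    have h0 : 2 ^ j - 1 ≠ 0 := by
      have := Nat.pow_le_pow_right (n := 2) (by norm_num) hj
      omega
    have h1 := two_pow_cardFactors_le h0
    have h2 : 2 ^ cardFactors (2 ^ j - 1) < 2 ^ j := by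
      have : 0 < 2 ^ j := by positivity
      omega
    have h3 := (Nat.pow_lt_pow_iff_right (a := 2) (by norm_num)).1 h2
    omega
  induction d, hd using Nat.le_induction with
  | base =>
    have h1 : cardFactors (∏ i : Fin 1, (2 ^ 1 - 2 ^ (i : ℕ))) = 0 := by
      simp
    rw [h1]
    norm_num
  | succ d hd ih =>
    refine ⟨?_, fun h => by omega⟩
    rw [prod_succ Nat.prime_two]
    have h1 := hΩ (d + 1) (by omega)
    have hps : 2 ^ (d + 1) = 2 ^ d * 2 := pow_succ 2 d
    rcases Nat.eq_or_lt_of_le hd with h2 | h2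
    · have h3 := ih.2 h2.symm
      subst h2
      norm_num at h3 h1 ⊢

    · have h3 := ih.1
      have h4 : 6 * d + 3 ≤ 4 * 2 ^ d := by
        clear ih h1 h3
        induction d, h2 using Nat.le_induction with
        | base => norm_num
        | succ d hd' ih' =>
          have := ih' (by omega)
          rw [pow_succ]
          have h6 : 2 ^ 2 ≤ 2 ^ d := Nat.pow_le_pow_right (by norm_num) (by omega)
          omega
      omega

theorem arith_odd {p : ℕ} (hp : p.Prime) (h3 : 3 ≤ p) (d : ℕ) :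
    3 * (d + cardFactors (∏ i : Fin d, (p ^ d - p ^ (i : ℕ)))) + 4 ≤ 4 * p ^ d := by
  induction d with
  | zero => simp
  | succ d ih =>
    rw [prod_succ hp]
    set L := cardFactors (p ^ (d + 1) - 1) with hL
    have hpow : 1 < p ^ (d + 1) := Nat.one_lt_pow (by omega) hp.one_lt
    have h1 : 2 ^ L ≤ p ^ (d + 1) - 1 := two_pow_cardFactors_le (by omega)
    have key : 3 * (d + 1 + L) + 4 * p ^ d ≤ 4 * p ^ (d + 1) := by
      rcases Nat.eq_zero_or_pos d with hd | hd
      · subst hd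
        have h2 : L + 1 ≤ 2 ^ L := Nat.lt_two_pow_self
        simp at h1 ⊢
        omega
      · have h2 : 2 * L ≤ 2 ^ L := by
          rcases Nat.eq_zero_or_pos L with h | h
          · rw [h]; norm_num
          · obtain ⟨M, hM⟩ : ∃ M, L = M + 1 := ⟨L - 1, by omega⟩
            have h5 : M + 1 ≤ 2 ^ M := Nat.lt_two_pow_self
            rw [hM, pow_succ]
            omega
        have h4 : 9 * (d + 1) ≤ 2 * p ^ (d + 1) := by
          clear ih h1 h2 hL hpow
          induction d, hd using Nat.le_induction with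
          | base =>
            have : 3 * 3 ≤ p * p := Nat.mul_le_mul h3 h3
            rw [pow_succ, pow_one]
            omega
          | succ d hd' ih' =>
            rw [pow_succ]
            have h6 : p ^ (d + 1) * 3 ≤ p ^ (d + 1) * p := Nat.mul_le_mul_left _ h3
            omega
        have h5 : 3 * p ^ d ≤ p ^ (d + 1) := by
          rw [pow_succ, mul_comm]
          exact Nat.mul_le_mul_left _ h3
        omega
    omega

theorem arith_ab {p : ℕ} (hp : p.Prime) (d : ℕ) (hd : 1 ≤ d) :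
    3 * (d + cardFactors (∏ i : Fin d, (p ^ d - p ^ (i : ℕ)))) + 4 ≤ 4 * p ^ d := by
  rcases hp.two_le.eq_or_lt with h | h
  · subst h
    exact (arith_two d hd).1
  · exact arith_odd hp h d

section prim

variable {G : Type} [Group G] [Finite G] {H : Subgroup G}

/-- `H` is a core-free maximal subgroup. -/
structure CFM (H : Subgroup G) : Prop where
  co : IsCoatom H
  core : ∀ L : Subgroup G, L.Normal → L ≤ H → L = ⊥

theorem CFM.mul (h : CFM H) {L : Subgroup G} (hL : L.Normal) (hL1 : L ≠ ⊥) (g : G) :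
    ∃ x ∈ L, ∃ y ∈ H, g = x * y := by
  have h1 : L ⊔ H = ⊤ := by
    apply h.co.2
    refine lt_of_le_of_ne le_sup_right (fun hc => hL1 (h.core L hL ?_))
    rw [hc]
    exact le_sup_left
  have h2 : g ∈ L ⊔ H := by rw [h1]; trivial
  rw [Subgroup.mem_sup_of_normal_left] at h2
  obtain ⟨x, hx, y, hy, rfl⟩ := h2
  exact ⟨x, hx, y, hy, rfl⟩

/-- `|G : H| = |L : L ∩ H|` for nontrivial normal `L` -/
theorem CFM.index (h : CFM H) {L : Subgroup G} (hL : L.Normal) (hL1 : L ≠ ⊥) :
    H.index = H.relIndex L := by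
  have h1 : L ⊔ H = ⊤ := by
    apply h.co.2
    refine lt_of_le_of_ne le_sup_right (fun hc => hL1 (h.core L hL ?_))
    rw [hc]
    exact le_sup_left
  have h2 : L.relIndex H = L.index := by
    rw [← Subgroup.relIndex_sup_right, sup_comm, h1, Subgroup.relIndex_top_right]
  have h3 : Nat.card (L ⊓ H : Subgroup G) * L.relIndex H = Nat.card H := by
    rw [← Subgroup.inf_relIndex_right, ← Subgroup.relIndex_bot_left, ← Subgroup.relIndex_bot_left,
      Subgroup.relIndex_mul_relIndex _ _ _ bot_le inf_le_right]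
  have h4 : Nat.card (L ⊓ H : Subgroup G) * H.relIndex L = Nat.card L := by
    rw [← Subgroup.inf_relIndex_left, ← Subgroup.relIndex_bot_left, ← Subgroup.relIndex_bot_left,
      Subgroup.relIndex_mul_relIndex _ _ _ bot_le inf_le_left]
  have h5 := Subgroup.card_mul_index H
  have h6 := Subgroup.card_mul_index L
  have h7 : 0 < Nat.card (L ⊓ H : Subgroup G) := Nat.card_pos
  have h8 : 0 < L.index := Nat.pos_of_ne_zero Subgroup.index_ne_zero_of_finite
  rw [← h3, h2] at h5
  rw [← h4] at h6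
  have h9 : (Nat.card (L ⊓ H : Subgroup G) * L.index) * H.index =
      (Nat.card (L ⊓ H : Subgroup G) * L.index) * H.relIndex L := by
    rw [h5, ← h6]; ring
  exact Nat.eq_of_mul_eq_mul_left (Nat.mul_pos h7 h8) h9

/-- a subgroup of `H` normalised by `H` and centralised by a nontrivial normal subgroup is trivial -/
theorem CFM.eq_bot (h : CFM H) {L : Subgroup G} (hL : L.Normal) (hL1 : L ≠ ⊥) {A : Subgroup G} (hA : A ≤ H)
    (hn : ∀ y ∈ H, ∀ a ∈ A, y * a * y⁻¹ ∈ A) (hc : ∀ x ∈ L, ∀ a ∈ A, x * a = a * x) : A = ⊥ := by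
  refine h.core A ⟨fun a ha g => ?_⟩ hA
  obtain ⟨x, hx, y, hy, rfl⟩ := h.mul hL hL1 g
  have h1 := hn y hy a ha
  have h2 : x * y * a * (x * y)⁻¹ = y * a * y⁻¹ := by
    have := hc x hx _ h1
    calc x * y * a * (x * y)⁻¹ = (x * (y * a * y⁻¹)) * x⁻¹ := by group
      _ = _ := by rw [this]; group
  rw [h2]; exact h1

/-- the centralizer of a nontrivial normal subgroup meets `H` trivially -/
theorem CFM.cent_inf (h : CFM H) {L : Subgroup G} (hL : L.Normal) (hL1 : L ≠ ⊥) :
    Subgroup.centralizer (L : Set G) ⊓ H = ⊥ := by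
  apply h.eq_bot hL hL1 inf_le_right
  · intro y hy a ha
    rw [Subgroup.mem_inf] at *
    refine ⟨?_, H.mul_mem (H.mul_mem hy ha.2) (H.inv_mem hy)⟩
    rw [Subgroup.mem_centralizer_iff] at *
    intro z hz
    have h1 := ha.1 (y⁻¹ * z * y) (by simpa using hL.conj_mem z hz y⁻¹)
    calc z * (y * a * y⁻¹) = y * ((y⁻¹ * z * y) * a) * y⁻¹ := by group
      _ = _ := by rw [h1]; group
  · intro x hx a ha
    exact (Subgroup.mem_centralizer_iff.1 ha.1) x hx

theorem prim_abelian {n : ℕ} (h : CFM H) (hn : H.index = n)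
    {A : Subgroup G} (hA : A.Normal) (hAc : ∀ a ∈ A, ∀ b ∈ A, a * b = b * a) (hA1 : A ≠ ⊥) {l : ℕ}
    (hl : Ch (⊤ : Subgroup G) l) : 3 * l + 4 ≤ 4 * n := by
  obtain ⟨N, hNA, hN⟩ := exists_isMinNormalIn ⊤ A le_top (fun g _ t ht => hA.conj_mem t ht g) hA1
  have hNn : N.Normal := normal_of_conj_top hN.conj
  have hNc : ∀ a ∈ N, ∀ b ∈ N, a * b = b * a := fun a ha b hb => hAc a (hNA ha) b (hNA hb)
  obtain ⟨p, hp, hpe⟩ := elementary_of_abelian hN hNc
  have : Fact p.Prime := ⟨hp⟩
  have hpg : IsPGroup p N := by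
    intro x
    refine ⟨1, ?_⟩
    apply Subtype.ext
    simpa using hpe x x.2
  obtain ⟨d, hd⟩ := hpg.exists_card_eq
  have hd1 : 1 ≤ d := by
    rcases Nat.eq_zero_or_pos d with h0 | h0
    · exfalso
      rw [h0, pow_zero] at hd
      exact hN.ne_bot (Subgroup.eq_bot_of_card_eq _ hd)
    · exact h0
  have hNC : N ≤ Subgroup.centralizer (N : Set G) := fun a ha =>
    Subgroup.mem_centralizer_iff.2 (fun b hb => hNc b hb a ha)
  have hCH := h.cent_inf hNn hN.ne_bot
  have hNH : N ⊓ H = ⊥ := by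
    rw [eq_bot_iff, ← hCH]
    exact inf_le_inf_right _ hNC
  have hcN : Nat.card N = n := by
    rw [← hn, h.index hNn hN.ne_bot, ← Subgroup.inf_relIndex_left, hNH, Subgroup.relIndex_bot_left]
  have hCn : (Subgroup.centralizer (N : Set G)).Normal := Subgroup.normal_centralizer
  have hC1 : Subgroup.centralizer (N : Set G) ≠ ⊥ := by
    intro hc
    rw [hc, le_bot_iff] at hNC
    exact hN.ne_bot hNC
  have hcC : Nat.card (Subgroup.centralizer (N : Set G)) = n := by
    rw [← hn, h.index hCn hC1, ← Subgroup.inf_relIndex_left, hCH, Subgroup.relIndex_bot_left]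
  have hCN : Subgroup.centralizer (N : Set G) = N :=
    (Subgroup.eq_of_le_of_card_ge hNC (by rw [hcN, hcC])).symm
  have hdvd := Cfsg.Agent.H2.relIndex_centralizer_dvd_card_mulAut N
  rw [hCN, Subgroup.normalizer_eq_top, Subgroup.relIndex_top_right,
    Cfsg.Agent.H2.card_mulAut_elementary (E := N) (p := p) (n := d)
      (fun a b => Subtype.ext (hNc a a.2 b b.2)) (fun a => Subtype.ext (by simpa using hpe a a.2)) hd] at hdvd
  have h1 := hl.card_le
  rw [Subgroup.card_top, ← Subgroup.card_mul_index N, cardFactors_mul Nat.card_pos.ne' Subgroup.index_ne_zero_of_finite,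
    hd, cardFactors_apply_prime_pow hp] at h1
  have h2 := cardFactors_le_of_dvd (prod_ne_zero hp d) hdvd
  have h3 := arith_ab hp d hd1
  rw [← hcN, hd]
  omega

end prim

end Cfsg.Agent.H12.CL
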