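import Mathlib
import Cfsg.Agent.H12.CompLen4
import Cfsg.Agent.H22.SimpleProd

/-!
# Subgroups of direct products of simple groups
-/

set_option linter.unusedSectionVars false
set_option linter.style.longLine false

namespace Cfsg.Agent.H12.CL

open Function

section pi

variable {ι : Type} [Fintype ι] [DecidableEq ι] {T : ι → Type} [∀ i, Group (T i)]

/-- elements supported on `J` -/
def PJ (T : ι → Type) [∀ i, Group (T i)] (J : Finset ι) : Subgroup (∀ i, T i) where
  carrier := {x | ∀ i, i ∉ J → x i = 1}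
  mul_mem' := by
    intro a b ha hb i hi
    rw [Pi.mul_apply, ha i hi, hb i hi, mul_one]
  one_mem' := by
    intro i _
    rfl
  inv_mem' := by
    intro a ha i hi
    rw [Pi.inv_apply, ha i hi, inv_one]

theorem mem_PJ {J : Finset ι} {x : ∀ i, T i} : x ∈ PJ T J ↔ ∀ i, i ∉ J → x i = 1 := Iff.rfl

theorem Ch.pi_le (hs : ∀ i, IsSimpleGroup (T i)) (J : Finset ι) :
    ∀ l, Ch (PJ T J) l → l ≤ J.card := by
  induction J using Finset.induction_on with
  | empty =>
    intro l hl
    have h1 : PJ T ∅ = ⊥ := by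
      rw [eq_bot_iff]
      intro x hx
      rw [Subgroup.mem_bot]
      funext i
      exact hx i (by simp)
    rw [h1] at hl
    cases hl with
    | bot => simp
    | step h1 h2 h3 => exact absurd h2 not_lt_bot
  | insert i J hi ih =>
    intro l hl
    obtain ⟨a, b, hab, ha, hb⟩ := hl.split (Pi.evalMonoidHom T i)
    have h1 : PJ T (insert i J) ⊓ (Pi.evalMonoidHom T i).ker = PJ T J := by
      ext x
      rw [Subgroup.mem_inf, MonoidHom.mem_ker, mem_PJ, mem_PJ]
      constructor
      · rintro ⟨h1, h2⟩ j hj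
        by_cases hji : j = i
        · subst hji; exact h2
        · exact h1 j (by simp [hji, hj])
      · intro h
        exact ⟨fun j hj => h j (fun hc => hj (Finset.mem_insert_of_mem hc)), h i hi⟩
    have h2 : (PJ T (insert i J)).map (Pi.evalMonoidHom T i) = ⊤ := by
      rw [eq_top_iff]
      intro t _
      refine ⟨Pi.mulSingle i t, ?_, by simp⟩
      intro j hj
      have : j ≠ i := fun h => hj (by simp [h])
      exact Pi.mulSingle_eq_of_ne this t
    rw [h1] at ha
    rw [h2] at hb
    have h3 := ih a ha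
    have h4 : b ≤ 1 := hb.simple (fun B _ hB => by
      have : IsSimpleGroup (T i) := hs i
      have hBn : B.Normal := ⟨fun x hx g => hB g trivial x hx⟩
      exact hBn.eq_bot_or_eq_top)
    rw [Finset.card_insert_of_notMem hi]
    omega

/-- The lemma on subgroups `M` of a direct product with full projections and
trivial intersections with the factors. -/
theorem sd_lemma (M : Subgroup (∀ i, T i)) (s1 : ∀ i, ∀ t : T i, ∃ x ∈ M, x i = t)
    (s2 : ∀ i, ∀ x ∈ M, (∀ j, j ≠ i → x j = 1) → x = 1)
    (s3 : ∀ i, ∀ a b : T i, a ≠ 1 → b ≠ 1 → ∃ c, ¬ Commute a (c * b * c⁻¹)) :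
    ∃ J : Finset ι, Fintype.card ι ≤ 2 * J.card ∧ ∀ x ∈ M, (∀ j, j ∉ J → x j = 1) → x = 1 := by
  classical
  let P : Finset ι → Prop := fun J => ∀ x ∈ M, (∀ j, j ∉ J → x j = 1) → x = 1
  have h0 : P ∅ := by
    intro x _ hx
    funext j
    exact hx j (by simp)
  have hfin : (Set.univ : Set (Finset ι)).Finite := Set.toFinite _
  obtain ⟨J, hJ, hmax⟩ := Finset.exists_max_image (Finset.univ.filter P) Finset.card ⟨∅, by simp [h0]⟩
  simp only [Finset.mem_filter, Finset.mem_univ, true_and] at hJ hmax
  refine ⟨J, ?_, hJ⟩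
  have hex : ∀ i : {i : ι // i ∉ J}, ∃ x ∈ M, (∀ j, j ∉ insert i.1 J → x j = 1) ∧ ∃ j : {j : ι // j ∈ J}, x j.1 ≠ 1 := by
    intro i
    have h1 : ¬ P (insert i.1 J) := by
      intro h
      have := hmax _ h
      rw [Finset.card_insert_of_notMem i.2] at this
      omega
    simp only [P] at h1
    push Not at h1
    obtain ⟨x, hxM, hx, hx1⟩ := h1
    refine ⟨x, hxM, hx, ?_⟩
    by_contra hcon
    push Not at hcon
    apply hx1
    apply s2 i.1 x hxM
    intro j hj
    by_cases hjJ : j ∈ J
    · exact hcon ⟨j, hjJ⟩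
    · exact hx j (by simp [hj, hjJ])
  choose x hxM hx φ hφ using hex
  have hinj : Injective φ := by
    intro i i' hii
    by_contra hne
    have hne' : i.1 ≠ i'.1 := fun h => hne (Subtype.ext h)
    obtain ⟨c, hc⟩ := s3 (φ i).1 (x i (φ i).1) (x i' (φ i).1) (hφ i) (by rw [hii]; exact hφ i')
    obtain ⟨y, hyM, hy⟩ := s1 (φ i).1 c
    let b := y * x i' * y⁻¹
    let w := x i * b * (x i)⁻¹ * b⁻¹
    have hbM : b ∈ M := M.mul_mem (M.mul_mem hyM (hxM i')) (M.inv_mem hyM)
    have hwM : w ∈ M := M.mul_mem (M.mul_mem (M.mul_mem (hxM i) hbM) (M.inv_mem (hxM i))) (M.inv_mem hbM)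
    have hw1 : w = 1 := by
      apply hJ w hwM
      intro l hl
      by_cases hli : l = i.1
      · have h1 : x i' l = 1 := by
          apply hx i' l
          rw [Finset.mem_insert, not_or]
          exact ⟨fun h => hne' (hli ▸ h), hl⟩
        simp [w, b, h1]
      · have h1 : x i l = 1 := by
          apply hx i l
          rw [Finset.mem_insert, not_or]
          exact ⟨hli, hl⟩
        simp [w, h1]
    apply hc
    have h2 := congrFun hw1 (φ i).1
    simp only [w, b, Pi.mul_apply, Pi.inv_apply, Pi.one_apply, hy] at h2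
    rw [mul_inv_eq_one, mul_inv_eq_iff_eq_mul] at h2
    exact h2
  have hc1 := Fintype.card_le_of_injective φ hinj
  rw [Fintype.card_subtype_compl, Fintype.card_coe] at hc1
  omega

theorem card_le_of_support {c : ℕ} (hc : ∀ i, Nat.card (T i) = c) (hfin : ∀ i, Finite (T i)) (M : Subgroup (∀ i, T i))
    (J : Finset ι) (hJ : ∀ x ∈ M, (∀ j, j ∉ J → x j = 1) → x = 1) :
    Nat.card M * c ^ J.card ≤ Nat.card (∀ i, T i) := by
  classical
  let F : M → (∀ i : {i : ι // i ∉ J}, T i.1) := fun x i => x.1 i.1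
  have hF : Injective F := by
    intro x y hxy
    apply Subtype.ext
    have h1 : x.1 * y.1⁻¹ = 1 := by
      apply hJ _ (M.mul_mem x.2 (M.inv_mem y.2))
      intro j hj
      have := congrFun hxy ⟨j, hj⟩
      rw [Pi.mul_apply, Pi.inv_apply, mul_inv_eq_one]
      exact this
    exact mul_inv_eq_one.1 h1
  have h1 : Nat.card M ≤ Nat.card (∀ i : {i : ι // i ∉ J}, T i.1) := Nat.card_le_card_of_injective F hF
  rw [Nat.card_pi] at h1 ⊢
  simp only [hc, Finset.prod_const, Finset.card_univ] at h1 ⊢
  rw [Fintype.card_subtype_compl, Fintype.card_coe] at h1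
  calc Nat.card M * c ^ J.card ≤ c ^ (Fintype.card ι - J.card) * c ^ J.card := Nat.mul_le_mul_right _ h1
    _ = c ^ (Fintype.card ι) := by
      rw [← pow_add]
      congr 1
      have := Finset.card_le_univ J
      omega

end pi

end Cfsg.Agent.H12.CL
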