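import Mathlib
import Cfsg.Agent.H12.CompLen5

/-!
# Coordinates on a nonabelian minimal normal subgroup
-/

set_option linter.unusedSectionVars false
set_option linter.unusedVariables false
set_option linter.style.longLine false

namespace Cfsg.Agent.H12.CL

open Function Cfsg.Agent.H22 Cfsg.Agent.H21

variable {G : Type} [Group G] [Finite G] {N T : Subgroup G}

/-- the conjugates of `T` -/
abbrev Fc (T : Subgroup G) : Type := {A : Subgroup G // ∃ g : G, T.map (MulAut.conj g).toMonoidHom = A}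

noncomputable instance instFintypeFc (T : Subgroup G) : Fintype (Fc T) := Fintype.ofFinite _

noncomputable instance instDecEqFc (T : Subgroup G) : DecidableEq (Fc T) := Classical.decEq _

theorem fc_soc (h : IsTSoc N T) (i : Fc T) : IsTSoc N i.1 := by
  obtain ⟨A, g, rfl⟩ := i
  exact h.conj g

theorem fc_comm (h : IsTSoc N T) : Pairwise fun i j : Fc T => ∀ x y : G, x ∈ i.1 → y ∈ j.1 → Commute x y := by
  rintro ⟨_, g, rfl⟩ ⟨_, g', rfl⟩ hne x y hx hy
  exact conj_commute h g g' (fun hh => hne (Subtype.ext hh)) x hx y hy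

theorem fc_card (h : IsTSoc N T) (i : Fc T) : Nat.card i.1 = Nat.card T := by
  obtain ⟨_, g, rfl⟩ := i
  exact Nat.card_congr (conj_equiv T g).some.toEquiv

theorem fc_le (h : IsTSoc N T) (i : Fc T) : i.1 ≤ N := (fc_soc h i).hT.le

theorem fc_iSup (h : IsTSoc N T) : (⨆ i : Fc T, i.1) = N := by
  rw [← iSup_conj_eq h.hN h.hT.le h.hT.ne_bot]
  apply le_antisymm
  · apply iSup_le
    rintro ⟨_, g, rfl⟩
    exact le_iSup (fun g : G => T.map (MulAut.conj g).toMonoidHom) g
  · apply iSup_le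
    intro g
    exact le_iSup (fun i : Fc T => i.1) ⟨_, g, rfl⟩

/-- the coordinates -/
noncomputable def eC (h : IsTSoc N T) : (∀ i : Fc T, i.1) →* G := Subgroup.noncommPiCoprod (fc_comm h)

theorem eC_inj (h : IsTSoc N T) : Injective (eC h) := by
  apply Subgroup.injective_noncommPiCoprod_of_iSupIndep
  intro i
  rw [Subgroup.disjoint_def]
  intro x hx hx'
  apply (fc_soc h i).eq_one hx
  intro y hy
  have h1 : (⨆ j : Fc T, ⨆ (_ : j ≠ i), j.1) ≤ Subgroup.centralizer (i.1 : Set G) := by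
    apply iSup_le
    intro j
    apply iSup_le
    intro hj z hz
    rw [Subgroup.mem_centralizer_iff]
    intro w hw
    exact (fc_comm h hj z w hz hw).eq.symm
  exact Subgroup.mem_centralizer_iff.1 (h1 hx') y hy

theorem eC_range (h : IsTSoc N T) : (eC h).range = N := by
  rw [eC, Subgroup.noncommPiCoprod_range, fc_iSup h]

theorem eC_single (h : IsTSoc N T) (i : Fc T) (t : i.1) : eC h (Pi.mulSingle i t) = t :=
  Subgroup.noncommPiCoprod_mulSingle i t

theorem eC_mem (h : IsTSoc N T) (x : ∀ i : Fc T, i.1) : eC h x ∈ N :=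
  (eC_range h).le ⟨x, rfl⟩

theorem eC_surj (h : IsTSoc N T) {g : G} (hg : g ∈ N) : ∃ x, eC h x = g :=
  (eC_range h).ge hg

/-- the elements with trivial `i`-th coordinate are those which centralise the `i`-th factor -/
theorem eC_comp_one (h : IsTSoc N T) (x : ∀ i : Fc T, i.1) (i : Fc T) :
    x i = 1 ↔ ∀ s ∈ i.1, s * eC h x = eC h x * s := by
  constructor
  · intro hx s hs
    have h1 : Commute (Pi.mulSingle i (⟨s, hs⟩ : i.1)) x := by
      rw [commute_iff_eq]
      funext j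
      rw [Pi.mul_apply, Pi.mul_apply]
      by_cases hj : j = i
      · subst hj; rw [hx]; simp
      · rw [Pi.mulSingle_eq_of_ne hj]; simp
    have h2 := h1.map (eC h)
    rw [eC_single] at h2
    exact h2
  · intro hx
    apply Subtype.ext
    apply (fc_soc h i).eq_one (x i).2
    intro s hs
    have h1 : Commute (Pi.mulSingle i (⟨s, hs⟩ : i.1)) x := by
      rw [commute_iff_eq]
      apply eC_inj h
      rw [map_mul, map_mul, eC_single]
      exact hx s hs
    have h2 := congrFun h1.eq i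
    rw [Pi.mul_apply, Pi.mul_apply, Pi.mulSingle_eq_same] at h2
    exact congrArg (fun (z : i.1) => (z : G)) h2

theorem eC_decomp (h : IsTSoc N T) (x : ∀ i : Fc T, i.1) (i : Fc T) :
    ∃ c ∈ N, (∀ s ∈ i.1, s * c = c * s) ∧ eC h x = (x i : G) * c := by
  let y : ∀ i : Fc T, i.1 := (Pi.mulSingle i (x i))⁻¹ * x
  refine ⟨eC h y, eC_mem h y, ?_, ?_⟩
  · apply (eC_comp_one h y i).1
    simp [y]
  · rw [← eC_single h i (x i), ← map_mul]
    simp [y]

theorem eC_comp (h : IsTSoc N T) (x : ∀ i : Fc T, i.1) (i : Fc T) {t c : G} (ht : t ∈ i.1) (hc : c ∈ N)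
    (hcc : ∀ s ∈ i.1, s * c = c * s) (hx : eC h x = t * c) : (x i : G) = t := by
  obtain ⟨z, rfl⟩ := eC_surj h hc
  have h1 := (eC_comp_one h z i).2 hcc
  have h2 : x = Pi.mulSingle i (⟨t, ht⟩ : i.1) * z := by
    apply eC_inj h
    rw [hx, map_mul, eC_single]
  rw [h2, Pi.mul_apply, h1]
  simp

/-- the projection of `N ∩ H` to the factor `A` -/
def RH (N H A : Subgroup G) : Subgroup G where
  carrier := {t | t ∈ A ∧ ∃ c ∈ N, (∀ s ∈ A, s * c = c * s) ∧ t * c ∈ H}
  mul_mem' := by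
    rintro a b ⟨ha, c, hc, hcc, hac⟩ ⟨hb, d, hd, hdc, hbd⟩
    refine ⟨A.mul_mem ha hb, c * d, N.mul_mem hc hd, ?_, ?_⟩
    · intro s hs
      rw [← mul_assoc, hcc s hs, mul_assoc, hdc s hs, mul_assoc]
    · have h1 : a * b * (c * d) = (a * c) * (b * d) := by
        calc a * b * (c * d) = a * (b * c) * d := by group
          _ = a * (c * b) * d := by rw [hcc b hb]
          _ = _ := by group
      rw [h1]
      exact H.mul_mem hac hbd
  one_mem' := ⟨A.one_mem, 1, N.one_mem, by simp, by simp⟩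
  inv_mem' := by
    rintro a ⟨ha, c, hc, hcc, hac⟩
    refine ⟨A.inv_mem ha, c⁻¹, N.inv_mem hc, ?_, ?_⟩
    · intro s hs
      have := hcc s hs
      calc s * c⁻¹ = c⁻¹ * (c * s) * c⁻¹ := by group
        _ = c⁻¹ * (s * c) * c⁻¹ := by rw [this]
        _ = _ := by group
    · have h1 : a⁻¹ * c⁻¹ = (a * c)⁻¹ := by
        rw [hcc a ha, mul_inv_rev]
      rw [h1]
      exact H.inv_mem hac

theorem mem_RH {H A : Subgroup G} {t : G} :
    t ∈ RH N H A ↔ t ∈ A ∧ ∃ c ∈ N, (∀ s ∈ A, s * c = c * s) ∧ t * c ∈ H := Iff.rfl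

theorem mem_map_eval (h : IsTSoc N T) (H : Subgroup G) (i : Fc T) (t : i.1) :
    t ∈ (H.comap (eC h)).map (Pi.evalMonoidHom _ i) ↔ (t : G) ∈ RH N H i.1 := by
  constructor
  · rintro ⟨x, hx, rfl⟩
    obtain ⟨c, hc, hcc, hxc⟩ := eC_decomp h x i
    refine ⟨(x i).2, c, hc, hcc, ?_⟩
    rw [SetLike.mem_coe, Subgroup.mem_comap, hxc] at hx
    exact hx
  · rintro ⟨_, c, hc, hcc, htc⟩
    obtain ⟨x, hx⟩ := eC_surj h (N.mul_mem (fc_le h i t.2) hc)
    refine ⟨x, ?_, ?_⟩
    · rw [SetLike.mem_coe, Subgroup.mem_comap, hx]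
      exact htc
    · apply Subtype.ext
      exact eC_comp h x i t.2 hc hcc hx

theorem card_RH (h : IsTSoc N T) (H : Subgroup G) (i : Fc T) :
    Nat.card ((H.comap (eC h)).map (Pi.evalMonoidHom _ i)) = Nat.card (RH N H i.1) := by
  apply Nat.card_congr
  refine ⟨fun t => ⟨(t.1 : G), (mem_map_eval h H i t.1).1 t.2⟩,
    fun t => ⟨⟨t.1, t.2.1⟩, (mem_map_eval h H i _).2 t.2⟩, ?_, ?_⟩
  · intro t; rfl
  · intro t; rfl

/-- `RH` is compatible with conjugation by elements of `H` -/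
theorem RH_conj {H A : Subgroup G} (hN : N.Normal) {y : G} (hy : y ∈ H) :
    RH N H (A.map (MulAut.conj y).toMonoidHom) = (RH N H A).map (MulAut.conj y).toMonoidHom := by
  have key : ∀ (B : Subgroup G) (z : G), z ∈ H → ∀ t ∈ RH N H B,
      z * t * z⁻¹ ∈ RH N H (B.map (MulAut.conj z).toMonoidHom) := by
    rintro B z hz t ⟨ht, c, hc, hcc, htc⟩
    refine ⟨⟨t, ht, by simp⟩, z * c * z⁻¹, hN.conj_mem c hc z, ?_, ?_⟩
    · rintro _ ⟨s, hs, rfl⟩
      have := hcc s hs
      simp only [MulEquiv.coe_toMonoidHom, MulAut.conj_apply]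
      calc z * s * z⁻¹ * (z * c * z⁻¹) = z * (s * c) * z⁻¹ := by group
        _ = _ := by rw [this]; group
    · have h1 : z * t * z⁻¹ * (z * c * z⁻¹) = z * (t * c) * z⁻¹ := by group
      rw [h1]
      exact H.mul_mem (H.mul_mem hz htc) (H.inv_mem hz)
  apply le_antisymm
  · intro t ht
    have h1 := key _ y⁻¹ (H.inv_mem hy) t ht
    rw [Subgroup.map_map] at h1
    have h2 : ((MulAut.conj y⁻¹).toMonoidHom.comp (MulAut.conj y).toMonoidHom) = MonoidHom.id G := by
      ext x
      simp [mul_assoc]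
    rw [h2, Subgroup.map_id] at h1
    exact ⟨_, h1, by simp [mul_assoc]⟩
  · rintro _ ⟨t, ht, rfl⟩
    exact key A y hy t ht

/-- all factors are conjugate under `H` -/
theorem fc_conj_H {H : Subgroup G} (h : IsTSoc N T) (hH : CFM H) (i : Fc T) :
    ∃ y ∈ H, i.1 = T.map (MulAut.conj y).toMonoidHom := by
  obtain ⟨_, g, rfl⟩ := i
  obtain ⟨x, hx, y, hy, rfl⟩ := hH.mul h.normal h.hN.ne_bot g
  refine ⟨y, hy, ?_⟩
  have h1 := (h.conj y).hT.conj
  apply le_antisymm
  · rintro _ ⟨t, ht, rfl⟩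
    have h2 := h1 x hx (y * t * y⁻¹) ⟨t, ht, by simp⟩
    simpa [mul_assoc] using h2
  · rintro _ ⟨t, ht, rfl⟩
    have h2 := h1 x⁻¹ (N.inv_mem hx) (y * t * y⁻¹) ⟨t, ht, by simp⟩
    obtain ⟨s, hs, hst⟩ := h2
    refine ⟨s, hs, ?_⟩
    simp only [MulEquiv.coe_toMonoidHom, MulAut.conj_apply] at hst ⊢
    calc x * y * s * (x * y)⁻¹ = x * (y * s * y⁻¹) * x⁻¹ := by group
      _ = _ := by rw [hst]; group

theorem card_RH_eq {H : Subgroup G} (h : IsTSoc N T) (hH : CFM H) (i : Fc T) :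
    Nat.card (RH N H i.1) = Nat.card (RH N H T) := by
  obtain ⟨y, hy, hi⟩ := fc_conj_H h hH i
  rw [hi, RH_conj h.normal hy]
  exact Nat.card_congr ((RH N H T).equivMapOfInjective _ (MulAut.conj y).injective).symm.toEquiv

/-- `|N ∩ H| · n = |N|` in coordinates -/
theorem card_comap {H : Subgroup G} (h : IsTSoc N T) (hH : CFM H) :
    Nat.card (H.comap (eC h)) * H.index = Nat.card (∀ i : Fc T, i.1) := by
  have h1 : Nat.card (∀ i : Fc T, i.1) = Nat.card N := by
    rw [Nat.card_congr (MonoidHom.ofInjective (eC_inj h)).toEquiv, eC_range]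
  have h2 : Nat.card (H.comap (eC h)) = Nat.card (N ⊓ H : Subgroup G) := by
    have h3 : (H.comap (eC h)).map (eC h) = N ⊓ H := by
      rw [Subgroup.map_comap_eq, eC_range]
    rw [← h3]
    exact Nat.card_congr ((H.comap (eC h)).equivMapOfInjective _ (eC_inj h)).toEquiv
  rw [h1, h2, hH.index h.normal h.hN.ne_bot, ← Subgroup.inf_relIndex_left, ← Subgroup.relIndex_bot_left,
    ← Subgroup.relIndex_bot_left, Subgroup.relIndex_mul_relIndex _ _ _ bot_le inf_le_left]

/-- the number of conjugates of `T` -/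
theorem index_normalizer_le (T : Subgroup G) : (Subgroup.normalizer (T : Set G)).index ≤ Nat.card (Fc T) := by
  classical
  let F : G ⧸ (Subgroup.normalizer (T : Set G)) → Fc T := fun q =>
    ⟨T.map (MulAut.conj q.out).toMonoidHom, q.out, rfl⟩
  have hF : Injective F := by
    intro a b hab
    have h1 : T.map (MulAut.conj a.out).toMonoidHom = T.map (MulAut.conj b.out).toMonoidHom :=
      congrArg (fun (z : Fc T) => z.1) hab
    rw [← QuotientGroup.out_eq' a, ← QuotientGroup.out_eq' b, QuotientGroup.eq]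
    rw [Subgroup.mem_normalizer_iff]
    intro x
    have key : ∀ g : G, x ∈ T ↔ g * x * g⁻¹ ∈ T.map (MulAut.conj g).toMonoidHom := by
      intro g
      rw [mem_cj]
      simp [mul_assoc]
    rw [key b.out, ← h1, mem_cj]
    simp [mul_assoc]
  exact Nat.card_le_card_of_injective F hF

end Cfsg.Agent.H12.CL
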