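import Mathlib
import Cfsg.Agent.H12.CompLen6

/-!
# Composition length of primitive groups with nonabelian socle
-/

set_option linter.unusedSectionVars false
set_option linter.unusedVariables false
set_option linter.style.longLine false

namespace Cfsg.Agent.H12.CL

open Function Cfsg.Agent.H22 Cfsg.Agent.H21

variable {G : Type} [Group G] [Finite G] {N T H : Subgroup G}

theorem Ch.map_top_equiv {A B : Type*} [Group A] [Group B] (e : A ≃* B) {l : ℕ} (h : Ch (⊤ : Subgroup A) l) :
    Ch (⊤ : Subgroup B) l := by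
  have h1 := h.map (f := e.toMonoidHom) e.injective
  have h2 : (⊤ : Subgroup A).map e.toMonoidHom = ⊤ := by
    rw [← MonoidHom.range_eq_map]
    exact MonoidHom.range_eq_top.2 e.surjective
  rwa [h2] at h1

/-- the composition length of `N` is at most the number of factors -/
theorem soc_chain (h : IsTSoc N T) {l : ℕ} (hl : Ch N l) : l ≤ Nat.card (Fc T) := by
  have h1 := hl.top_of
  let ε : N ≃* (∀ i : Fc T, i.1) :=
    ((MonoidHom.ofInjective (eC_inj h)).trans (MulEquiv.subgroupCongr (eC_range h))).symm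
  have h2 := h1.map_top_equiv ε
  have h3 : (⊤ : Subgroup (∀ i : Fc T, i.1)) = PJ (fun i : Fc T => i.1) Finset.univ := by
    ext x
    simp [mem_PJ]
  rw [h3] at h2
  have h4 := h2.pi_le (fun i => (fc_soc h i).isSimpleGroup)
  rwa [Finset.card_univ, ← Nat.card_eq_fintype_card] at h4

theorem quot_chain (hH : CFM H) {L : Subgroup G} (hL : L.Normal) (hL1 : L ≠ ⊥) {l : ℕ}
    (hl : Ch (⊤ : Subgroup G) l) :
    ∃ a b, l ≤ a + b ∧ Ch L a ∧ (∃ b', b ≤ b' ∧ Ch H b') ∧ (L ⊓ H ≠ ⊥ → ∃ b', b + 1 ≤ b' ∧ Ch H b') := by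
  obtain ⟨a, b, hab, ha, hb⟩ := hl.split (QuotientGroup.mk' L)
  rw [top_inf_eq, QuotientGroup.ker_mk'] at ha
  have hsurj : Surjective ((QuotientGroup.mk' L).comp H.subtype) := by
    intro q
    obtain ⟨g, rfl⟩ := QuotientGroup.mk_surjective q
    obtain ⟨x, hx, y, hy, rfl⟩ := hH.mul hL hL1 g
    refine ⟨⟨y, hy⟩, ?_⟩
    show ((y : G) : G ⧸ L) = ((x * y : G) : G ⧸ L)
    rw [QuotientGroup.eq]
    have := hL.conj_mem x hx y⁻¹
    simpa [mul_assoc] using this
  have htop : (⊤ : Subgroup G).map (QuotientGroup.mk' L) = ⊤ := by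
    rw [← MonoidHom.range_eq_map]
    exact MonoidHom.range_eq_top.2 (QuotientGroup.mk'_surjective L)
  rw [htop] at hb
  have key : ∀ a', Ch ((QuotientGroup.mk' L).comp H.subtype).ker a' → Ch H (a' + b) := by
    intro a' ha'
    have h1 := Ch.comap hsurj ha' hb
    rw [Subgroup.comap_top] at h1
    exact h1.of_top
  have key2 : ((QuotientGroup.mk' L).comp H.subtype).ker ≠ ⊥ → ∃ b', b + 1 ≤ b' ∧ Ch H b' := by
    intro hk
    exact ⟨1 + b, by omega, key 1 (Ch.of_ne_bot hk)⟩
  refine ⟨a, b, hab, ha, ?_, ?_⟩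
  · by_cases hk : ((QuotientGroup.mk' L).comp H.subtype).ker = ⊥
    · exact ⟨0 + b, by omega, key 0 (by rw [hk]; exact Ch.bot)⟩
    · obtain ⟨b', h1, h2⟩ := key2 hk
      exact ⟨b', by omega, h2⟩
  · intro hLH
    apply key2
    intro hk
    apply hLH
    rw [eq_bot_iff]
    intro x hx
    rw [Subgroup.mem_inf] at hx
    have h1 : (⟨x, hx.2⟩ : H) ∈ ((QuotientGroup.mk' L).comp H.subtype).ker := by
      rw [MonoidHom.mem_ker]
      show ((x : G) : G ⧸ L) = 1
      rw [QuotientGroup.eq_one_iff]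
      exact hx.1
    rw [hk, Subgroup.mem_bot] at h1
    rw [Subgroup.mem_bot]
    exact congrArg (fun (z : H) => (z : G)) h1

/-- the subgroup `(H ∩ N_G(T)) · C_N(T)` -/
def QQ (N H T : Subgroup G) (hN : N.Normal) : Subgroup G where
  carrier := {x | ∃ y ∈ H, y ∈ Subgroup.normalizer (T : Set G) ∧ ∃ c ∈ N, (∀ s ∈ T, s * c = c * s) ∧ x = y * c}
  mul_mem' := by
    rintro _ _ ⟨y, hy, hyn, c, hc, hcc, rfl⟩ ⟨y', hy', hyn', c', hc', hcc', rfl⟩
    refine ⟨y * y', H.mul_mem hy hy', Subgroup.mul_mem _ hyn hyn', (y'⁻¹ * c * y') * c',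
      N.mul_mem (by simpa using hN.conj_mem c hc y'⁻¹) hc', ?_, by group⟩
    intro s hs
    have h1 : y' * s * y'⁻¹ ∈ T := (Subgroup.mem_normalizer_iff.1 hyn' s).1 hs
    have h2 := hcc _ h1
    have h3 := hcc' s hs
    calc s * (y'⁻¹ * c * y' * c') = y'⁻¹ * ((y' * s * y'⁻¹) * c) * y' * c' := by group
      _ = (y'⁻¹ * c * y') * (s * c') := by rw [h2]; group
      _ = _ := by rw [h3]; group
  one_mem' := ⟨1, H.one_mem, Subgroup.one_mem _, 1, N.one_mem, by simp, by simp⟩
  inv_mem' := by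
    rintro _ ⟨y, hy, hyn, c, hc, hcc, rfl⟩
    refine ⟨y⁻¹, H.inv_mem hy, Subgroup.inv_mem _ hyn, y * c⁻¹ * y⁻¹, hN.conj_mem _ (N.inv_mem hc) y, ?_, by group⟩
    intro s hs
    have h1 : y⁻¹ * s * y ∈ T := by
      have := (Subgroup.mem_normalizer_iff.1 (Subgroup.inv_mem _ hyn) s).1 hs
      simpa using this
    have h2 := hcc _ h1
    calc s * (y * c⁻¹ * y⁻¹) = y * c⁻¹ * (c * (y⁻¹ * s * y)) * c⁻¹ * y⁻¹ := by group
      _ = y * c⁻¹ * ((y⁻¹ * s * y) * c) * c⁻¹ * y⁻¹ := by rw [h2]
      _ = _ := by group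

theorem mem_QQ {hN : N.Normal} {x : G} : x ∈ QQ N H T hN ↔
    ∃ y ∈ H, y ∈ Subgroup.normalizer (T : Set G) ∧ ∃ c ∈ N, (∀ s ∈ T, s * c = c * s) ∧ x = y * c := Iff.rfl

theorem N_le_norm (h : IsTSoc N T) : N ≤ Subgroup.normalizer (T : Set G) := by
  intro x hx
  rw [Subgroup.mem_normalizer_iff]
  intro t
  refine ⟨fun ht => h.hT.conj x hx t ht, fun ht => ?_⟩
  have := h.hT.conj x⁻¹ (N.inv_mem hx) _ ht
  simpa [mul_assoc] using this

theorem QQ_le (h : IsTSoc N T) : QQ N H T h.normal ≤ Subgroup.normalizer (T : Set G) := by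
  rintro _ ⟨y, hy, hyn, c, hc, hcc, rfl⟩
  exact Subgroup.mul_mem _ hyn (N_le_norm h hc)

theorem QQ_inf (h : IsTSoc N T) : QQ N H T h.normal ⊓ T = RH N H T := by
  ext t
  rw [Subgroup.mem_inf]
  constructor
  · rintro ⟨⟨y, hy, hyn, c, hc, hcc, hx⟩, ht⟩
    refine ⟨ht, c⁻¹, N.inv_mem hc, ?_, ?_⟩
    · intro s hs
      have := hcc s hs
      calc s * c⁻¹ = c⁻¹ * (c * s) * c⁻¹ := by group
        _ = c⁻¹ * (s * c) * c⁻¹ := by rw [this]
        _ = _ := by group
    · rw [hx]; simpa using hy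
  · rintro ⟨ht, c, hc, hcc, htc⟩
    refine ⟨⟨t * c, htc, ?_, c⁻¹, N.inv_mem hc, ?_, by group⟩, ht⟩
    · exact Subgroup.mul_mem _ (N_le_norm h (h.hT.le ht)) (N_le_norm h hc)
    · intro s hs
      have := hcc s hs
      calc s * c⁻¹ = c⁻¹ * (c * s) * c⁻¹ := by group
        _ = c⁻¹ * (s * c) * c⁻¹ := by rw [this]
        _ = _ := by group

theorem relIndex_le_of_mul {Q K A : Subgroup G} (hA : A ≤ K) (hmul : ∀ x ∈ K, ∃ t ∈ A, ∃ q ∈ Q, x = t * q) :
    Q.relIndex K ≤ Q.relIndex A := by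
  let F : A ⧸ Q.subgroupOf A → K ⧸ Q.subgroupOf K := Quotient.map' (fun a => ⟨a.1, hA a.2⟩) (fun a b h => by
    rw [QuotientGroup.leftRel_apply] at *
    rw [Subgroup.mem_subgroupOf] at *
    exact h)
  have hF : Surjective F := by
    intro q
    obtain ⟨x, rfl⟩ := QuotientGroup.mk_surjective q
    obtain ⟨t, ht, q, hq, hx⟩ := hmul x.1 x.2
    refine ⟨((⟨t, ht⟩ : A) : A ⧸ Q.subgroupOf A), ?_⟩
    show ((⟨t, hA ht⟩ : K) : K ⧸ Q.subgroupOf K) = (x : K ⧸ Q.subgroupOf K)
    rw [QuotientGroup.eq, Subgroup.mem_subgroupOf]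
    show t⁻¹ * x.1 ∈ Q
    rw [hx]
    simpa using hq
  exact Nat.card_le_card_of_surjective F hF

theorem QQ_index (h : IsTSoc N T) (hH : CFM H) :
    (QQ N H T h.normal).index ≤ (QQ N H T h.normal).relIndex T * Nat.card (Fc T) := by
  rw [← Subgroup.relIndex_mul_index (QQ_le h)]
  apply Nat.mul_le_mul _ (index_normalizer_le T)
  apply relIndex_le_of_mul Subgroup.le_normalizer
  intro g hg
  obtain ⟨x, hx, y, hy, rfl⟩ := hH.mul h.normal h.hN.ne_bot g
  obtain ⟨t, ht, c, hc, hcc, rfl⟩ := h.exists_mul hx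
  have hyn : y ∈ Subgroup.normalizer (T : Set G) := by
    have h1 := Subgroup.mul_mem _ (Subgroup.inv_mem _ (N_le_norm h hx)) hg
    simpa [mul_assoc] using h1
  refine ⟨t, ht, c * y, ⟨y, hy, hyn, y⁻¹ * c * y, by simpa using h.normal.conj_mem c hc y⁻¹, ?_, by group⟩, by group⟩
  intro s hs
  have h1 : y * s * y⁻¹ ∈ T := (Subgroup.mem_normalizer_iff.1 hyn s).1 hs
  have h2 := hcc _ h1
  calc s * (y⁻¹ * c * y) = y⁻¹ * ((y * s * y⁻¹) * c) * y := by group
    _ = _ := by rw [h2]; group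

theorem QQ_core (h : IsTSoc N T) (hH : CFM H) (hT : ¬ T ≤ QQ N H T h.normal) (L : Subgroup G) (hL : L.Normal)
    (hLQ : L ≤ QQ N H T h.normal) : L = ⊥ := by
  by_contra hL1
  apply hT
  refine le_trans h.hT.le ?_
  intro x hx
  obtain ⟨z, hz, y, hy, rfl⟩ := hH.mul hL hL1 x
  have hyn : y ∈ Subgroup.normalizer (T : Set G) := by
    have h1 := Subgroup.mul_mem _ (Subgroup.inv_mem _ (QQ_le h (hLQ hz))) (N_le_norm h hx)
    simpa [mul_assoc] using h1
  exact Subgroup.mul_mem _ (hLQ hz) ⟨y, hy, hyn, 1, N.one_mem, by simp, by simp⟩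

theorem RH_le (N H A : Subgroup G) : RH N H A ≤ A := fun t ht => (mem_RH.1 ht).1

theorem lower_bound (h : IsTSoc N T) (hH : CFM H) :
    ((QQ N H T h.normal).relIndex T) ^ (Nat.card (Fc T)) ≤ H.index := by
  set m := (QQ N H T h.normal).relIndex T with hm
  have h1 : m = (RH N H T).relIndex T := by
    rw [← QQ_inf h, Subgroup.inf_relIndex_right]
  have h2 : Nat.card (RH N H T) * m = Nat.card T := by
    rw [h1, ← Subgroup.relIndex_bot_left, ← Subgroup.relIndex_bot_left,
      Subgroup.relIndex_mul_relIndex _ _ _ bot_le (RH_le N H T)]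
  have h3 : Nat.card (H.comap (eC h)) ≤ Nat.card (RH N H T) ^ (Nat.card (Fc T)) := by
    let F : (H.comap (eC h)) → (∀ i : Fc T, (H.comap (eC h)).map (Pi.evalMonoidHom (fun i : Fc T => i.1) i)) :=
      fun x i => ⟨x.1 i, x.1, x.2, rfl⟩
    have hF : Injective F := by
      intro x y hxy
      apply Subtype.ext
      funext i
      have := congrFun hxy i
      exact congrArg (fun z => z.1) this
    have h4 := Nat.card_le_card_of_injective F hF
    rw [Nat.card_pi] at h4
    refine h4.trans (le_of_eq ?_)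
    have h5 : ∀ i : Fc T, Nat.card ((H.comap (eC h)).map (Pi.evalMonoidHom (fun i : Fc T => i.1) i)) =
        Nat.card (RH N H T) := fun i => by rw [card_RH h H i, card_RH_eq h hH i]
    simp only [h5, Finset.prod_const, Finset.card_univ, Nat.card_eq_fintype_card]
  have h4 := card_comap h hH
  have h5 : Nat.card (∀ i : Fc T, i.1) = Nat.card T ^ (Nat.card (Fc T)) := by
    rw [Nat.card_pi]
    simp only [fc_card h, Finset.prod_const, Finset.card_univ, Nat.card_eq_fintype_card]
  rw [h5, ← h2, mul_pow] at h4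
  have h6 : 0 < Nat.card (RH N H T) ^ (Nat.card (Fc T)) := pow_pos Nat.card_pos _
  have h7 : Nat.card (RH N H T) ^ (Nat.card (Fc T)) * m ^ (Nat.card (Fc T)) ≤
      Nat.card (RH N H T) ^ (Nat.card (Fc T)) * H.index := by
    rw [← h4]
    exact Nat.mul_le_mul_right _ h3
  exact Nat.le_of_mul_le_mul_left h7 h6

theorem pow_bound {m k : ℕ} (hm : 3 ≤ m) (hk : 2 ≤ k) : m * k < m ^ k := by
  induction k, hk using Nat.le_induction with
  | base => nlinarith
  | succ k hk ih =>
    rw [pow_succ]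
    have h1 : m * k * m < m ^ k * m := Nat.mul_lt_mul_of_pos_right ih (by omega)
    have h2 : m * (k + 1) ≤ m * k * m := by
      have : k + 1 ≤ k * m := by nlinarith
      calc m * (k + 1) ≤ m * (k * m) := Nat.mul_le_mul_left _ this
        _ = _ := by ring
    omega

/-- the case where the projection of `N ∩ H` to the factors is proper -/
theorem case_proper {n : ℕ} (IH : ∀ m < n, Bd m) (h : IsTSoc N T) (hH : CFM H) (hn : H.index = n)
    (hk : 2 ≤ Nat.card (Fc T)) (hT : ¬ T ≤ QQ N H T h.normal) {l : ℕ} (hl : Ch (⊤ : Subgroup G) l) :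
    3 * l + 4 ≤ 4 * n := by
  set m := (QQ N H T h.normal).relIndex T with hm
  have hm0 : m ≠ 0 := Subgroup.index_ne_zero_of_finite
  have hm1 : m ≠ 1 := by
    rw [hm, Ne, Subgroup.relIndex_eq_one]
    exact hT
  have hm2 : m ≠ 2 := by
    intro h2
    have h3 : ((QQ N H T h.normal).subgroupOf T).index = 2 := h2
    have h4 : ((QQ N H T h.normal).subgroupOf T).Normal := Subgroup.normal_of_index_eq_two h3
    have : IsSimpleGroup T := h.isSimpleGroup
    rcases h4.eq_bot_or_eq_top with h5 | h5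
    · rw [h5, Subgroup.index_bot] at h3
      have : Fact (Nat.Prime 2) := ⟨Nat.prime_two⟩
      exact h.not_pgroup 2 (IsPGroup.of_card (n := 1) (by rw [h3]; norm_num))
    · rw [h5, Subgroup.index_top] at h3
      omega
  have h1 := QQ_index h hH
  have h2 := lower_bound h hH
  rw [← hm] at h1 h2
  rw [hn] at h2
  have h3 := pow_bound (show 3 ≤ m by omega) hk
  have hidx : (QQ N H T h.normal).index < n := lt_of_le_of_lt h1 (lt_of_lt_of_le h3 h2)
  have h4 := bound_core IH (QQ N H T h.normal) hidx (QQ_core h hH hT) hl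
  omega

theorem pow_bound2 {c j k : ℕ} (hc : 5 ≤ c) (hk : 3 ≤ k) (hj : k ≤ 2 * j) : c * k < c ^ j := by
  have hj2 : 2 ≤ j := by omega
  have key : c * (2 * j) < c ^ j := by
    clear hj hk
    induction j, hj2 using Nat.le_induction with
    | base => nlinarith
    | succ j hj ih =>
      rw [pow_succ]
      have h1 : c * (2 * j) * c < c ^ j * c := Nat.mul_lt_mul_of_pos_right ih (by omega)
      have h2 : c * (2 * (j + 1)) ≤ c * (2 * j) * c := by
        have : 2 * (j + 1) ≤ 2 * j * c := by nlinarith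
        calc c * (2 * (j + 1)) ≤ c * (2 * j * c) := Nat.mul_le_mul_left _ this
          _ = _ := by ring
      omega
  have : c * k ≤ c * (2 * j) := Nat.mul_le_mul_left _ hj
  omega

/-- the index of the centralizer of an element of `T` -/
theorem index_cent (h : IsTSoc N T) {t : G} (ht : t ∈ T) (ht1 : t ≠ 1) :
    (Subgroup.centralizer {t}).index ≤ Nat.card T * Nat.card (Fc T) := by
  have hle : Subgroup.centralizer {t} ≤ Subgroup.normalizer (T : Set G) := by
    intro g hg
    rw [Subgroup.mem_centralizer_singleton_iff] at hg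
    rcases h.conj_dich g with h1 | h1
    · rw [Subgroup.mem_normalizer_iff]
      exact h1
    · exfalso
      apply ht1
      apply h.eq_one ht
      intro s hs
      have h2 := h1 t ht s hs
      have h3 : g * t * g⁻¹ = t := by rw [hg]; group
      rw [h3] at h2
      exact h2
  rw [← Subgroup.relIndex_mul_index hle]
  apply Nat.mul_le_mul _ (index_normalizer_le T)
  let K := Subgroup.normalizer (T : Set G)
  let F : K ⧸ (Subgroup.centralizer {t}).subgroupOf K → T := fun q =>
    ⟨q.out.1 * t * q.out.1⁻¹, (Subgroup.mem_normalizer_iff.1 q.out.2 t).1 ht⟩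
  have hF : Injective F := by
    intro a b hab
    have h1 : a.out.1 * t * a.out.1⁻¹ = b.out.1 * t * b.out.1⁻¹ := congrArg (fun (z : T) => z.1) hab
    rw [← QuotientGroup.out_eq' a, ← QuotientGroup.out_eq' b, QuotientGroup.eq, Subgroup.mem_subgroupOf]
    show a.out.1⁻¹ * b.out.1 ∈ _
    rw [Subgroup.mem_centralizer_singleton_iff]
    calc a.out.1⁻¹ * b.out.1 * t = a.out.1⁻¹ * (b.out.1 * t * b.out.1⁻¹) * b.out.1 := by group
      _ = a.out.1⁻¹ * (a.out.1 * t * a.out.1⁻¹) * b.out.1 := by rw [h1]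
      _ = _ := by group
  exact Nat.card_le_card_of_injective F hF

/-- the case where `N ∩ H` projects onto the factors -/
theorem case_diag {n : ℕ} (IH : ∀ m < n, Bd m) (h : IsTSoc N T) (hH : CFM H) (hn : H.index = n)
    (hk : 3 ≤ Nat.card (Fc T)) (hT : T ≤ QQ N H T h.normal) {l : ℕ} (hl : Ch (⊤ : Subgroup G) l) :
    3 * l + 4 ≤ 4 * n := by
  classical
  have hR : RH N H T = T := by
    rw [← QQ_inf h]
    exact inf_eq_right.2 hT
  have hRi : ∀ i : Fc T, RH N H i.1 = i.1 := by
    intro i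
    apply Subgroup.eq_of_le_of_card_ge (RH_le N H i.1)
    rw [card_RH_eq h hH i, hR, fc_card h i]
  have s1 : ∀ i : Fc T, ∀ t : i.1, ∃ x ∈ H.comap (eC h), x i = t := by
    intro i t
    have h1 := (mem_map_eval h H i t).2 (by rw [hRi i]; exact t.2)
    obtain ⟨x, hx, hxt⟩ := h1
    exact ⟨x, hx, hxt⟩
  have hTH : ∀ i : Fc T, ¬ i.1 ≤ H := by
    intro i hi
    obtain ⟨y, hy, hiy⟩ := fc_conj_H h hH i
    have hTle : T ≤ H := by
      intro t ht
      have h1 : y * t * y⁻¹ ∈ i.1 := by rw [hiy]; exact ⟨t, ht, by simp⟩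
      have h2 := H.mul_mem (H.mul_mem (H.inv_mem hy) (hi h1)) hy
      simpa [mul_assoc] using h2
    have h3 : N ≤ H := by
      rw [← fc_iSup h]
      apply iSup_le
      intro j
      obtain ⟨z, hz, hjz⟩ := fc_conj_H h hH j
      rw [hjz]
      rintro _ ⟨t, ht, rfl⟩
      exact H.mul_mem (H.mul_mem hz (hTle ht)) (H.inv_mem hz)
    exact h.hN.ne_bot (hH.core N h.normal h3)
  have s2 : ∀ i : Fc T, ∀ x ∈ H.comap (eC h), (∀ j, j ≠ i → x j = 1) → x = 1 := by
    intro i x hx hxj
    have h1 : x = Pi.mulSingle i (x i) := by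
      funext j
      by_cases hj : j = i
      · subst hj; simp
      · rw [hxj j hj, Pi.mulSingle_eq_of_ne hj]
    have h2 : (x i : G) ∈ H := by
      rw [Subgroup.mem_comap, h1, eC_single] at hx
      exact hx
    have : IsSimpleGroup i.1 := (fc_soc h i).isSimpleGroup
    have hV : (H.subgroupOf i.1).Normal := by
      constructor
      intro v hv t
      rw [Subgroup.mem_subgroupOf] at *
      have h3 : (t : G) ∈ RH N H i.1 := by rw [hRi i]; exact t.2
      obtain ⟨_, c, hc, hcc, htc⟩ := h3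
      have h4 := hcc v v.2
      have h5 : ((t * v * t⁻¹ : i.1) : G) = ((t : G) * c) * v * ((t : G) * c)⁻¹ := by
        calc ((t * v * t⁻¹ : i.1) : G) = t * (v * c) * c⁻¹ * (t : G)⁻¹ := by simp [mul_assoc]
          _ = _ := by rw [h4]; group
      rw [h5]
      exact H.mul_mem (H.mul_mem htc hv) (H.inv_mem htc)
    rcases hV.eq_bot_or_eq_top with h6 | h6
    · have h7 : x i ∈ H.subgroupOf i.1 := by
        rw [Subgroup.mem_subgroupOf]; exact h2
      rw [h6, Subgroup.mem_bot] at h7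
      rw [h1, h7]
      simp
    · exfalso
      rw [Subgroup.subgroupOf_eq_top] at h6
      exact hTH i h6
  have s3 : ∀ i : Fc T, ∀ a b : i.1, a ≠ 1 → b ≠ 1 → ∃ c, ¬ Commute a (c * b * c⁻¹) := by
    intro i a b ha hb
    by_contra hcon
    push Not at hcon
    have : IsSimpleGroup i.1 := (fc_soc h i).isSimpleGroup
    have h1 : Subgroup.normalClosure {b} ≤ Subgroup.centralizer {a} := by
      rw [Subgroup.normalClosure, Subgroup.closure_le]
      intro x hx
      rw [Group.mem_conjugatesOfSet_iff] at hx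
      obtain ⟨b', hb', hx⟩ := hx
      rw [Set.mem_singleton_iff] at hb'
      subst hb'
      rw [isConj_iff] at hx
      obtain ⟨c, rfl⟩ := hx
      rw [SetLike.mem_coe, Subgroup.mem_centralizer_singleton_iff]
      exact (hcon c).eq.symm
    have h2 : Subgroup.normalClosure {b} = ⊤ := by
      rcases (Subgroup.normalClosure_normal (s := {b})).eq_bot_or_eq_top with h3 | h3
      · exfalso
        apply hb
        have : b ∈ Subgroup.normalClosure {b} := Subgroup.subset_normalClosure rfl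
        rw [h3, Subgroup.mem_bot] at this
        exact this
      · exact h3
    rw [h2] at h1
    apply ha
    apply Subtype.ext
    apply (fc_soc h i).eq_one a.2
    intro s hs
    have h3 : (⟨s, hs⟩ : i.1) ∈ Subgroup.centralizer {a} := h1 trivial
    rw [Subgroup.mem_centralizer_singleton_iff] at h3
    exact congrArg (fun (z : i.1) => (z : G)) h3
  obtain ⟨J, hJ, hJM⟩ := sd_lemma (H.comap (eC h)) s1 s2 s3
  have h1 := card_le_of_support (c := Nat.card T) (fun i : Fc T => fc_card h i) (fun i => inferInstance)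
    (H.comap (eC h)) J hJM
  rw [← card_comap h hH, hn] at h1
  have h2 : Nat.card T ^ J.card ≤ n := Nat.le_of_mul_le_mul_left h1 Nat.card_pos
  have hc5 : 5 ≤ Nat.card T := by
    by_contra hlt
    have h0 : 0 < Nat.card T := Nat.card_pos
    have : Fact (Nat.Prime 2) := ⟨Nat.prime_two⟩
    have : Fact (Nat.Prime 3) := ⟨Nat.prime_three⟩
    have h3 : Nat.card T = 2 ^ 0 ∨ Nat.card T = 2 ^ 1 ∨ Nat.card T = 3 ^ 1 ∨ Nat.card T = 2 ^ 2 := by
      generalize Nat.card T = q at hlt h0
      rcases q with _ | _ | _ | _ | _ | q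
      · omega
      · left; norm_num
      · right; left; norm_num
      · right; right; left; norm_num
      · right; right; right; norm_num
      · omega
    rcases h3 with h3 | h3 | h3 | h3
    · exact h.not_pgroup 2 (IsPGroup.of_card h3)
    · exact h.not_pgroup 2 (IsPGroup.of_card h3)
    · exact h.not_pgroup 3 (IsPGroup.of_card h3)
    · exact h.not_pgroup 2 (IsPGroup.of_card h3)
  rw [← Nat.card_eq_fintype_card] at hJ
  have h3 := pow_bound2 hc5 hk hJ
  -- an element of `T`
  obtain ⟨t, ht, ht1⟩ : ∃ t ∈ T, t ≠ 1 := by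
    by_contra hcon
    push Not at hcon
    exact h.hT.ne_bot (by rw [eq_bot_iff]; intro x hx; rw [Subgroup.mem_bot]; exact hcon x hx)
  have h4 := index_cent h ht ht1
  have hNH : N ⊓ H ≠ ⊥ := by
    intro hbot
    have h5 : t ∈ RH N H T := by rw [hR]; exact ht
    obtain ⟨_, c, hc, hcc, htc⟩ := h5
    have h6 : t * c ∈ N ⊓ H := Subgroup.mem_inf.2 ⟨N.mul_mem (h.hT.le ht) hc, htc⟩
    rw [hbot, Subgroup.mem_bot] at h6
    apply ht1
    apply h.eq_one ht
    intro s hs
    have h7 : t = c⁻¹ := mul_eq_one_iff_eq_inv.1 h6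
    have h8 := hcc s hs
    rw [h7]
    calc s * c⁻¹ = c⁻¹ * (c * s) * c⁻¹ := by group
      _ = c⁻¹ * (s * c) * c⁻¹ := by rw [h8]
      _ = _ := by group
  have hidx : (Subgroup.centralizer {t}).index < n := lt_of_le_of_lt h4 (lt_of_lt_of_le h3 h2)
  have hcore : ∀ L : Subgroup G, L.Normal → L ≤ Subgroup.centralizer {t} → L = ⊥ := by
    intro L hL hLt
    by_contra hL1
    have hinfn : (L ⊓ N).Normal := by
      have := hL
      have := h.normal
      infer_instance
    rcases h.hN.min (L ⊓ N) (fun g _ x hx => hinfn.conj_mem x hx g) inf_le_right with h5 | h5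
    · have h6 := commute_of_inf_eq_bot (N := ⊤) (A := L) (B := N) le_top le_top
        (fun g _ x hx => hL.conj_mem x hx g) (fun g _ x hx => h.normal.conj_mem x hx g) h5
      apply hNH
      apply hH.eq_bot hL hL1 inf_le_right
      · intro y hy a ha
        rw [Subgroup.mem_inf] at *
        exact ⟨h.normal.conj_mem a ha.1 y, H.mul_mem (H.mul_mem hy ha.2) (H.inv_mem hy)⟩
      · intro x hx a ha
        exact h6 x hx a (Subgroup.mem_inf.1 ha).1
    · apply ht1
      apply h.eq_one ht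
      intro s hs
      have h6 : s ∈ L ⊓ N := by rw [h5]; exact h.hT.le hs
      have h7 := hLt (Subgroup.mem_inf.1 h6).1
      rw [Subgroup.mem_centralizer_singleton_iff] at h7
      exact h7
  have h5 := bound_core IH (Subgroup.centralizer {t}) hidx hcore hl
  omega

theorem prim_bound {n : ℕ} (hn2 : 2 ≤ n) (IH : ∀ m < n, Bd m) : Pb n := by
  intro G _ _ H hn hco hcore l hl
  have hH : CFM H := ⟨hco, hcore⟩
  by_cases hab : ∃ A : Subgroup G, A.Normal ∧ (∀ a ∈ A, ∀ b ∈ A, a * b = b * a) ∧ A ≠ ⊥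
  · obtain ⟨A, hA, hAc, hA1⟩ := hab
    exact prim_abelian hH hn hA hAc hA1 hl
  · push Not at hab
    have : Nontrivial G := by
      by_contra hnt
      rw [not_nontrivial_iff_subsingleton] at hnt
      apply hco.1
      rw [eq_top_iff]
      intro x _
      rw [Subsingleton.elim x 1]
      exact H.one_mem
    obtain ⟨N, T, h⟩ := exists_isTSoc hab
    obtain ⟨a, b, hlab, ha, ⟨b', hbb', hb'⟩, hinf⟩ := quot_chain hH h.normal h.hN.ne_bot hl
    have h1 := soc_chain h ha
    have h2 := bound_stab IH H hn hn2 hcore hb'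
    by_cases hk1 : Nat.card (Fc T) ≤ 1
    · omega
    by_cases hTQ : T ≤ QQ N H T h.normal
    · by_cases hk2 : Nat.card (Fc T) = 2
      · have hNH : N ⊓ H ≠ ⊥ := by
          intro hbot
          obtain ⟨t, ht, ht1⟩ : ∃ t ∈ T, t ≠ 1 := by
            by_contra hcon
            push Not at hcon
            exact h.hT.ne_bot (by rw [eq_bot_iff]; intro x hx; rw [Subgroup.mem_bot]; exact hcon x hx)
          have h5 : t ∈ RH N H T := by rw [← QQ_inf h]; exact Subgroup.mem_inf.2 ⟨hTQ ht, ht⟩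
          obtain ⟨_, c, hc, hcc, htc⟩ := h5
          have h6 : t * c ∈ N ⊓ H := Subgroup.mem_inf.2 ⟨N.mul_mem (h.hT.le ht) hc, htc⟩
          rw [hbot, Subgroup.mem_bot] at h6
          apply ht1
          apply h.eq_one ht
          intro s hs
          have h7 : t = c⁻¹ := mul_eq_one_iff_eq_inv.1 h6
          have h8 := hcc s hs
          rw [h7]
          calc s * c⁻¹ = c⁻¹ * (c * s) * c⁻¹ := by group
            _ = c⁻¹ * (s * c) * c⁻¹ := by rw [h8]
            _ = _ := by group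
        obtain ⟨b'', hbb'', hb''⟩ := hinf hNH
        have h3 := bound_stab IH H hn hn2 hcore hb''
        omega
      · exact case_diag IH h hH hn (by omega) hTQ hl
    · exact case_proper IH h hH hn (by omega) hTQ hl

theorem Bd_all : ∀ n, Bd n := Bd_of_Pb (fun _ hn2 IH => prim_bound hn2 IH)

end Cfsg.Agent.H12.CL
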