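import Mathlib
import Cfsg.Prelude.Def_GeometricClasses
import Cfsg.Agent.H12.Transv

/-!
`sl_le_of_irred`: an irreducible subgroup of `GL ι F` containing all transvections with one given centre
contains `SL`.
-/

set_option autoImplicit false
set_option linter.unusedSectionVars false

open scoped MatrixGroups Matrix

namespace Cfsg.Agent.H12

variable {ι : Type} [Fintype ι] [DecidableEq ι] {F : Type*} [Field F]

/-- a linear functional as a dot product -/
lemma dual_eq_dot (l : (ι → F) →ₗ[F] F) (x : ι → F) : l x = (fun j => l (Pi.single j 1)) ⬝ᵥ x := by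
  conv_lhs => rw [pi_eq_sum_univ' x]
  rw [map_sum]
  simp only [dotProduct]
  apply Finset.sum_congr rfl
  intro j _
  rw [map_smul, smul_eq_mul, mul_comm]

lemma exists_dot_of_notMem (W : Submodule F (ι → F)) {x : ι → F} (hx : x ∉ W) :
    ∃ φ : ι → F, (∀ y ∈ W, φ ⬝ᵥ y = 0) ∧ φ ⬝ᵥ x = 1 := by
  obtain ⟨l, hl, hlW⟩ := Submodule.exists_le_ker_of_notMem hx
  refine ⟨fun j => (l x)⁻¹ * l (Pi.single j 1), ?_, ?_⟩
  · intro y hy
    have h1 : l y = 0 := hlW hy
    have h2 := dual_eq_dot l y
    have : (fun j => (l x)⁻¹ * l (Pi.single j 1)) = (l x)⁻¹ • (fun j => l (Pi.single j 1)) := by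
      ext j; simp
    rw [this, smul_dotProduct, ← h2, h1, smul_zero]
  · have h2 := dual_eq_dot l x
    have : (fun j => (l x)⁻¹ * l (Pi.single j 1)) = (l x)⁻¹ • (fun j => l (Pi.single j 1)) := by
      ext j; simp
    rw [this, smul_dotProduct, ← h2, smul_eq_mul, inv_mul_cancel₀ hl]

lemma exists_dot_span {x y : ι → F} (hx : x ∉ Submodule.span F {y}) :
    ∃ φ : ι → F, φ ⬝ᵥ y = 0 ∧ φ ⬝ᵥ x = 1 := by
  obtain ⟨φ, h1, h2⟩ := exists_dot_of_notMem _ hx
  exact ⟨φ, h1 y (Submodule.mem_span_singleton_self y), h2⟩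

/-- `H` leaves the subspace `Y` invariant. -/
def Inv (H : Subgroup (GL ι F)) (Y : Submodule F (ι → F)) : Prop :=
  ∀ h ∈ H, ∀ y ∈ Y, (h : Matrix ι ι F) *ᵥ y ∈ Y

theorem sl_le_of_irred {H : Subgroup (GL ι F)}
    (hirr : ∀ Y : Submodule F (ι → F), Inv H Y → Y = ⊥ ∨ Y = ⊤) (hcard : 2 ≤ Fintype.card ι)
    {w : ι → F} (hw : w ≠ 0) (hall : ∀ φ : ι → F, φ ⬝ᵥ w = 0 → tv w φ ∈ H) :
    Geo.specialLinear ι F ≤ H := by
  classical
  let O : Set (ι → F) := {x | ∃ h ∈ H, ((h : GL ι F) : Matrix ι ι F) *ᵥ w = x}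
  have hwO : w ∈ O := ⟨1, one_mem _, by simp⟩
  have hOinv : ∀ h ∈ H, ∀ x ∈ O, ((h : GL ι F) : Matrix ι ι F) *ᵥ x ∈ O := by
    rintro h hh x ⟨k, hk, rfl⟩
    exact ⟨h * k, mul_mem hh hk, gl_mul_mulVec _ _ _⟩
  have hO0 : ∀ x ∈ O, x ≠ 0 := by
    rintro x ⟨k, hk, rfl⟩
    exact gl_mulVec_ne_zero k hw
  have hOtv : ∀ x ∈ O, ∀ φ : ι → F, φ ⬝ᵥ x = 0 → tv x φ ∈ H := by
    rintro x ⟨k, hk, rfl⟩ φ hφ
    have h2 : (φ ᵥ* (k : Matrix ι ι F)) ⬝ᵥ w = 0 := by
      rw [← Matrix.dotProduct_mulVec, hφ]
    have h1 : tv ((k : Matrix ι ι F) *ᵥ w) φ = k * tv w (φ ᵥ* (k : Matrix ι ι F)) * k⁻¹ := by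
      rw [conj_tv k h2, Matrix.vecMul_vecMul, ← Units.val_mul, mul_inv_cancel, Units.val_one,
        Matrix.vecMul_one]
    rw [h1]
    exact mul_mem (mul_mem hk (hall _ h2)) (inv_mem hk)
  -- adding multiples
  have hadd : ∀ x ∈ O, ∀ y ∈ O, x ∉ Submodule.span F {y} → ∀ t : F, x + t • y ∈ O := by
    intro x hx y hy hxy t
    obtain ⟨φ, h1, h2⟩ := exists_dot_span hxy
    have h3 : (t • φ) ⬝ᵥ y = 0 := by rw [smul_dotProduct, h1, smul_zero]
    have h4 := hOinv _ (hOtv y hy (t • φ) h3) x hx
    rwa [tv_mulVec h3, smul_dotProduct, h2, smul_eq_mul, mul_one] at h4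
  -- a second vector
  have hw' : ∃ w' ∈ O, w' ∉ Submodule.span F {w} := by
    by_contra hcon
    push Not at hcon
    rcases hirr (Submodule.span F {w}) (by
      intro h hh y hy
      obtain ⟨c, rfl⟩ := Submodule.mem_span_singleton.mp hy
      rw [Matrix.mulVec_smul]
      exact Submodule.smul_mem _ _ (hcon _ (hOinv h hh w hwO))) with h1 | h1
    · rw [Submodule.span_singleton_eq_bot] at h1; exact hw h1
    · have h2 := finrank_span_le_card (R := F) ({w} : Set (ι → F))
      rw [h1, finrank_top, Module.finrank_fintype_fun_eq_card] at h2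
      simp at h2
      omega
  obtain ⟨w', hw'O, hw'⟩ := hw'
  have hww' : w ∉ Submodule.span F {w'} := by
    intro h
    obtain ⟨c, hc⟩ := Submodule.mem_span_singleton.mp h
    have hc0 : c ≠ 0 := by
      rintro rfl
      apply hw
      rw [← hc, zero_smul]
    apply hw'
    rw [Submodule.mem_span_singleton]
    exact ⟨c⁻¹, by rw [← hc, smul_smul, inv_mul_cancel₀ hc0, one_smul]⟩
  have hscal_w : ∀ t : F, t ≠ 0 → t • w ∈ O := by
    intro t ht
    have h1 : w' + t • w ∈ O := hadd w' hw'O w hwO hw' t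
    have h2 : w' + t • w ∉ Submodule.span F {w'} := by
      intro h
      have h3 : t • w ∈ Submodule.span F {w'} := by
        have := Submodule.sub_mem _ h (Submodule.mem_span_singleton_self w')
        rwa [add_sub_cancel_left] at this
      have h4 := Submodule.smul_mem _ t⁻¹ h3
      rw [smul_smul, inv_mul_cancel₀ ht, one_smul] at h4
      exact hww' h4
    have h3 := hadd _ h1 w' hw'O h2 (-1)
    rwa [show w' + t • w + (-1 : F) • w' = t • w by module] at h3
  have hscal : ∀ x ∈ O, ∀ t : F, t ≠ 0 → t • x ∈ O := by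
    rintro x ⟨k, hk, rfl⟩ t ht
    rw [← Matrix.mulVec_smul]
    exact hOinv k hk _ (hscal_w t ht)
  let Y : Submodule F (ι → F) :=
    { carrier := {x | x ∈ O ∨ x = 0}
      add_mem' := by
        intro a b ha hb
        rcases ha with ha | rfl
        · rcases hb with hb | rfl
          · by_cases hab : a ∈ Submodule.span F {b}
            · obtain ⟨c, rfl⟩ := Submodule.mem_span_singleton.mp hab
              by_cases hc : c + 1 = 0
              · right
                rw [show c • b + b = (c + 1) • b by module, hc, zero_smul]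
              · left
                rw [show c • b + b = (c + 1) • b by module]
                exact hscal b hb _ hc
            · left
              have := hadd a ha b hb hab 1
              rwa [one_smul] at this
          · left; rwa [add_zero]
        · rw [zero_add]; exact hb
      zero_mem' := Or.inr rfl
      smul_mem' := by
        intro c x hx
        rcases hx with hx | rfl
        · by_cases hc : c = 0
          · right; rw [hc, zero_smul]
          · left; exact hscal x hx c hc
        · right; rw [smul_zero] }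
  have hYinv : Inv H Y := by
    intro h hh y hy
    rcases hy with hy | rfl
    · exact Or.inl (hOinv h hh y hy)
    · right; rw [Matrix.mulVec_zero]
  have hY : Y = ⊤ := by
    rcases hirr Y hYinv with h1 | h1
    · exfalso
      have : w ∈ Y := Or.inl hwO
      rw [h1] at this
      exact hw (by simpa using this)
    · exact h1
  apply sl_le_of_tv_mem
  intro v φ hφ
  have hv : v ∈ Y := by rw [hY]; trivial
  rcases hv with hv | rfl
  · exact hOtv v hv φ hφ
  · rw [tv_zero_left]; exact one_mem _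

end Cfsg.Agent.H12
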