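import Mathlib
import Cfsg.Prelude.Def_GeometricClasses
import Cfsg.Agent.H12.Transv
import Cfsg.Agent.H12.Irred

/-!
Uniform treatment of symmetric / symplectic / hermitian forms given as functions:
`ReflForm σ ε f` : `f` is linear on the left, `f v w = ε σ(f w v)`, non-degenerate, `σ² = 1`.
-/

set_option autoImplicit false
set_option linter.unusedSectionVars false

open scoped MatrixGroups Matrix

namespace Cfsg.Agent.H12

variable {ι : Type} [Fintype ι] [DecidableEq ι] {F : Type*} [Field F]

structure ReflForm (σ : F ≃+* F) (ε : F) (f : (ι → F) → (ι → F) → F) : Prop where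
  inv : ∀ a, σ (σ a) = a
  eps : ε * ε = 1
  seps : σ ε = ε
  add_left : ∀ x y v, f (x + y) v = f x v + f y v
  smul_left : ∀ (c : F) (x v : ι → F), f (c • x) v = c * f x v
  herm : ∀ v w, f v w = ε * σ (f w v)
  nondeg : ∀ v, v ≠ 0 → ∃ x, f x v ≠ 0

/-- vector representing the functional `f · v` -/
def gvec (f : (ι → F) → (ι → F) → F) (v : ι → F) : ι → F := fun j => f (Pi.single j 1) v

namespace ReflForm

variable {σ : F ≃+* F} {ε : F} {f : (ι → F) → (ι → F) → F}

lemma eps_ne (h : ReflForm σ ε f) : ε ≠ 0 := by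
  intro h0
  have := h.eps
  rw [h0, mul_zero] at this
  exact zero_ne_one this

lemma add_right (h : ReflForm σ ε f) (v x y : ι → F) : f v (x + y) = f v x + f v y := by
  rw [h.herm, h.add_left, map_add, mul_add, ← h.herm, ← h.herm]

lemma smul_right (h : ReflForm σ ε f) (c : F) (v x : ι → F) : f v (c • x) = σ c * f v x := by
  rw [h.herm, h.smul_left, map_mul, h.herm v x]
  ring

lemma zero_left (h : ReflForm σ ε f) (v : ι → F) : f 0 v = 0 := by
  have := h.smul_left 0 0 v
  simpa using this

lemma zero_right (h : ReflForm σ ε f) (v : ι → F) : f v 0 = 0 := by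
  have := h.smul_right 0 v 0
  simpa using this

lemma neg_left (h : ReflForm σ ε f) (u v : ι → F) : f (-u) v = - f u v := by
  have := h.smul_left (-1) u v
  simpa using this

lemma neg_right (h : ReflForm σ ε f) (u v : ι → F) : f u (-v) = - f u v := by
  have := h.smul_right (-1) u v
  simpa using this

lemma sub_left (h : ReflForm σ ε f) (u u' v : ι → F) : f (u - u') v = f u v - f u' v := by
  rw [sub_eq_add_neg, h.add_left, h.neg_left, sub_eq_add_neg]

lemma sub_right (h : ReflForm σ ε f) (u v v' : ι → F) : f u (v - v') = f u v - f u v' := by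
  rw [sub_eq_add_neg, h.add_right, h.neg_right, sub_eq_add_neg]

lemma symm_zero (h : ReflForm σ ε f) {v w : ι → F} : f v w = 0 ↔ f w v = 0 := by
  rw [h.herm]
  constructor
  · intro h1
    rcases mul_eq_zero.mp h1 with h2 | h2
    · exact absurd h2 h.eps_ne
    · exact (map_eq_zero σ).mp h2
  · intro h1
    rw [h1, map_zero, mul_zero]

/-- `f · v` as a linear map -/
def lin (h : ReflForm σ ε f) (v : ι → F) : (ι → F) →ₗ[F] F where
  toFun x := f x v
  map_add' x y := h.add_left x y v
  map_smul' c x := h.smul_left c x v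

@[simp] lemma lin_apply (h : ReflForm σ ε f) (v x : ι → F) : h.lin v x = f x v := rfl

lemma gvec_dot (h : ReflForm σ ε f) (v x : ι → F) : gvec f v ⬝ᵥ x = f x v := by
  have := dual_eq_dot (h.lin v) x
  rw [lin_apply] at this
  exact this.symm

lemma gvec_add (h : ReflForm σ ε f) (u v : ι → F) : gvec f (u + v) = gvec f u + gvec f v := by
  ext j; simp [gvec, h.add_right]

lemma gvec_smul (h : ReflForm σ ε f) (c : F) (u : ι → F) : gvec f (c • u) = σ c • gvec f u := by
  ext j; simp [gvec, h.smul_right]

lemma gvec_neg (h : ReflForm σ ε f) (u : ι → F) : gvec f (-u) = - gvec f u := by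
  ext j; simp [gvec, h.neg_right]

lemma gvec_inj (h : ReflForm σ ε f) {u v : ι → F} (huv : ∀ x, f x u = f x v) : u = v := by
  by_contra hne
  obtain ⟨x, hx⟩ := h.nondeg (u - v) (sub_ne_zero.mpr hne)
  apply hx
  rw [h.sub_right, huv, sub_self]

/-- surjectivity of `gvec` (works over every field) -/
lemma gvec_surj (h : ReflForm σ ε f) (φ : ι → F) : ∃ u, gvec f u = φ := by
  -- the map u ↦ σ ∘ gvec u is linear and injective
  let L : (ι → F) →ₗ[F] (ι → F) :=
    { toFun := fun u j => σ (gvec f u j)
      map_add' := by intro u v; ext j; simp [h.gvec_add]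
      map_smul' := by intro c u; ext j; simp [h.gvec_smul, h.inv] }
  have hinj : Function.Injective L := by
    rw [injective_iff_map_eq_zero]
    intro u hu
    by_contra hne
    obtain ⟨x, hx⟩ := h.nondeg u hne
    apply hx
    rw [← h.gvec_dot]
    have : gvec f u = 0 := by
      ext j
      have h1 := congr_fun hu j
      exact (map_eq_zero σ).mp h1
    rw [this, zero_dotProduct]
  obtain ⟨u, hu⟩ := (LinearMap.injective_iff_surjective.mp hinj) (fun j => σ (φ j))
  refine ⟨u, ?_⟩
  ext j
  have h1 := congr_fun hu j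
  exact σ.injective h1

/-- orthogonal space of a finite set -/
def perp (h : ReflForm σ ε f) (s : Finset (ι → F)) : Submodule F (ι → F) where
  carrier := {y | ∀ a ∈ s, f y a = 0}
  add_mem' := by
    intro x y hx hy a ha
    rw [h.add_left, hx a ha, hy a ha, add_zero]
  zero_mem' := fun a _ => h.zero_left a
  smul_mem' := by
    intro c x hx a ha
    rw [h.smul_left, hx a ha, mul_zero]

lemma mem_perp (h : ReflForm σ ε f) {s : Finset (ι → F)} {y : ι → F} :
    y ∈ h.perp s ↔ ∀ a ∈ s, f y a = 0 := Iff.rfl

lemma finrank_inf_ker (l : (ι → F) →ₗ[F] F) (A : Submodule F (ι → F)) :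
    Module.finrank F A ≤ Module.finrank F (A ⊓ LinearMap.ker l : Submodule F (ι → F)) + 1 := by
  have h1 := Submodule.finrank_sup_add_finrank_inf_eq A (LinearMap.ker l)
  have h2 : Module.finrank F (A ⊔ LinearMap.ker l : Submodule F (ι → F)) ≤ Fintype.card ι := by
    rw [← Module.finrank_fintype_fun_eq_card (R := F) (η := ι)]
    exact Submodule.finrank_le _
  have h3 := LinearMap.finrank_range_add_finrank_ker l
  rw [Module.finrank_fintype_fun_eq_card] at h3
  have h4 : Module.finrank F (LinearMap.range l) ≤ 1 := by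
    calc _ ≤ Module.finrank F F := Submodule.finrank_le _
      _ = 1 := Module.finrank_self F
  omega

lemma finrank_perp (h : ReflForm σ ε f) (s : Finset (ι → F)) :
    Fintype.card ι ≤ Module.finrank F (h.perp s) + s.card := by
  classical
  induction s using Finset.induction_on with
  | empty =>
    have : h.perp ∅ = ⊤ := by
      rw [Submodule.eq_top_iff']
      intro x a ha
      simp at ha
    rw [this, finrank_top, Module.finrank_fintype_fun_eq_card]
    simp
  | insert a s ha ih =>
    have h1 := finrank_inf_ker (h.lin a) (h.perp s)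
    have h2 : (h.perp s ⊓ LinearMap.ker (h.lin a) : Submodule F (ι → F)) = h.perp (insert a s) := by
      ext x
      simp only [Submodule.mem_inf, mem_perp, LinearMap.mem_ker, lin_apply, Finset.forall_mem_insert]
      tauto
    rw [h2] at h1
    rw [Finset.card_insert_of_notMem ha]
    omega

/-- double orthogonal: a vector orthogonal to `perp s` lies in the span of `s`. -/
lemma mem_span_of_perp (h : ReflForm σ ε f) (s : Finset (ι → F)) {x : ι → F}
    (hx : ∀ y ∈ h.perp s, f y x = 0) : x ∈ Submodule.span F (s : Set (ι → F)) := by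
  classical
  have h1 : h.lin x ∈ Submodule.span F (Set.range (fun a : s => h.lin (a : ι → F))) := by
    apply mem_span_of_iInf_ker_le_ker
    intro y hy
    rw [Submodule.mem_iInf] at hy
    rw [LinearMap.mem_ker, lin_apply]
    apply hx
    intro a ha
    exact hy ⟨a, ha⟩
  rw [Submodule.mem_span_range_iff_exists_fun] at h1
  obtain ⟨c, hc⟩ := h1
  have h2 : x = ∑ a : s, σ (c a) • (a : ι → F) := by
    apply h.gvec_inj
    intro y
    have h3 := LinearMap.congr_fun hc y
    rw [lin_apply] at h3
    rw [← h3]
    simp only [LinearMap.sum_apply, LinearMap.smul_apply, lin_apply, smul_eq_mul]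
    have h4 : ∀ (t : Finset s), f y (∑ a ∈ t, σ (c a) • (a : ι → F)) = ∑ a ∈ t, c a * f y (a : ι → F) := by
      intro t
      induction t using Finset.induction_on with
      | empty => simp [h.zero_right]
      | insert a t ha ih => rw [Finset.sum_insert ha, Finset.sum_insert ha, h.add_right, ih, h.smul_right, h.inv]
    exact (h4 _).symm
  rw [h2]
  apply Submodule.sum_mem
  intro a _
  exact Submodule.smul_mem _ _ (Submodule.subset_span a.2)

/-- inside `perp s`, a vector not in `span s` is non-orthogonal to something -/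
lemma exists_perp_not_orth (h : ReflForm σ ε f) (s : Finset (ι → F)) {x : ι → F}
    (hx : x ∉ Submodule.span F (s : Set (ι → F))) : ∃ y ∈ h.perp s, f y x ≠ 0 := by
  by_contra hcon
  push Not at hcon
  exact hx (h.mem_span_of_perp s hcon)

/-- a common non-orthogonal vector inside any submodule -/
lemma exists_common_in (h : ReflForm σ ε f) (A : Submodule F (ι → F)) {u v : ι → F}
    (hu : ∃ y ∈ A, f y u ≠ 0) (hv : ∃ y ∈ A, f y v ≠ 0) : ∃ y ∈ A, f y u ≠ 0 ∧ f y v ≠ 0 := by
  obtain ⟨x, hxA, hx⟩ := hu
  obtain ⟨y, hyA, hy⟩ := hv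
  by_cases h1 : f x v = 0
  · by_cases h2 : f y u = 0
    · refine ⟨x + y, A.add_mem hxA hyA, ?_, ?_⟩
      · rw [h.add_left, h2, add_zero]; exact hx
      · rw [h.add_left, h1, zero_add]; exact hy
    · exact ⟨y, hyA, h2, hy⟩
  · exact ⟨x, hxA, hx, h1⟩

lemma exists_common (h : ReflForm σ ε f) {u v : ι → F} (hu : u ≠ 0) (hv : v ≠ 0) :
    ∃ y, f y u ≠ 0 ∧ f y v ≠ 0 := by
  obtain ⟨x, hx⟩ := h.nondeg u hu
  obtain ⟨y, hy⟩ := h.nondeg v hv
  obtain ⟨z, -, hz⟩ := h.exists_common_in ⊤ ⟨x, trivial, hx⟩ ⟨y, trivial, hy⟩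
  exact ⟨z, hz⟩

end ReflForm

/-- unitary forms are `ReflForm`s -/
lemma reflForm_of_unitary {σ : F ≃+* F} {f : (ι → F) → (ι → F) → F} (hf : Geo.IsUnitaryForm σ f) :
    ReflForm σ 1 f where
  inv := hf.involutive
  eps := by ring
  seps := map_one σ
  add_left := hf.add_left
  smul_left := hf.smul_left
  herm := fun v w => by rw [one_mul]; exact hf.herm v w
  nondeg := fun v hv => (hf.nondegenerate v hv).1

/-- symplectic forms are `ReflForm`s -/
lemma reflForm_of_symplectic {f : (ι → F) → (ι → F) → F} (hf : Geo.IsSymplecticForm f) :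
    ReflForm (RingEquiv.refl F) (-1) f where
  inv := fun _ => rfl
  eps := by ring
  seps := rfl
  add_left := hf.bilinear.add_left
  smul_left := hf.bilinear.smul_left
  herm := fun v w => by rw [hf.skew]; simp
  nondeg := fun v hv => (hf.nondegenerate v hv).1

/-- polar forms of non-degenerate quadratic forms are `ReflForm`s -/
lemma reflForm_of_quad {Q : (ι → F) → F} (hQ : Geo.IsNondegenerateQuadraticForm Q) :
    ReflForm (RingEquiv.refl F) 1 (QuadraticMap.polar Q) where
  inv := fun _ => rfl
  eps := by ring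
  seps := rfl
  add_left := hQ.polar_bilinear.add_left
  smul_left := hQ.polar_bilinear.smul_left
  herm := fun v w => by rw [QuadraticMap.polar_comm]; simp
  nondeg := fun v hv => (hQ.nondegenerate v hv).1

end Cfsg.Agent.H12
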