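import Mathlib
import Cfsg.Prelude.Def_GeometricClasses
import Cfsg.Agent.H12.Transv

/-!
Generic lemmas on non-degenerate bilinear/symplectic forms `f : (ι → F) → (ι → F) → F` given as functions:
representing vectors `fvec f u`, symplectic transvections, transitivity on non-zero vectors.
-/

set_option autoImplicit false
set_option linter.unusedSectionVars false

open scoped MatrixGroups Matrix

namespace Cfsg.Agent.H12

variable {ι : Type} [Fintype ι] [DecidableEq ι] {F : Type*} [Field F]

/-- the vector representing the functional `f u ·` -/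
def fvec (f : (ι → F) → (ι → F) → F) (u : ι → F) : ι → F := fun j => f u (Pi.single j 1)

section bilin

variable {f : (ι → F) → (ι → F) → F}

lemma bil_zero_left (hf : Geo.IsBilinearForm f) (v : ι → F) : f 0 v = 0 := by
  have := hf.smul_left 0 0 v
  simpa using this

lemma bil_zero_right (hf : Geo.IsBilinearForm f) (v : ι → F) : f v 0 = 0 := by
  have := hf.smul_right 0 v 0
  simpa using this

lemma bil_sum_right (hf : Geo.IsBilinearForm f) {κ : Type*} (s : Finset κ) (v : ι → F) (x : κ → ι → F) :
    f v (∑ k ∈ s, x k) = ∑ k ∈ s, f v (x k) := by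
  classical
  induction s using Finset.induction_on with
  | empty => simp [bil_zero_right hf]
  | insert a s ha ih => rw [Finset.sum_insert ha, Finset.sum_insert ha, hf.add_right, ih]

lemma bil_neg_left (hf : Geo.IsBilinearForm f) (u v : ι → F) : f (-u) v = - f u v := by
  have := hf.smul_left (-1) u v
  simpa using this

lemma bil_neg_right (hf : Geo.IsBilinearForm f) (u v : ι → F) : f u (-v) = - f u v := by
  have := hf.smul_right (-1) u v
  simpa using this

lemma bil_sub_left (hf : Geo.IsBilinearForm f) (u u' v : ι → F) : f (u - u') v = f u v - f u' v := by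
  rw [sub_eq_add_neg, hf.add_left, bil_neg_left hf, sub_eq_add_neg]

lemma bil_sub_right (hf : Geo.IsBilinearForm f) (u v v' : ι → F) : f u (v - v') = f u v - f u v' := by
  rw [sub_eq_add_neg, hf.add_right, bil_neg_right hf, sub_eq_add_neg]

lemma fvec_dot (hf : Geo.IsBilinearForm f) (u x : ι → F) : fvec f u ⬝ᵥ x = f u x := by
  conv_rhs => rw [pi_eq_sum_univ' x]
  rw [bil_sum_right hf]
  simp only [dotProduct, fvec]
  apply Finset.sum_congr rfl
  intro j _
  rw [hf.smul_right, mul_comm]

/-- `fvec` as a linear map -/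
def fvecLin (hf : Geo.IsBilinearForm f) : (ι → F) →ₗ[F] (ι → F) where
  toFun := fvec f
  map_add' u v := by ext j; simp [fvec, hf.add_left]
  map_smul' c u := by ext j; simp [fvec, hf.smul_left]

lemma fvec_add (hf : Geo.IsBilinearForm f) (u v : ι → F) : fvec f (u + v) = fvec f u + fvec f v :=
  (fvecLin hf).map_add u v

lemma fvec_smul (hf : Geo.IsBilinearForm f) (c : F) (u : ι → F) : fvec f (c • u) = c • fvec f u :=
  (fvecLin hf).map_smul c u

lemma fvec_surj (hf : Geo.IsBilinearForm f) (hn : Geo.IsNondegenerateForm f) (φ : ι → F) :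
    ∃ u, fvec f u = φ := by
  have hinj : Function.Injective (fvecLin hf) := by
    rw [injective_iff_map_eq_zero]
    intro u hu
    by_contra hne
    obtain ⟨-, x, hx⟩ := hn u hne
    apply hx
    rw [← fvec_dot hf]
    have : fvec f u = 0 := hu
    rw [this, zero_dotProduct]
  exact (LinearMap.injective_iff_surjective.mp hinj) φ

end bilin

/-- two non-zero vectors have a common vector non-orthogonal to both (left version) -/
lemma exists_common {f : (ι → F) → (ι → F) → F} (hf : Geo.IsBilinearForm f)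
    (hn : Geo.IsNondegenerateForm f) {v w : ι → F} (hv : v ≠ 0) (hw : w ≠ 0) :
    ∃ x, f v x ≠ 0 ∧ f w x ≠ 0 := by
  obtain ⟨-, x, hx⟩ := hn v hv
  obtain ⟨-, y, hy⟩ := hn w hw
  by_cases h1 : f w x = 0
  · by_cases h2 : f v y = 0
    · refine ⟨x + y, ?_, ?_⟩
      · rw [hf.add_right, h2, add_zero]; exact hx
      · rw [hf.add_right, h1, zero_add]; exact hy
    · exact ⟨y, h2, hy⟩
  · exact ⟨x, hx, h1⟩

section symp

variable {f : (ι → F) → (ι → F) → F}

/-- the symplectic transvection `x ↦ x + c f(v,x) v` -/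
noncomputable def stv (f : (ι → F) → (ι → F) → F) (v : ι → F) (c : F) : GL ι F := tv v (c • fvec f v)

lemma stv_dot (hf : Geo.IsSymplecticForm f) (v : ι → F) (c : F) : (c • fvec f v) ⬝ᵥ v = 0 := by
  rw [smul_dotProduct, fvec_dot hf.bilinear, hf.alternating, smul_zero]

lemma stv_mulVec (hf : Geo.IsSymplecticForm f) (v : ι → F) (c : F) (x : ι → F) :
    ((stv f v c : GL ι F) : Matrix ι ι F) *ᵥ x = x + (c * f v x) • v := by
  rw [stv, tv_mulVec (stv_dot hf v c), smul_dotProduct, fvec_dot hf.bilinear, smul_eq_mul]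

lemma stv_isometry (hf : Geo.IsSymplecticForm f) (v : ι → F) (c : F) (x y : ι → F) :
    f (((stv f v c : GL ι F) : Matrix ι ι F) *ᵥ x) (((stv f v c : GL ι F) : Matrix ι ι F) *ᵥ y) = f x y := by
  rw [stv_mulVec hf, stv_mulVec hf]
  simp only [hf.bilinear.add_left, hf.bilinear.add_right, hf.bilinear.smul_left, hf.bilinear.smul_right,
    hf.alternating, hf.skew x v]
  ring

/-- any two non-zero vectors are joined by a product of two symplectic transvections -/
lemma stv_transitive (hf : Geo.IsSymplecticForm f) {H : Subgroup (GL ι F)}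
    (hH : ∀ v c, stv f v c ∈ H) {v w : ι → F} (hv : v ≠ 0) (hw : w ≠ 0) :
    ∃ h ∈ H, ((h : GL ι F) : Matrix ι ι F) *ᵥ v = w := by
  have key : ∀ v w : ι → F, f v w ≠ 0 → ∃ h ∈ H, ((h : GL ι F) : Matrix ι ι F) *ᵥ v = w := by
    intro v w hvw
    refine ⟨stv f (w - v) (f w v)⁻¹, hH _ _, ?_⟩
    have h1 : f w v ≠ 0 := by
      rw [hf.skew]; exact neg_ne_zero.mpr hvw
    rw [stv_mulVec hf, bil_sub_left hf.bilinear, hf.alternating, sub_zero, inv_mul_cancel₀ h1, one_smul]
    abel
  obtain ⟨x, hx1, hx2⟩ := exists_common hf.bilinear hf.nondegenerate hv hw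
  obtain ⟨h1, hh1, e1⟩ := key v x hx1
  obtain ⟨h2, hh2, e2⟩ := key x w (by rw [hf.skew]; exact neg_ne_zero.mpr hx2)
  exact ⟨h2 * h1, mul_mem hh2 hh1, by rw [gl_mul_mulVec, e1, e2]⟩

end symp

end Cfsg.Agent.H12
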