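import Mathlib
import Cfsg.Prelude.Def_GeometricClasses
import Cfsg.Agent.H12.Transv
import Cfsg.Agent.H12.SymForm
import Cfsg.Agent.H12.ReflForm

/-!
Symplectic groups are generated by transvections: `sp_mem_of_stv_mem`; full centres `fullc`.
-/

set_option autoImplicit false
set_option linter.unusedSectionVars false

open scoped MatrixGroups Matrix

namespace Cfsg.Agent.H12

variable {ι : Type} [Fintype ι] [DecidableEq ι] {F : Type*} [Field F]

/-- the subspace of fixed vectors of a matrix -/
def fixSub (g : GL ι F) : Submodule F (ι → F) where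
  carrier := {x | (g : Matrix ι ι F) *ᵥ x = x}
  add_mem' := by
    intro a b ha hb
    simp only [Set.mem_setOf_eq] at *
    rw [Matrix.mulVec_add, ha, hb]
  zero_mem' := by simp
  smul_mem' := by
    intro c a ha
    simp only [Set.mem_setOf_eq] at *
    rw [Matrix.mulVec_smul, ha]

lemma mem_fixSub {g : GL ι F} {x : ι → F} : x ∈ fixSub g ↔ (g : Matrix ι ι F) *ᵥ x = x := Iff.rfl

/-- the predicate: isometry of the form `f` -/
def IsIsom (f : (ι → F) → (ι → F) → F) (g : GL ι F) : Prop :=
  ∀ x y, f ((g : Matrix ι ι F) *ᵥ x) ((g : Matrix ι ι F) *ᵥ y) = f x y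

lemma IsIsom.mul {f : (ι → F) → (ι → F) → F} {g h : GL ι F} (hg : IsIsom f g) (hh : IsIsom f h) :
    IsIsom f (g * h) := by
  intro x y
  rw [gl_mul_mulVec, gl_mul_mulVec, hg, hh]

lemma IsIsom.inv {f : (ι → F) → (ι → F) → F} {g : GL ι F} (hg : IsIsom f g) :
    IsIsom f g⁻¹ := by
  intro x y
  rw [← hg, gl_mulVec_inv_mulVec, gl_mulVec_inv_mulVec]

lemma isIsom_one {f : (ι → F) → (ι → F) → F} : IsIsom f (1 : GL ι F) := by
  intro x y; simp

section symp

variable {f : (ι → F) → (ι → F) → F}

lemma isIsom_stv (hf : Geo.IsSymplecticForm f) (v : ι → F) (c : F) : IsIsom f (stv f v c) :=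
  stv_isometry hf v c

lemma stv_mul (hf : Geo.IsSymplecticForm f) (v : ι → F) (c d : F) : stv f v c * stv f v d = stv f v (c + d) := by
  rw [stv, stv, tv_mul (stv_dot hf v c) (stv_dot hf v d), ← add_smul]; rfl

lemma stv_inv (hf : Geo.IsSymplecticForm f) (v : ι → F) (c : F) : (stv f v c)⁻¹ = stv f v (-c) := by
  rw [stv, tv_inv (stv_dot hf v c), ← neg_smul]; rfl

lemma stv_zero (hf : Geo.IsSymplecticForm f) (v : ι → F) : stv f v 0 = 1 := by
  rw [stv, zero_smul, tv_zero_right]

lemma stv_smul (hf : Geo.IsSymplecticForm f) (v : ι → F) (a c : F) :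
    stv f (a • v) c = stv f v (a ^ 2 * c) := by
  apply gl_ext
  intro x
  rw [stv_mulVec hf, stv_mulVec hf, hf.bilinear.smul_left, smul_smul]
  congr 2
  ring

lemma conj_stv (hf : Geo.IsSymplecticForm f) {g : GL ι F} (hg : IsIsom f g) (v : ι → F) (c : F) :
    g * stv f v c * g⁻¹ = stv f ((g : Matrix ι ι F) *ᵥ v) c := by
  apply gl_ext
  intro x
  rw [gl_mul_mulVec, gl_mul_mulVec, stv_mulVec hf, stv_mulVec hf, Matrix.mulVec_add, gl_mulVec_inv_mulVec,
    Matrix.mulVec_smul]
  congr 2
  rw [← hg v, gl_mulVec_inv_mulVec]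

/-- auxiliary: an isometry `g` and `x` with `f x (g x) ≠ 0`: one transvection increases the fixed space. -/
lemma sp_fix_step (hf : Geo.IsSymplecticForm f) {g : GL ι F} (hg : IsIsom f g) {x : ι → F}
    (hx : f x ((g : Matrix ι ι F) *ᵥ x) ≠ 0) :
    ∃ u c, fixSub g < fixSub (stv f u c * g) := by
  set y := (g : Matrix ι ι F) *ᵥ x with hy
  refine ⟨x - y, (f x y)⁻¹, ?_⟩
  have hb := hf.bilinear
  rw [SetLike.lt_iff_le_and_exists]
  refine ⟨?_, x, ?_, ?_⟩
  · intro z hz
    rw [mem_fixSub] at hz ⊢
    rw [gl_mul_mulVec, hz, stv_mulVec hf]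
    have : f (x - y) z = 0 := by
      rw [bil_sub_left hb, sub_eq_zero]
      conv_rhs => rw [← hz, hy, hg]
    rw [this]; simp
  · rw [mem_fixSub, gl_mul_mulVec, stv_mulVec hf, ← hy, bil_sub_left hb, hf.alternating, sub_zero,
      inv_mul_cancel₀ hx, one_smul]
    abel
  · rw [mem_fixSub, ← hy]
    intro h
    rw [h, hf.alternating] at hx
    exact hx rfl

/-- a non-trivial isometry `g`: after at most one transvection with the fixed space of `g` still fixed, some
vector is not orthogonal to its image. -/
lemma sp_fix_step' (hf : Geo.IsSymplecticForm f) {g : GL ι F} (hg : IsIsom f g) (hne : g ≠ 1) :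
    ∃ u c, fixSub g ≤ fixSub (stv f u c * g) ∧ ∃ x, f x (((stv f u c * g : GL ι F) : Matrix ι ι F) *ᵥ x) ≠ 0 := by
  have hb := hf.bilinear
  by_cases hcase : ∃ x, f x ((g : Matrix ι ι F) *ᵥ x) ≠ 0
  · obtain ⟨x, hx⟩ := hcase
    refine ⟨0, 0, ?_, x, ?_⟩
    · rw [stv_zero hf, one_mul]
    · rw [stv_zero hf, one_mul]; exact hx
  · push Not at hcase
    obtain ⟨x, hx⟩ : ∃ x, (g : Matrix ι ι F) *ᵥ x ≠ x := by
      by_contra h
      push Not at h
      apply hne
      apply gl_ext
      intro x
      rw [h x]; simp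
    obtain ⟨⟨y, hy⟩, -⟩ := hf.nondegenerate _ (sub_ne_zero.mpr hx)
    -- polarise
    have hpol : ∀ a b, f a ((g : Matrix ι ι F) *ᵥ b) = - f b ((g : Matrix ι ι F) *ᵥ a) := by
      intro a b
      have := hcase (a + b)
      rw [Matrix.mulVec_add, hb.add_left, hb.add_right, hb.add_right, hcase a, hcase b] at this
      linear_combination this
    refine ⟨(g : Matrix ι ι F) *ᵥ y - y, 1, ?_, x, ?_⟩
    · intro z hz
      rw [mem_fixSub] at hz ⊢
      rw [gl_mul_mulVec, hz, stv_mulVec hf]
      have : f ((g : Matrix ι ι F) *ᵥ y - y) z = 0 := by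
        rw [bil_sub_left hb, sub_eq_zero]
        conv_lhs => rw [← hz, hg]
      rw [this]; simp
    · rw [gl_mul_mulVec, stv_mulVec hf, hb.add_right, hcase x, zero_add, hb.smul_right, one_mul,
        bil_sub_left hb, hg, bil_sub_right hb, hpol x y]
      rw [bil_sub_right hb] at hy
      have h1 : f x y = - f y x := hf.skew x y
      rw [h1]
      have : (f y x - f y ((g : Matrix ι ι F) *ᵥ x)) * (-f y ((g : Matrix ι ι F) *ᵥ x) - -f y x) =
        (f y ((g : Matrix ι ι F) *ᵥ x) - f y x) ^ 2 * 1 := by ring
      rw [this]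
      simpa using pow_ne_zero 2 hy

/-- the symplectic group is generated by its transvections -/
theorem sp_mem_of_stv_mem (hf : Geo.IsSymplecticForm f) {H : Subgroup (GL ι F)}
    (hH : ∀ v c, stv f v c ∈ H) {g : GL ι F} (hg : IsIsom f g) : g ∈ H := by
  have key : ∀ n : ℕ, ∀ g : GL ι F, IsIsom f g → Fintype.card ι - Module.finrank F (fixSub g) ≤ n → g ∈ H := by
    intro n
    induction n with
    | zero =>
      intro g hg hn
      have h1 : Module.finrank F (fixSub g) ≤ Fintype.card ι := by
        have := Submodule.finrank_le (fixSub g)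
        rwa [Module.finrank_fintype_fun_eq_card] at this
      have h2 : fixSub g = ⊤ := by
        apply Submodule.eq_top_of_finrank_eq
        rw [Module.finrank_fintype_fun_eq_card]
        omega
      have : g = 1 := by
        apply gl_ext
        intro x
        have : x ∈ fixSub g := by rw [h2]; trivial
        rw [mem_fixSub] at this
        rw [this]; simp
      rw [this]; exact one_mem H
    | succ n ih =>
      intro g hg hn
      by_cases hne : g = 1
      · rw [hne]; exact one_mem H
      · obtain ⟨u, c, h1, x, hx⟩ := sp_fix_step' hf hg hne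
        have hg1 : IsIsom f (stv f u c * g) := (isIsom_stv hf u c).mul hg
        obtain ⟨u', c', h2⟩ := sp_fix_step hf hg1 hx
        have h3 : Module.finrank F (fixSub g) < Module.finrank F (fixSub (stv f u' c' * (stv f u c * g))) :=
          Submodule.finrank_lt_finrank_of_lt (lt_of_le_of_lt h1 h2)
        have h4 := ih (stv f u' c' * (stv f u c * g)) ((isIsom_stv hf u' c').mul hg1) (by omega)
        have h5 : stv f u c * g ∈ H := by
          have := H.mul_mem (H.inv_mem (hH u' c')) h4
          rwa [inv_mul_cancel_left] at this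
        have := H.mul_mem (H.inv_mem (hH u c)) h5
        rwa [inv_mul_cancel_left] at this
  exact key _ g hg le_rfl

/-- `v` is a full centre of `M`: all transvections in direction `v` are in `M` -/
def fullc (f : (ι → F) → (ι → F) → F) (M : Subgroup (GL ι F)) (v : ι → F) : Prop := ∀ c : F, stv f v c ∈ M

lemma fullc_zero (hf : Geo.IsSymplecticForm f) (M : Subgroup (GL ι F)) : fullc f M 0 := by
  intro c
  have : stv f 0 c = 1 := by
    rw [stv, tv_zero_left]
  rw [this]; exact one_mem M

lemma fullc_smul (hf : Geo.IsSymplecticForm f) {M : Subgroup (GL ι F)} {v : ι → F} (hv : fullc f M v) (a : F) :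
    fullc f M (a • v) := by
  intro c
  rw [stv_smul hf]; exact hv _

lemma fullc_of_smul (hf : Geo.IsSymplecticForm f) {M : Subgroup (GL ι F)} {v : ι → F} {a : F} (ha : a ≠ 0)
    (hv : fullc f M (a • v)) : fullc f M v := by
  have := fullc_smul hf hv a⁻¹
  rwa [smul_smul, inv_mul_cancel₀ ha, one_smul] at this

lemma fullc_image (hf : Geo.IsSymplecticForm f) {M : Subgroup (GL ι F)} {v : ι → F} (hv : fullc f M v)
    {g : GL ι F} (hg : g ∈ M) (hgi : IsIsom f g) : fullc f M ((g : Matrix ι ι F) *ᵥ v) := by
  intro c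
  rw [← conj_stv hf hgi]
  exact M.mul_mem (M.mul_mem hg (hv c)) (M.inv_mem hg)

lemma fullc_add (hf : Geo.IsSymplecticForm f) {M : Subgroup (GL ι F)} {u v : ι → F} (hu : fullc f M u)
    (hv : fullc f M v) (huv : f u v ≠ 0) (a : F) : fullc f M (u + a • v) := by
  have h1 : f v u ≠ 0 := by rw [hf.skew]; exact neg_ne_zero.mpr huv
  have h2 := fullc_image hf hu (hv (a / f v u)) (isIsom_stv hf v _)
  rwa [stv_mulVec hf, div_mul_cancel₀ _ h1] at h2

lemma fullc_add' (hf : Geo.IsSymplecticForm f) {M : Subgroup (GL ι F)} {u v : ι → F} (hu : fullc f M u)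
    (hv : fullc f M v) (huv : f u v ≠ 0) : fullc f M (u + v) := by
  have := fullc_add hf hu hv huv 1
  rwa [one_smul] at this

end symp

/-! ### the standard form -/

lemma sympForm_eq (m : ℕ) (u v : Fin m ⊕ Fin m → F) :
    sympForm m F u v = ∑ i, (u (Sum.inr i) * v (Sum.inl i) - u (Sum.inl i) * v (Sum.inr i)) := by
  simp only [sympForm, Matrix.J, dotProduct, Fintype.sum_sum_type, Matrix.fromBlocks_mulVec]
  simp only [Sum.elim_inl, Sum.elim_inr, Matrix.zero_mulVec, Matrix.neg_mulVec, Matrix.one_mulVec, Pi.add_apply,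
    Pi.neg_apply, Pi.zero_apply, Function.comp_apply, zero_add, add_zero, Finset.sum_sub_distrib]
  simp only [mul_neg, Finset.sum_neg_distrib]
  ring

lemma sympForm_isSymp (m : ℕ) : Geo.IsSymplecticForm (sympForm m F) where
  bilinear :=
    { add_left := by
        intro x y v
        simp only [sympForm, add_dotProduct]
      smul_left := by
        intro c x v
        simp only [sympForm, smul_dotProduct, smul_eq_mul]
      add_right := by
        intro v x y
        simp only [sympForm, Matrix.mulVec_add, dotProduct_add]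
      smul_right := by
        intro c v x
        simp only [sympForm, Matrix.mulVec_smul, dotProduct_smul, smul_eq_mul] }
  skew := by
    intro v w
    rw [sympForm_eq, sympForm_eq, ← Finset.sum_neg_distrib]
    apply Finset.sum_congr rfl
    intro i _
    ring
  alternating := by
    intro v
    rw [sympForm_eq]
    apply Finset.sum_eq_zero
    intro i _
    ring
  nondegenerate := by
    have key : ∀ v : Fin m ⊕ Fin m → F, v ≠ 0 → ∃ x, sympForm m F v x ≠ 0 := by
      intro v hv
      by_contra hcon
      push Not at hcon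
      apply hv
      ext j
      rcases j with i | i
      · have := hcon (Pi.single (Sum.inr i) 1)
        rw [sympForm_eq] at this
        simp only [Pi.single_apply, reduceCtorEq, if_false, mul_zero, zero_sub, Sum.inr.injEq, mul_ite, mul_one,
          Finset.sum_neg_distrib, Finset.sum_ite_eq', Finset.mem_univ, if_true, Finset.sum_ite_eq] at this
        simpa using this
      · have := hcon (Pi.single (Sum.inl i) 1)
        rw [sympForm_eq] at this
        simp only [Pi.single_apply, reduceCtorEq, if_false, mul_zero, sub_zero, Sum.inl.injEq, mul_ite, mul_one,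
          Finset.sum_ite_eq', Finset.mem_univ, if_true, Finset.sum_ite_eq] at this
        simpa using this
    intro v hv
    refine ⟨?_, key v hv⟩
    obtain ⟨x, hx⟩ := key v hv
    refine ⟨x, ?_⟩
    have : sympForm m F x v = - sympForm m F v x := by
      rw [sympForm_eq, sympForm_eq, ← Finset.sum_neg_distrib]
      apply Finset.sum_congr rfl
      intro i _
      ring
    rw [this]; exact neg_ne_zero.mpr hx

lemma mem_spGL (m : ℕ) (g : GL (Fin m ⊕ Fin m) F) : g ∈ spGL m F ↔ IsIsom (sympForm m F) g := Iff.rfl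

lemma stv_mem_spGL (m : ℕ) (v : Fin m ⊕ Fin m → F) (c : F) : stv (sympForm m F) v c ∈ spGL m F :=
  isIsom_stv (sympForm_isSymp m) v c

/-- a subgroup of `Sp` all of whose vectors are full centres is everything -/
lemma eq_spGL_of_fullc {m : ℕ} {M : Subgroup (GL (Fin m ⊕ Fin m) F)} (hM : M ≤ spGL m F)
    (h : ∀ v, fullc (sympForm m F) M v) : M = spGL m F := by
  apply le_antisymm hM
  intro g hg
  exact sp_mem_of_stv_mem (sympForm_isSymp m) h hg

end Cfsg.Agent.H12
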