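import Mathlib
import Cfsg.Prelude.Def_GeometricClasses
import Cfsg.Agent.H12.Transv
import Cfsg.Agent.H12.SymForm
import Cfsg.Agent.H12.ReflForm
import Cfsg.Agent.H12.SpGen

/-!
Orthogonal complements of submodules for reflexive forms given as functions (`ReflForm`), subspace stabilisers.
-/

set_option autoImplicit false
set_option linter.unusedSectionVars false

open scoped MatrixGroups Matrix

namespace Cfsg.Agent.H12

variable {ι : Type} [Fintype ι] [DecidableEq ι] {F : Type*} [Field F]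

/-- pointwise stabiliser of a set of vectors -/
def fixer (S : Set (ι → F)) : Subgroup (GL ι F) where
  carrier := {g | ∀ x ∈ S, (g : Matrix ι ι F) *ᵥ x = x}
  mul_mem' := by
    intro a b ha hb x hx
    rw [gl_mul_mulVec, hb x hx, ha x hx]
  one_mem' := by
    intro x _; simp
  inv_mem' := by
    intro a ha x hx
    conv_lhs => rw [← ha x hx]
    exact gl_inv_mulVec_mulVec a x

lemma mem_fixer {S : Set (ι → F)} {g : GL ι F} : g ∈ fixer S ↔ ∀ x ∈ S, (g : Matrix ι ι F) *ᵥ x = x := Iff.rfl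

lemma surj_of_maps (g : GL ι F) {W : Submodule F (ι → F)} (h : ∀ v ∈ W, (g : Matrix ι ι F) *ᵥ v ∈ W) :
    ∀ v ∈ W, ∃ w ∈ W, (g : Matrix ι ι F) *ᵥ w = v := by
  let L : W →ₗ[F] W :=
    { toFun := fun v => ⟨(g : Matrix ι ι F) *ᵥ (v : ι → F), h v v.2⟩
      map_add' := by intro a b; ext1; simp [Matrix.mulVec_add]
      map_smul' := by intro c a; ext1; simp [Matrix.mulVec_smul] }
  have hinj : Function.Injective L := by
    intro a b hab
    have h1 : (g : Matrix ι ι F) *ᵥ (a : ι → F) = (g : Matrix ι ι F) *ᵥ (b : ι → F) := congrArg Subtype.val hab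
    apply Subtype.ext
    rw [← gl_inv_mulVec_mulVec g (a : ι → F), h1, gl_inv_mulVec_mulVec]
  intro v hv
  obtain ⟨w, hw⟩ := (LinearMap.injective_iff_surjective.mp hinj) ⟨v, hv⟩
  exact ⟨w, w.2, congrArg Subtype.val hw⟩

lemma mem_subspaceStabilizer_iff {g : GL ι F} {W : Submodule F (ι → F)} :
    g ∈ Geo.subspaceStabilizer W ↔ ∀ v ∈ W, (g : Matrix ι ι F) *ᵥ v ∈ W := by
  constructor
  · intro h v hv
    exact (h v).mp hv
  · intro h v
    constructor
    · exact fun hv => h v hv
    · intro hv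
      obtain ⟨w, hw, hw'⟩ := surj_of_maps g h _ hv
      have : v = w := by
        rw [← gl_inv_mulVec_mulVec g v, ← gl_inv_mulVec_mulVec g w, hw']
        rfl
      rw [this]; exact hw

namespace ReflForm

variable {σ : F ≃+* F} {ε : F} {f : (ι → F) → (ι → F) → F}

/-- orthogonal complement of a submodule -/
def perpS (h : ReflForm σ ε f) (W : Submodule F (ι → F)) : Submodule F (ι → F) where
  carrier := {y | ∀ a ∈ W, f y a = 0}
  add_mem' := by
    intro x y hx hy a ha
    rw [h.add_left, hx a ha, hy a ha, add_zero]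
  zero_mem' := fun a _ => h.zero_left a
  smul_mem' := by
    intro c x hx a ha
    rw [h.smul_left, hx a ha, mul_zero]

lemma mem_perpS (h : ReflForm σ ε f) {W : Submodule F (ι → F)} {y : ι → F} :
    y ∈ h.perpS W ↔ ∀ a ∈ W, f y a = 0 := Iff.rfl

lemma mem_perpS' (h : ReflForm σ ε f) {W : Submodule F (ι → F)} {y : ι → F} :
    y ∈ h.perpS W ↔ ∀ a ∈ W, f a y = 0 := by
  rw [mem_perpS]
  exact forall₂_congr (fun a _ => h.symm_zero)

lemma perp_eq_perpS (h : ReflForm σ ε f) (s : Finset (ι → F)) :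
    h.perp s = h.perpS (Submodule.span F (s : Set (ι → F))) := by
  ext y
  rw [mem_perp, mem_perpS]
  constructor
  · intro hy a ha
    induction ha using Submodule.span_induction with
    | mem x hx => exact hy x hx
    | zero => exact h.zero_right y
    | add a b _ _ ha hb => rw [h.add_right, ha, hb, add_zero]
    | smul c a _ ha => rw [h.smul_right, ha, mul_zero]
  · intro hy a ha
    exact hy a (Submodule.subset_span ha)

lemma exists_finset_span (W : Submodule F (ι → F)) :
    ∃ s : Finset (ι → F), Submodule.span F (s : Set (ι → F)) = W ∧ s.card = Module.finrank F W := by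
  classical
  let b := Module.finBasis F W
  refine ⟨Finset.univ.image (fun i => (b i : ι → F)), ?_, ?_⟩
  · rw [Finset.coe_image, Finset.coe_univ, Set.image_univ]
    have h1 : Set.range (fun i => (b i : ι → F)) = W.subtype '' (Set.range b) := by
      rw [← Set.range_comp]; rfl
    rw [h1, Submodule.span_image, b.span_eq, Submodule.map_top, Submodule.range_subtype]
  · rw [Finset.card_image_of_injective]
    · simp
    · intro i j hij
      exact b.injective (Subtype.ext hij)

lemma mem_of_perpS_perpS (h : ReflForm σ ε f) {W : Submodule F (ι → F)} {x : ι → F}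
    (hx : ∀ y ∈ h.perpS W, f y x = 0) : x ∈ W := by
  obtain ⟨s, hs, -⟩ := exists_finset_span W
  rw [← hs]
  apply h.mem_span_of_perp s
  intro y hy
  apply hx
  rw [perp_eq_perpS, hs] at hy
  exact hy

lemma exists_perpS_of_notMem (h : ReflForm σ ε f) {W : Submodule F (ι → F)} {x : ι → F}
    (hx : x ∉ W) : ∃ y ∈ h.perpS W, f y x ≠ 0 := by
  by_contra hcon
  push Not at hcon
  exact hx (h.mem_of_perpS_perpS hcon)

lemma le_finrank_perpS (h : ReflForm σ ε f) (W : Submodule F (ι → F)) :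
    Fintype.card ι ≤ Module.finrank F (h.perpS W) + Module.finrank F W := by
  obtain ⟨s, hs, hc⟩ := exists_finset_span W
  have := h.finrank_perp s
  rwa [perp_eq_perpS, hs, hc] at this

lemma inf_perpS_of_nondeg (h : ReflForm σ ε f) {W : Submodule F (ι → F)} (hW : Geo.IsNondegenerateOn f W) :
    W ⊓ h.perpS W = ⊥ := by
  rw [Submodule.eq_bot_iff]
  rintro x ⟨hx1, hx2⟩
  by_contra hne
  obtain ⟨-, y, hy, hxy⟩ := hW x hx1 hne
  exact hxy (hx2 y hy)

lemma sup_perpS_of_nondeg (h : ReflForm σ ε f) {W : Submodule F (ι → F)} (hW : Geo.IsNondegenerateOn f W) :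
    W ⊔ h.perpS W = ⊤ := by
  apply Submodule.eq_top_of_finrank_eq
  have h1 := Submodule.finrank_sup_add_finrank_inf_eq W (h.perpS W)
  rw [h.inf_perpS_of_nondeg hW, finrank_bot] at h1
  have h2 := h.le_finrank_perpS W
  have h3 := Submodule.finrank_le (W ⊔ h.perpS W)
  rw [Module.finrank_fintype_fun_eq_card] at h3 ⊢
  omega

lemma decomp_of_nondeg (h : ReflForm σ ε f) {W : Submodule F (ι → F)} (hW : Geo.IsNondegenerateOn f W)
    (x : ι → F) : ∃ a ∈ W, ∃ b ∈ h.perpS W, a + b = x := by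
  have : x ∈ W ⊔ h.perpS W := by rw [h.sup_perpS_of_nondeg hW]; trivial
  exact Submodule.mem_sup.mp this

lemma finrank_perpS_of_nondeg (h : ReflForm σ ε f) {W : Submodule F (ι → F)} (hW : Geo.IsNondegenerateOn f W) :
    Module.finrank F W + Module.finrank F (h.perpS W) = Fintype.card ι := by
  have h1 := Submodule.finrank_sup_add_finrank_inf_eq W (h.perpS W)
  rw [h.inf_perpS_of_nondeg hW, finrank_bot, h.sup_perpS_of_nondeg hW, finrank_top,
    Module.finrank_fintype_fun_eq_card] at h1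
  omega

lemma nondeg_perpS (h : ReflForm σ ε f) {W : Submodule F (ι → F)} (hW : Geo.IsNondegenerateOn f W) :
    Geo.IsNondegenerateOn f (h.perpS W) := by
  intro w hw hw0
  have key : ∃ x ∈ h.perpS W, f x w ≠ 0 := by
    obtain ⟨x, hx⟩ := h.nondeg w hw0
    obtain ⟨a, ha, b, hb, rfl⟩ := h.decomp_of_nondeg hW x
    refine ⟨b, hb, ?_⟩
    rwa [h.add_left, h.symm_zero.mp (hw a ha), zero_add] at hx
  refine ⟨key, ?_⟩
  obtain ⟨x, hx, hxw⟩ := key
  refine ⟨x, hx, fun hc => hxw (h.symm_zero.mp hc)⟩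

lemma perpS_perpS (h : ReflForm σ ε f) (W : Submodule F (ι → F)) : h.perpS (h.perpS W) = W := by
  apply le_antisymm
  · intro x hx
    apply h.mem_of_perpS_perpS
    intro y hy
    exact h.symm_zero.mp (hx y hy)
  · intro x hx y hy
    exact h.symm_zero.mp (hy x hx)

lemma isom_perpS (h : ReflForm σ ε f) {g : GL ι F} (hg : IsIsom f g) {W : Submodule F (ι → F)}
    (hgW : ∀ v ∈ W, (g : Matrix ι ι F) *ᵥ v ∈ W) :
    ∀ v ∈ h.perpS W, (g : Matrix ι ι F) *ᵥ v ∈ h.perpS W := by
  intro v hv a ha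
  obtain ⟨w, hw, rfl⟩ := surj_of_maps g hgW a ha
  rw [hg]
  exact hv w hw

/-- the `g`-image of `W` is in `W` if the image of `perpS W` is in `perpS W`. -/
lemma isom_of_perpS (h : ReflForm σ ε f) {g : GL ι F} (hg : IsIsom f g) {W : Submodule F (ι → F)}
    (hgW : ∀ v ∈ h.perpS W, (g : Matrix ι ι F) *ᵥ v ∈ h.perpS W) :
    ∀ v ∈ W, (g : Matrix ι ι F) *ᵥ v ∈ W := by
  have := h.isom_perpS hg hgW
  rwa [h.perpS_perpS] at this

end ReflForm

section symp

variable {f : (ι → F) → (ι → F) → F}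

/-- transvections with centre in a non-degenerate subspace `W` are transitive on its non-zero vectors -/
lemma stv_trans_on (hf : Geo.IsSymplecticForm f) {H : Subgroup (GL ι F)} {W : Submodule F (ι → F)}
    (hW : Geo.IsNondegenerateOn f W) (hH : ∀ v ∈ W, ∀ c, stv f v c ∈ H) {v w : ι → F} (hvW : v ∈ W)
    (hwW : w ∈ W) (hv : v ≠ 0) (hw : w ≠ 0) :
    ∃ h ∈ H, ((h : GL ι F) : Matrix ι ι F) *ᵥ v = w := by
  have key : ∀ v w : ι → F, v ∈ W → w ∈ W → f v w ≠ 0 →
      ∃ h ∈ H, ((h : GL ι F) : Matrix ι ι F) *ᵥ v = w := by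
    intro v w hv hw hvw
    refine ⟨stv f (w - v) (f w v)⁻¹, hH _ (W.sub_mem hw hv) _, ?_⟩
    have h1 : f w v ≠ 0 := by
      rw [hf.skew]; exact neg_ne_zero.mpr hvw
    rw [stv_mulVec hf, bil_sub_left hf.bilinear, hf.alternating, sub_zero, inv_mul_cancel₀ h1, one_smul]
    abel
  obtain ⟨x, hxW, hx1, hx2⟩ := (reflForm_of_symplectic hf).exists_common_in W (hW v hvW hv).1 (hW w hwW hw).1
  obtain ⟨h1, hh1, e1⟩ := key v x hvW hxW (by rw [hf.skew]; exact neg_ne_zero.mpr hx1)
  obtain ⟨h2, hh2, e2⟩ := key x w hxW hwW hx2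
  exact ⟨h2 * h1, mul_mem hh2 hh1, by rw [gl_mul_mulVec, e1, e2]⟩

/-- a symplectic transvection with centre orthogonal to `x` fixes `x` -/
lemma stv_fix (hf : Geo.IsSymplecticForm f) {v x : ι → F} (c : F) (h : f v x = 0) :
    ((stv f v c : GL ι F) : Matrix ι ι F) *ᵥ x = x := by
  rw [stv_mulVec hf, h]; simp

end symp

end Cfsg.Agent.H12
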