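import Mathlib
import Cfsg.Prelude.Def_GeometricClasses
import Cfsg.Agent.H12.Transv
import Cfsg.Agent.H12.SymForm
import Cfsg.Agent.H12.ReflForm
import Cfsg.Agent.H12.SpGen
import Cfsg.Agent.H12.Perp

/-!
Isometries swapping two orthogonal non-degenerate subspaces of the same dimension (symplectic case).
-/

set_option autoImplicit false
set_option linter.unusedSectionVars false

open scoped MatrixGroups Matrix

namespace Cfsg.Agent.H12

variable {ι : Type} [Fintype ι] [DecidableEq ι] {F : Type*} [Field F]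

lemma exists_gl_of_injective (T : (ι → F) →ₗ[F] (ι → F)) (hT : Function.Injective T) :
    ∃ g : GL ι F, ∀ x, (g : Matrix ι ι F) *ᵥ x = T x := by
  let e := LinearEquiv.ofInjectiveEndo T hT
  refine ⟨⟨LinearMap.toMatrix' (e : (ι → F) →ₗ[F] (ι → F)), LinearMap.toMatrix' (e.symm : (ι → F) →ₗ[F] (ι → F)),
    ?_, ?_⟩, ?_⟩
  · rw [← LinearMap.toMatrix'_comp]; simp
  · rw [← LinearMap.toMatrix'_comp]; simp
  · intro x
    change LinearMap.toMatrix' (e : (ι → F) →ₗ[F] (ι → F)) *ᵥ x = T x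
    rw [LinearMap.toMatrix'_mulVec]
    rfl

lemma map_eq_of_maps {g : GL ι F} {A B : Submodule F (ι → F)} (h : ∀ v ∈ A, (g : Matrix ι ι F) *ᵥ v ∈ B)
    (hd : Module.finrank F A = Module.finrank F B) : A.map (Matrix.toLin' (g : Matrix ι ι F)) = B := by
  have hle : A.map (Matrix.toLin' (g : Matrix ι ι F)) ≤ B := by
    rintro _ ⟨v, hv, rfl⟩
    exact h v hv
  apply Submodule.eq_of_le_of_finrank_eq hle
  rw [← hd]
  apply LinearEquiv.finrank_eq
  refine (Submodule.equivMapOfInjective _ ?_ A).symm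
  intro x y hxy
  have h1 : (g : Matrix ι ι F) *ᵥ x = (g : Matrix ι ι F) *ᵥ y := hxy
  rw [← gl_inv_mulVec_mulVec g x, h1, gl_inv_mulVec_mulVec]

section symp

variable {f : (ι → F) → (ι → F) → F}

lemma hyp_reduce (hf : Geo.IsSymplecticForm f) {A : Submodule F (ι → F)} (hA : Geo.IsNondegenerateOn f A)
    (hn : 0 < Module.finrank F A) : ∃ e ∈ A, ∃ e1 ∈ A, f e e1 = 1 ∧ ∃ A' : Submodule F (ι → F), A' ≤ A ∧
      Geo.IsNondegenerateOn f A' ∧ (∀ a ∈ A', f a e = 0 ∧ f a e1 = 0) ∧
      (∀ a ∈ A, ∃ x y : F, ∃ a' ∈ A', a = x • e + y • e1 + a') ∧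
      Module.finrank F A' + 2 = Module.finrank F A := by
  have hb := hf.bilinear
  have hne : A ≠ ⊥ := by
    rintro rfl
    rw [finrank_bot] at hn
    omega
  obtain ⟨e, heA, he0⟩ := (Submodule.ne_bot_iff A).mp hne
  obtain ⟨-, e2, he2A, he2⟩ := hA e heA he0
  set e1 := (f e e2)⁻¹ • e2 with he1
  have he1A : e1 ∈ A := A.smul_mem _ he2A
  have hee1 : f e e1 = 1 := by rw [he1, hb.smul_right, inv_mul_cancel₀ he2]
  have he1e : f e1 e = -1 := by rw [hf.skew, hee1]
  let L : A →ₗ[F] F × F :=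
    { toFun := fun a => (f (a : ι → F) e, f (a : ι → F) e1)
      map_add' := by intro a b; ext <;> simp [hb.add_left]
      map_smul' := by intro c a; ext <;> simp [hb.smul_left] }
  have hLsurj : Function.Surjective L := by
    rintro ⟨x, y⟩
    refine ⟨⟨-x • e1 + y • e, A.add_mem (A.smul_mem _ he1A) (A.smul_mem _ heA)⟩, ?_⟩
    ext
    · simp [L, hb.add_left, hb.smul_left, bil_neg_left hb, hf.alternating, he1e]
    · simp [L, hb.add_left, hb.smul_left, bil_neg_left hb, hf.alternating, hee1]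
  have hrk := LinearMap.finrank_range_add_finrank_ker L
  rw [LinearMap.range_eq_top.mpr hLsurj, finrank_top, Module.finrank_prod, Module.finrank_self] at hrk
  have hdec : ∀ a ∈ A, ∃ x y : F, ∃ a' ∈ (LinearMap.ker L).map A.subtype, a = x • e + y • e1 + a' := by
    intro a ha
    refine ⟨f a e1, - f a e, a - f a e1 • e + f a e • e1, ?_, ?_⟩
    · refine ⟨⟨a - f a e1 • e + f a e • e1, A.add_mem (A.sub_mem ha (A.smul_mem _ heA)) (A.smul_mem _ he1A)⟩, ?_, rfl⟩
      rw [SetLike.mem_coe, LinearMap.mem_ker]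
      ext
      · simp [L, hb.add_left, hb.smul_left, bil_sub_left hb, hf.alternating, he1e]
      · simp [L, hb.add_left, hb.smul_left, bil_sub_left hb, hf.alternating, hee1]
    · module
  have horth : ∀ a ∈ (LinearMap.ker L).map A.subtype, f a e = 0 ∧ f a e1 = 0 := by
    rintro _ ⟨a, ha, rfl⟩
    have h1 : L a = 0 := ha
    exact ⟨congrArg Prod.fst h1, congrArg Prod.snd h1⟩
  refine ⟨e, heA, e1, he1A, hee1, (LinearMap.ker L).map A.subtype, ?_, ?_, horth, hdec, ?_⟩
  · rintro _ ⟨a, -, rfl⟩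
    exact a.2
  · intro w hw hw0
    have hwA : w ∈ A := by
      obtain ⟨a, -, rfl⟩ := hw
      exact a.2
    obtain ⟨hwe, hwe1⟩ := horth w hw
    have key : ∃ x ∈ (LinearMap.ker L).map A.subtype, f w x ≠ 0 := by
      obtain ⟨-, x, hx, hwx⟩ := hA w hwA hw0
      obtain ⟨s, r, a', ha', rfl⟩ := hdec x hx
      refine ⟨a', ha', ?_⟩
      rwa [hb.add_right, hb.add_right, hb.smul_right, hb.smul_right, hwe, hwe1, mul_zero, mul_zero, add_zero,
        zero_add] at hwx
    refine ⟨?_, key⟩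
    obtain ⟨x, hx, hwx⟩ := key
    refine ⟨x, hx, ?_⟩
    rw [hf.skew]
    exact neg_ne_zero.mpr hwx
  · rw [Submodule.finrank_map_subtype_eq]
    omega

/-- the isometry swapping two orthogonal hyperbolic pairs -/
lemma exists_swap_pair (hf : Geo.IsSymplecticForm f) {e e1 d d1 : ι → F} (he : f e e1 = 1) (hd : f d d1 = 1)
    (h1 : f e d = 0) (h2 : f e d1 = 0) (h3 : f e1 d = 0) (h4 : f e1 d1 = 0) :
    ∃ g : GL ι F, IsIsom f g ∧
      ∀ x, (g : Matrix ι ι F) *ᵥ x = x - f x (e1 - d1) • (e - d) + f x (e - d) • (e1 - d1) := by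
  have hb := hf.bilinear
  let T : (ι → F) →ₗ[F] (ι → F) :=
    { toFun := fun x => x - f x (e1 - d1) • (e - d) + f x (e - d) • (e1 - d1)
      map_add' := by
        intro x y
        simp only [hb.add_left]
        module
      map_smul' := by
        intro c x
        simp only [hb.smul_left, RingHom.id_apply]
        module }
  have hpq : f (e - d) (e1 - d1) = 2 := by
    rw [bil_sub_left hb, bil_sub_right hb, bil_sub_right hb, he, hd, h2, hf.skew d e1, h3]
    ring
  have hqp : f (e1 - d1) (e - d) = -2 := by rw [hf.skew, hpq]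
  have hT : ∀ x y, f (T x) (T y) = f x y := by
    intro x y
    change f (x - f x (e1 - d1) • (e - d) + f x (e - d) • (e1 - d1))
      (y - f y (e1 - d1) • (e - d) + f y (e - d) • (e1 - d1)) = f x y
    set p := e - d
    set q := e1 - d1
    simp only [hb.add_left, hb.add_right, bil_sub_left hb, bil_sub_right hb, hb.smul_left, hb.smul_right,
      hf.alternating, hpq, hqp, hf.skew p y, hf.skew q y]
    ring
  have hinj : Function.Injective T := by
    rw [injective_iff_map_eq_zero]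
    intro x hx
    by_contra hne
    obtain ⟨-, y, hy⟩ := hf.nondegenerate x hne
    apply hy
    rw [← hT, hx, bil_zero_left hb]
  obtain ⟨g, hg⟩ := exists_gl_of_injective T hinj
  refine ⟨g, ?_, hg⟩
  intro x y
  rw [hg, hg, hT]

/-- two orthogonal non-degenerate subspaces of the same dimension are swapped by an isometry which is trivial on
the vectors orthogonal to both -/
theorem exists_swap (hf : Geo.IsSymplecticForm f) (n : ℕ) : ∀ A B : Submodule F (ι → F),
    Geo.IsNondegenerateOn f A → Geo.IsNondegenerateOn f B → (∀ a ∈ A, ∀ b ∈ B, f a b = 0) →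
    Module.finrank F A = n → Module.finrank F B = n →
    ∃ g : GL ι F, IsIsom f g ∧ (∀ a ∈ A, (g : Matrix ι ι F) *ᵥ a ∈ B) ∧ (∀ b ∈ B, (g : Matrix ι ι F) *ᵥ b ∈ A) ∧
      ∀ x, (∀ a ∈ A, f x a = 0) → (∀ b ∈ B, f x b = 0) → (g : Matrix ι ι F) *ᵥ x = x := by
  have hb := hf.bilinear
  induction n using Nat.strong_induction_on with
  | _ n ih =>
    intro A B hA hB hAB hAn hBn
    by_cases hn : n = 0
    · subst hn
      have hA0 : A = ⊥ := Submodule.finrank_eq_zero.mp hAn
      have hB0 : B = ⊥ := Submodule.finrank_eq_zero.mp hBn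
      refine ⟨1, isIsom_one, ?_, ?_, ?_⟩
      · intro a ha
        rw [hA0, Submodule.mem_bot] at ha
        rw [ha]; simp
      · intro a ha
        rw [hB0, Submodule.mem_bot] at ha
        rw [ha]; simp
      · intro x _ _; simp
    · obtain ⟨e, heA, e1, he1A, he, A', hA'A, hA'nd, hA'orth, hAdec, hA'n⟩ := hyp_reduce hf hA (by omega)
      obtain ⟨d, hdB, d1, hd1B, hd, B', hB'B, hB'nd, hB'orth, hBdec, hB'n⟩ := hyp_reduce hf hB (by omega)
      obtain ⟨g', hg'i, hg'A, hg'B, hg'x⟩ := ih (n - 2) (by omega) A' B' hA'nd hB'nd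
        (fun a ha b hb => hAB a (hA'A ha) b (hB'B hb)) (by omega) (by omega)
      obtain ⟨s, hsi, hs⟩ := exists_swap_pair hf he hd (hAB e heA d hdB) (hAB e heA d1 hd1B)
        (hAB e1 he1A d hdB) (hAB e1 he1A d1 hd1B)
      have hBA : ∀ b ∈ B, ∀ a ∈ A, f b a = 0 := by
        intro b hb' a ha
        rw [hf.skew, hAB a ha b hb', neg_zero]
      have hskew0 : ∀ a b, f a b = 0 → f b a = 0 := by
        intro a b h
        rw [hf.skew, h, neg_zero]
      -- g' fixes e e1 d d1
      have g'e : (g' : Matrix ι ι F) *ᵥ e = e :=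
        hg'x e (fun a ha => hskew0 _ _ (hA'orth a ha).1) (fun b hb' => hAB e heA b (hB'B hb'))
      have g'e1 : (g' : Matrix ι ι F) *ᵥ e1 = e1 :=
        hg'x e1 (fun a ha => hskew0 _ _ (hA'orth a ha).2) (fun b hb' => hAB e1 he1A b (hB'B hb'))
      have g'd : (g' : Matrix ι ι F) *ᵥ d = d :=
        hg'x d (fun a ha => hBA d hdB a (hA'A ha)) (fun b hb' => hskew0 _ _ (hB'orth b hb').1)
      have g'd1 : (g' : Matrix ι ι F) *ᵥ d1 = d1 :=
        hg'x d1 (fun a ha => hBA d1 hd1B a (hA'A ha)) (fun b hb' => hskew0 _ _ (hB'orth b hb').2)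
      have sfix : ∀ x, f x e = 0 → f x e1 = 0 → f x d = 0 → f x d1 = 0 → (s : Matrix ι ι F) *ᵥ x = x := by
        intro x h1 h2 h3 h4
        rw [hs, bil_sub_right hb, bil_sub_right hb, h1, h2, h3, h4]
        simp
      have hee1 : f e1 e = -1 := by rw [hf.skew, he]
      have hdd1 : f d1 d = -1 := by rw [hf.skew, hd]
      have se : (s : Matrix ι ι F) *ᵥ e = d := by
        rw [hs, bil_sub_right hb, bil_sub_right hb, he, hAB e heA d1 hd1B, hf.alternating, hAB e heA d hdB]
        module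
      have se1 : (s : Matrix ι ι F) *ᵥ e1 = d1 := by
        rw [hs, bil_sub_right hb, bil_sub_right hb, hf.alternating, hAB e1 he1A d1 hd1B, hee1, hAB e1 he1A d hdB]
        module
      have sd : (s : Matrix ι ι F) *ᵥ d = e := by
        rw [hs, bil_sub_right hb, bil_sub_right hb, hd, hBA d hdB e1 he1A, hf.alternating, hBA d hdB e heA]
        module
      have sd1 : (s : Matrix ι ι F) *ᵥ d1 = e1 := by
        rw [hs, bil_sub_right hb, bil_sub_right hb, hf.alternating, hBA d1 hd1B e1 he1A, hdd1, hBA d1 hd1B e heA]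
        module
      refine ⟨s * g', hsi.mul hg'i, ?_, ?_, ?_⟩
      · intro a ha
        obtain ⟨x, y, a', ha', rfl⟩ := hAdec a ha
        have h5 := hg'A a' ha'
        rw [gl_mul_mulVec]
        simp only [Matrix.mulVec_add, Matrix.mulVec_smul, g'e, g'e1, se, se1]
        rw [sfix _ (hBA _ (hB'B h5) e heA) (hBA _ (hB'B h5) e1 he1A) (hB'orth _ h5).1 (hB'orth _ h5).2]
        exact B.add_mem (B.add_mem (B.smul_mem _ hdB) (B.smul_mem _ hd1B)) (hB'B h5)
      · intro b hb'
        obtain ⟨x, y, b', hb'', rfl⟩ := hBdec b hb'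
        have h5 := hg'B b' hb''
        rw [gl_mul_mulVec]
        simp only [Matrix.mulVec_add, Matrix.mulVec_smul, g'd, g'd1, sd, sd1]
        rw [sfix _ (hA'orth _ h5).1 (hA'orth _ h5).2 (hAB _ (hA'A h5) d hdB) (hAB _ (hA'A h5) d1 hd1B)]
        exact A.add_mem (A.add_mem (A.smul_mem _ heA) (A.smul_mem _ he1A)) (hA'A h5)
      · intro x hxA hxB
        rw [gl_mul_mulVec, hg'x x (fun a ha => hxA a (hA'A ha)) (fun b hb' => hxB b (hB'B hb')),
          sfix x (hxA e heA) (hxA e1 he1A) (hxB d hdB) (hxB d1 hd1B)]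

end symp

end Cfsg.Agent.H12
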