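import Mathlib
import Cfsg.Prelude.Def_GeometricClasses
import Cfsg.Agent.H12.SympSwap

/-!
Field subalgebras of matrix algebras: an element centralising a smaller field and not normalising a larger one.
-/

set_option autoImplicit false
set_option linter.unusedSectionVars false

namespace Cfsg.Agent.H12

open Matrix Cfsg

variable {F : Type*} [Field F] [Fintype F] {n : ℕ}

/-- commutative subalgebras all of whose nonzero elements are invertible -/
structure FSub (K : Subalgebra F (Matrix (Fin n) (Fin n) F)) : Prop where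
  comm : ∀ x ∈ K, ∀ y ∈ K, x * y = y * x
  inv : ∀ x ∈ K, x ≠ 0 → ∃ y ∈ K, x * y = 1

lemma FSub.mono {K L : Subalgebra F (Matrix (Fin n) (Fin n) F)} (hL : FSub L) (h : K ≤ L)
    (hinv : ∀ x ∈ K, ∀ y ∈ L, x * y = 1 → y ∈ K) : FSub K :=
  ⟨fun x hx y hy => hL.comm x (h hx) y (h hy), fun x hx h0 => by
    obtain ⟨y, hy, hxy⟩ := hL.inv x (h hx) h0
    exact ⟨y, hinv x hx y hy hxy, hxy⟩⟩

lemma FSub.isField (hn : 0 < n) {K : Subalgebra F (Matrix (Fin n) (Fin n) F)} (h : FSub K) : IsField K := by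
  have : Nonempty (Fin n) := ⟨⟨0, hn⟩⟩
  refine ⟨⟨0, 1, ?_⟩, ?_, ?_⟩
  · intro h0
    have h1 := congrArg (fun x : K => (x : Matrix (Fin n) (Fin n) F)) h0
    exact zero_ne_one h1
  · intro x y
    exact Subtype.ext (h.comm x x.2 y y.2)
  · intro x hx
    obtain ⟨y, hy, hxy⟩ := h.inv x x.2 (fun h0 => hx (Subtype.ext h0))
    exact ⟨⟨y, hy⟩, Subtype.ext hxy⟩

lemma FSub.eq_of_mulVec {K : Subalgebra F (Matrix (Fin n) (Fin n) F)} (h : FSub K) {x y : Matrix (Fin n) (Fin n) F}
    (hx : x ∈ K) (hy : y ∈ K) {u : Fin n → F} (hu : u ≠ 0) (hxy : x *ᵥ u = y *ᵥ u) : x = y := by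
  by_contra hne
  obtain ⟨z, hz, h1⟩ := h.inv (x - y) (K.sub_mem hx hy) (sub_ne_zero.2 hne)
  rw [h.comm _ (K.sub_mem hx hy) z hz] at h1
  apply hu
  have h2 : (x - y) *ᵥ u = 0 := by rw [Matrix.sub_mulVec, hxy, sub_self]
  have h3 : u = z *ᵥ ((x - y) *ᵥ u) := by rw [Matrix.mulVec_mulVec, h1, Matrix.one_mulVec]
  rw [h3, h2, Matrix.mulVec_zero]

/-- a subspace functional over a field subalgebra -/
lemma FSub.exists_functional (hn : 0 < n) {L' : Subalgebra F (Matrix (Fin n) (Fin n) F)} (hL' : FSub L')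
    {P : Set (Fin n → F)} (hP0 : ∀ l ∈ L', ∀ v ∈ P, l *ᵥ v ∈ P) (hP1 : ∀ v ∈ P, ∀ w ∈ P, v + w ∈ P) (hP2 : (0 : Fin n → F) ∈ P)
    (hP : ∃ v, v ∉ P) : ∃ f : (Fin n → F) → Matrix (Fin n) (Fin n) F, (∀ v, f v ∈ L') ∧ (∀ v w, f (v + w) = f v + f w) ∧
      (∀ l ∈ L', ∀ v, f (l *ᵥ v) = l * f v) ∧ (∀ v ∈ P, f v = 0) ∧ ∃ v, f v = 1 := by
  letI : Field L' := (hL'.isField hn).toField
  letI : Module L' (Fin n → F) :=
    { smul := fun l v => (l : Matrix (Fin n) (Fin n) F) *ᵥ v
      one_smul := fun v => Matrix.one_mulVec v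
      mul_smul := fun a b v => (Matrix.mulVec_mulVec v (a : Matrix (Fin n) (Fin n) F) (b : Matrix (Fin n) (Fin n) F)).symm
      smul_zero := fun a => Matrix.mulVec_zero _
      smul_add := fun a v w => Matrix.mulVec_add _ v w
      add_smul := fun a b v => Matrix.add_mulVec _ _ v
      zero_smul := fun v => Matrix.zero_mulVec v }
  have hs : ∀ (l : L') (v : Fin n → F), l • v = (l : Matrix (Fin n) (Fin n) F) *ᵥ v := fun _ _ => rfl
  let P' : Submodule L' (Fin n → F) :=
    { carrier := P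
      add_mem' := fun {a b} ha hb => hP1 a ha b hb
      zero_mem' := hP2
      smul_mem' := fun c x hx => hP0 c c.2 x hx }
  have hlt : P' < ⊤ := by
    rw [lt_top_iff_ne_top]
    intro h
    obtain ⟨v, hv⟩ := hP
    apply hv
    have : v ∈ P' := by rw [h]; trivial
    exact this
  obtain ⟨f, hf0, hf⟩ := Submodule.exists_le_ker_of_lt_top P' hlt
  refine ⟨fun v => (f v : Matrix (Fin n) (Fin n) F), fun v => (f v).2, fun v w => ?_, fun l hl v => ?_, fun v hv => ?_, ?_⟩
  · show ((f (v + w) : L') : Matrix (Fin n) (Fin n) F) = _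
    rw [map_add]; rfl
  · have h1 := f.map_smul (⟨l, hl⟩ : L') v
    rw [hs] at h1
    exact congrArg Subtype.val h1
  · have h1 : f v = 0 := hf (show v ∈ P' from hv)
    show ((f v : L') : Matrix (Fin n) (Fin n) F) = 0
    rw [h1]; rfl
  · obtain ⟨v, hv⟩ : ∃ v, f v ≠ 0 := by
      by_contra hcon
      push Not at hcon
      exact hf0 (LinearMap.ext hcon)
    refine ⟨(f v)⁻¹ • v, ?_⟩
    show ((f ((f v)⁻¹ • v) : L') : Matrix (Fin n) (Fin n) F) = 1
    rw [map_smul, smul_eq_mul, inv_mul_cancel₀ hv]; rfl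

/-- an element of `SL` centralising `L'` and not normalising `L` -/
theorem FSub.sep {L' L : Subalgebra F (Matrix (Fin n) (Fin n) F)} (hL' : FSub L') (hL : FSub L) (hle : L' ≤ L)
    (hne : ¬ L ≤ L') (hcard : Nat.card L < Nat.card (Fin n → F)) :
    ∃ g : GL (Fin n) F, g ∈ Geo.specialLinear (Fin n) F ∧
      (∀ x ∈ L', (g : Matrix (Fin n) (Fin n) F) * x = x * (g : Matrix (Fin n) (Fin n) F)) ∧
      g ∉ Geo.subalgebraNormalizer L := by
  have hn : 0 < n := by
    rcases Nat.eq_zero_or_pos n with h | h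
    · subst h
      exfalso
      apply hne
      intro x hx
      have : x = 0 := Subsingleton.elim _ _
      rw [this]; exact L'.zero_mem
    · exact h
  have : Nonempty (Fin n) := ⟨⟨0, hn⟩⟩
  obtain ⟨u, hu⟩ := exists_ne (0 : Fin n → F)
  obtain ⟨f, hfL, hfa, hfs, hfP, v1, hv1⟩ := hL'.exists_functional hn (P := {v | ∃ l ∈ L, l *ᵥ u = v})
    (by rintro l hl v ⟨k, hk, rfl⟩; exact ⟨l * k, L.mul_mem (hle hl) hk, (Matrix.mulVec_mulVec u l k).symm⟩)
    (by rintro v ⟨k, hk, rfl⟩ w ⟨l, hl, rfl⟩; exact ⟨k + l, L.add_mem hk hl, Matrix.add_mulVec _ _ _⟩)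
    ⟨0, L.zero_mem, Matrix.zero_mulVec u⟩ (by
      by_contra hcon
      push Not at hcon
      have hsurj : Function.Surjective (fun l : L => (l : Matrix (Fin n) (Fin n) F) *ᵥ u) := by
        intro v
        obtain ⟨l, hl, hlv⟩ := hcon v
        exact ⟨⟨l, hl⟩, hlv⟩
      have := Nat.card_le_card_of_surjective _ hsurj
      omega)
  have hfc : ∀ (c : F) (v : Fin n → F), f (c • v) = c • f v := by
    intro c v
    have h1 := hfs (c • (1 : Matrix (Fin n) (Fin n) F)) (L'.smul_mem L'.one_mem c) v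
    rwa [Matrix.smul_mulVec, Matrix.one_mulVec, Matrix.smul_mul, Matrix.one_mul] at h1
  have hfu : f u = 0 := hfP u ⟨1, L.one_mem, Matrix.one_mulVec u⟩
  let T : (Fin n → F) →ₗ[F] (Fin n → F) :=
    { toFun := fun x => x + f x *ᵥ u
      map_add' := by intro x y; rw [hfa, Matrix.add_mulVec]; abel
      map_smul' := by
        intro c x
        show c • x + f (c • x) *ᵥ u = c • (x + f x *ᵥ u)
        rw [hfc, Matrix.smul_mulVec, smul_add] }
  have hT : ∀ x, T x = x + f x *ᵥ u := fun x => rfl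
  have hinj : Function.Injective T := by
    rw [injective_iff_map_eq_zero]
    intro x hx
    have h1 : f (T x) = f x := by rw [hT, hfa, hfs _ (hfL x), hfu, Matrix.mul_zero, add_zero]
    have h0 : f 0 = 0 := by
      have := hfc 0 0
      rwa [zero_smul, zero_smul] at this
    rw [hx, h0] at h1
    rw [hT, ← h1, Matrix.zero_mulVec, add_zero] at hx
    exact hx
  obtain ⟨g, hg⟩ := exists_gl_of_injective T hinj
  have hgu : (g : Matrix (Fin n) (Fin n) F) *ᵥ u = u := by rw [hg, hT, hfu, Matrix.zero_mulVec, add_zero]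
  have hcomm : ∀ x ∈ L', (g : Matrix (Fin n) (Fin n) F) * x = x * (g : Matrix (Fin n) (Fin n) F) := by
    intro x hx
    apply Matrix.toLin'.injective
    apply LinearMap.ext
    intro v
    rw [Matrix.toLin'_apply, Matrix.toLin'_apply, ← Matrix.mulVec_mulVec, ← Matrix.mulVec_mulVec, hg, hg, hT, hT, hfs x hx,
      Matrix.mulVec_add, Matrix.mulVec_mulVec]
  refine ⟨g, ?_, hcomm, ?_⟩
  · obtain ⟨p, hp⟩ := CharP.exists F
    have hpp : p.Prime := CharP.char_is_prime F p
    have : Fact p.Prime := ⟨hpp⟩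
    have hpow : ∀ k : ℕ, ∀ x, ((g ^ k : GL (Fin n) F) : Matrix (Fin n) (Fin n) F) *ᵥ x = x + (k : F) • (f x *ᵥ u) := by
      intro k
      induction k with
      | zero => intro x; simp
      | succ k ih =>
        intro x
        rw [pow_succ, gl_mul_mulVec, hg, hT, ih, hfa, hfs _ (hfL x), hfu, Matrix.mul_zero, add_zero]
        push_cast
        module
    have hgp : g ^ p = 1 := by
      apply gl_ext
      intro x
      rw [hpow, CharP.cast_eq_zero, zero_smul, add_zero]; simp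
    have hdet : (Matrix.GeneralLinearGroup.det g) ^ p = 1 := by rw [← map_pow, hgp, map_one]
    have h2 : ((Matrix.GeneralLinearGroup.det g : Fˣ) : F) = 1 := by
      apply frobenius_inj F p
      rw [frobenius_def, frobenius_def, one_pow, ← Units.val_pow_eq_pow_val, hdet, Units.val_one]
    show Matrix.GeneralLinearGroup.det g = 1
    exact Units.ext h2
  · intro hN
    apply hne
    intro l hl
    have h1 := (hN l).1 hl
    obtain ⟨l', hl'⟩ : ∃ l', l' = (g : Matrix (Fin n) (Fin n) F) * l * ((g⁻¹ : GL (Fin n) F) : Matrix (Fin n) (Fin n) F) := ⟨_, rfl⟩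
    rw [← hl'] at h1
    have hgi : ((g⁻¹ : GL (Fin n) F) : Matrix (Fin n) (Fin n) F) *ᵥ u = u := by
      conv_lhs => rw [← hgu]
      rw [gl_inv_mulVec_mulVec]
    have h2 : l' *ᵥ u = l *ᵥ u := by
      rw [hl', ← Matrix.mulVec_mulVec, ← Matrix.mulVec_mulVec, hgi, hg, hT, hfP (l *ᵥ u) ⟨l, hl, rfl⟩, Matrix.zero_mulVec,
        add_zero]
    have h3 : l' = l := hL.eq_of_mulVec h1 hl hu h2
    have h4 : (g : Matrix (Fin n) (Fin n) F) * l = l * (g : Matrix (Fin n) (Fin n) F) := by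
      have h5 : (g : Matrix (Fin n) (Fin n) F) * l = l' * (g : Matrix (Fin n) (Fin n) F) := by
        rw [hl', Matrix.mul_assoc, ← Units.val_mul, inv_mul_cancel, Units.val_one, Matrix.mul_one]
      rw [h5, h3]
    have h5 : f (l *ᵥ v1) *ᵥ u = l *ᵥ u := by
      have h6 := congrArg (fun A => A *ᵥ v1) h4
      beta_reduce at h6
      rw [← Matrix.mulVec_mulVec, ← Matrix.mulVec_mulVec, hg, hg, hT, hT, hv1, Matrix.one_mulVec, Matrix.mulVec_add] at h6
      exact add_left_cancel h6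
    have h6 := hL.eq_of_mulVec (hle (hfL _)) hl hu h5
    rw [← h6]
    exact hfL _

lemma mem_normalizer_of_comm {L : Subalgebra F (Matrix (Fin n) (Fin n) F)} {g : GL (Fin n) F}
    (h : ∀ x ∈ L, (g : Matrix (Fin n) (Fin n) F) * x = x * (g : Matrix (Fin n) (Fin n) F)) :
    g ∈ Geo.subalgebraNormalizer L := by
  have e1 : ((g⁻¹ : GL (Fin n) F) : Matrix (Fin n) (Fin n) F) * (g : Matrix (Fin n) (Fin n) F) = 1 := by
    rw [← Units.val_mul, inv_mul_cancel, Units.val_one]
  have e2 : (g : Matrix (Fin n) (Fin n) F) * ((g⁻¹ : GL (Fin n) F) : Matrix (Fin n) (Fin n) F) = 1 := by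
    rw [← Units.val_mul, mul_inv_cancel, Units.val_one]
  intro k
  constructor
  · intro hk
    rw [h k hk, Matrix.mul_assoc, e2, Matrix.mul_one]; exact hk
  · intro hk
    have h1 := h _ hk
    have h2 : k = (g : Matrix (Fin n) (Fin n) F) * k * ((g⁻¹ : GL (Fin n) F) : Matrix (Fin n) (Fin n) F) := by
      have h3 : (g : Matrix (Fin n) (Fin n) F) * ((g : Matrix (Fin n) (Fin n) F) * k * ((g⁻¹ : GL (Fin n) F) : Matrix (Fin n) (Fin n) F)) =
          (g : Matrix (Fin n) (Fin n) F) * k := by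
        rw [h1, Matrix.mul_assoc, e1, Matrix.mul_one]
      have h4 := congrArg (fun A => ((g⁻¹ : GL (Fin n) F) : Matrix (Fin n) (Fin n) F) * A) h3
      beta_reduce at h4
      rw [← Matrix.mul_assoc, e1, Matrix.one_mul, ← Matrix.mul_assoc, e1, Matrix.one_mul] at h4
      exact h4.symm
    rw [h2]; exact hk

end Cfsg.Agent.H12
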