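import Mathlib
import Cfsg.Prelude.Def_GeometricClasses
import Cfsg.Agent.H12.ExtComp

/-!
Normalisers of extension fields of composite degree are not maximal.
-/

set_option autoImplicit false
set_option linter.unusedSectionVars false
set_option linter.style.haveILetI false

namespace Cfsg.Agent.H12

open Matrix Cfsg

variable {F : Type*} [Field F] [Fintype F] {n : ℕ}

/-- the fixed subalgebra of a power of Frobenius -/
def frobSub (hn : 0 < n) {K : Subalgebra F (Matrix (Fin n) (Fin n) F)} (hK : FSub K) (d : ℕ) :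
    Subalgebra F (Matrix (Fin n) (Fin n) F) where
  carrier := {x | x ∈ K ∧ x ^ (Fintype.card F ^ d) = x}
  mul_mem' := by
    rintro x y ⟨hx, hx'⟩ ⟨hy, hy'⟩
    refine ⟨K.mul_mem hx hy, ?_⟩
    rw [Commute.mul_pow (hK.comm x hx y hy), hx', hy']
  add_mem' := by
    rintro x y ⟨hx, hx'⟩ ⟨hy, hy'⟩
    refine ⟨K.add_mem hx hy, ?_⟩
    obtain ⟨p, hp⟩ := CharP.exists F
    have : Nonempty (Fin n) := ⟨⟨0, hn⟩⟩
    obtain ⟨e, hpp, hq⟩ := FiniteField.card F p
    have : Fact p.Prime := ⟨hpp⟩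
    have h1 : Fintype.card F ^ d = p ^ ((e : ℕ) * d) := by rw [hq, pow_mul]
    rw [h1] at hx' hy' ⊢
    rw [add_pow_char_pow_of_commute _ _ (hK.comm x hx y hy), hx', hy']
  algebraMap_mem' := by
    intro c
    refine ⟨K.algebraMap_mem c, ?_⟩
    rw [← map_pow, FiniteField.pow_card_pow]

lemma frobSub_le (hn : 0 < n) {K : Subalgebra F (Matrix (Fin n) (Fin n) F)} (hK : FSub K) (d : ℕ) :
    frobSub hn hK d ≤ K := fun _ hx => hx.1

lemma frobSub_fsub (hn : 0 < n) {K : Subalgebra F (Matrix (Fin n) (Fin n) F)} (hK : FSub K) (d : ℕ) :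
    FSub (frobSub hn hK d) := by
  apply hK.mono (frobSub_le hn hK d)
  rintro x ⟨hx, hx'⟩ y hy hxy
  refine ⟨hy, ?_⟩
  have h1 : x * y ^ (Fintype.card F ^ d) = 1 := by
    conv_lhs => rw [← hx']
    rw [← Commute.mul_pow (hK.comm x hx y hy), hxy, one_pow]
  have h2 : y * x = 1 := by rw [← hK.comm x hx y hy, hxy]
  calc y ^ (Fintype.card F ^ d) = (y * x) * y ^ (Fintype.card F ^ d) := by rw [h2, Matrix.one_mul]
    _ = y := by rw [Matrix.mul_assoc, h1, Matrix.mul_one]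

lemma normalizer_le_frobSub (hn : 0 < n) {K : Subalgebra F (Matrix (Fin n) (Fin n) F)} (hK : FSub K) (d : ℕ) :
    Geo.subalgebraNormalizer K ≤ Geo.subalgebraNormalizer (frobSub hn hK d) := by
  intro g hg k
  have e1 : ((g⁻¹ : GL (Fin n) F) : Matrix (Fin n) (Fin n) F) * (g : Matrix (Fin n) (Fin n) F) = 1 := by
    rw [← Units.val_mul, inv_mul_cancel, Units.val_one]
  have e2 : (g : Matrix (Fin n) (Fin n) F) * ((g⁻¹ : GL (Fin n) F) : Matrix (Fin n) (Fin n) F) = 1 := by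
    rw [← Units.val_mul, mul_inv_cancel, Units.val_one]
  have hpow : ∀ N : ℕ, ((g : Matrix (Fin n) (Fin n) F) * k * ((g⁻¹ : GL (Fin n) F) : Matrix (Fin n) (Fin n) F)) ^ N =
      (g : Matrix (Fin n) (Fin n) F) * k ^ N * ((g⁻¹ : GL (Fin n) F) : Matrix (Fin n) (Fin n) F) := by
    intro N
    induction N with
    | zero => rw [pow_zero, pow_zero, Matrix.mul_one, e2]
    | succ N ih =>
      rw [pow_succ, ih, pow_succ]
      calc _ = (g : Matrix (Fin n) (Fin n) F) * k ^ N * (((g⁻¹ : GL (Fin n) F) : Matrix (Fin n) (Fin n) F) * (g : Matrix (Fin n) (Fin n) F)) * k *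
            ((g⁻¹ : GL (Fin n) F) : Matrix (Fin n) (Fin n) F) := by simp only [Matrix.mul_assoc]
        _ = _ := by rw [e1, Matrix.mul_one]; simp only [Matrix.mul_assoc]
  constructor
  · rintro ⟨hk, hk'⟩
    exact ⟨(hg k).1 hk, by rw [hpow, hk']⟩
  · rintro ⟨hk, hk'⟩
    refine ⟨(hg k).2 hk, ?_⟩
    rw [hpow] at hk'
    have h1 := congrArg (fun A => ((g⁻¹ : GL (Fin n) F) : Matrix (Fin n) (Fin n) F) * A * (g : Matrix (Fin n) (Fin n) F)) hk'
    beta_reduce at h1
    simp only [Matrix.mul_assoc, e1, Matrix.mul_one] at h1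
    rwa [← Matrix.mul_assoc, ← Matrix.mul_assoc, e1, Matrix.one_mul, Matrix.one_mul] at h1

lemma card_fsub {K : Subalgebra F (Matrix (Fin n) (Fin n) F)} {r : ℕ} (h : Module.finrank F K = r) :
    Nat.card K = Fintype.card F ^ r := by
  rw [← h, ← Nat.card_eq_fintype_card, ← Module.natCard_eq_pow_finrank]

/-- the intermediate field is intermediate -/
lemma frobSub_strict (hn : 0 < n) {K : Subalgebra F (Matrix (Fin n) (Fin n) F)} (hK : FSub K) {r d : ℕ}
    (hr : Module.finrank F K = r) (hdr : d ∣ r) (hd1 : 1 < d) (hdr' : d < r) :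
    ¬ K ≤ frobSub hn hK d ∧ ¬ frobSub hn hK d ≤ ⊥ := by
  have hcard := card_fsub hr
  obtain ⟨q, hq⟩ : ∃ q, q = Fintype.card F := ⟨_, rfl⟩
  have hq2 : 2 ≤ q := by rw [hq]; exact Fintype.one_lt_card
  letI : Field K := (hK.isField hn).toField
  have hfin : Finite K := inferInstance
  obtain ⟨ζ, hζ⟩ := IsCyclic.exists_ofOrder_eq_natCard (α := Kˣ)
  have hcu : Nat.card Kˣ = Nat.card K - 1 := Nat.card_units K
  rw [hcu, hcard, ← hq] at hζ
  have hdlt : q ^ d < q ^ r := Nat.pow_lt_pow_right hq2 hdr'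
  have hqd : q ^ 1 < q ^ d := Nat.pow_lt_pow_right hq2 hd1
  rw [pow_one] at hqd
  have hcoe : ∀ (x : K) (m : ℕ), ((x ^ m : K) : Matrix (Fin n) (Fin n) F) = (x : Matrix (Fin n) (Fin n) F) ^ m := by
    intro x m
    exact Subalgebra.coe_pow K x m
  constructor
  · intro h
    have h1 := (h (ζ : K).2).2
    rw [← hcoe, ← hq] at h1
    have h2 : ((ζ : K)) ^ (q ^ d) = ζ := Subtype.ext h1
    have h3 : ζ ^ (q ^ d - 1) = 1 := by
      have h4 : ζ ^ (q ^ d) = ζ := Units.ext (by rw [Units.val_pow_eq_pow_val]; exact h2)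
      have h5 : ζ * ζ ^ (q ^ d - 1) = ζ * 1 := by
        rw [← pow_succ', mul_one, Nat.sub_add_cancel (by omega)]; exact h4
      exact mul_left_cancel h5
    have h4 := orderOf_dvd_of_pow_eq_one h3
    rw [hζ] at h4
    have := Nat.le_of_dvd (by omega) h4
    omega
  · intro h
    have hdiv : q ^ d - 1 ∣ q ^ r - 1 := by
      obtain ⟨c, rfl⟩ := hdr
      rw [pow_mul]
      have := Nat.sub_dvd_pow_sub_pow (q ^ d) 1 c
      rwa [one_pow] at this
    obtain ⟨m, hm⟩ := hdiv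
    have hm0 : 0 < m := by
      rcases Nat.eq_zero_or_pos m with h0 | h0
      · rw [h0, mul_zero] at hm; omega
      · exact h0
    have h1 : (((ζ ^ m : Kˣ) : K) : Matrix (Fin n) (Fin n) F) ∈ frobSub hn hK d := by
      refine ⟨((ζ ^ m : Kˣ) : K).2, ?_⟩
      rw [← hcoe, ← hq]
      congr 1
      rw [← Units.val_pow_eq_pow_val]
      congr 1
      rw [← pow_mul]
      have h2 : m * q ^ d = m + (q ^ r - 1) := by
        rw [hm]
        obtain ⟨Q, hQ⟩ : ∃ Q, q ^ d = Q + 1 := ⟨q ^ d - 1, by omega⟩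
        rw [hQ, Nat.add_sub_cancel]; ring
      rw [h2, pow_add, ← hζ, pow_orderOf_eq_one, mul_one]
    obtain ⟨c, hc⟩ := Algebra.mem_bot.1 (h h1)
    have h2 : ((ζ ^ m : Kˣ) : K) ^ q = ((ζ ^ m : Kˣ) : K) := by
      apply Subtype.ext
      rw [hcoe, ← hc, ← map_pow, hq, FiniteField.pow_card]
    have h3 : ζ ^ (m * (q - 1)) = 1 := by
      have h4 : (ζ ^ m) ^ q = ζ ^ m := Units.ext (by rw [Units.val_pow_eq_pow_val]; exact h2)
      have h5 : ζ ^ m * (ζ ^ m) ^ (q - 1) = ζ ^ m * 1 := by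
        rw [← pow_succ', mul_one, Nat.sub_add_cancel (by omega)]; exact h4
      rw [pow_mul]
      exact mul_left_cancel h5
    have h4 := orderOf_dvd_of_pow_eq_one h3
    rw [hζ, hm] at h4
    have h5 := Nat.le_of_dvd (Nat.mul_pos hm0 (by omega)) h4
    have h6 : (q ^ d - 1) * m ≤ (q - 1) * m := by rw [mul_comm (q - 1)]; exact h5
    have h7 := Nat.le_of_mul_le_mul_right h6 hm0
    omega

theorem ext_comp {r : ℕ} (hr1 : 1 < r) (hrp : ¬ r.Prime) (hlt : r < n)
    {K : Subalgebra F (Matrix (Fin n) (Fin n) F)} (hK : Geo.IsFieldSubalgebra r K) :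
    ∃ N : Subgroup (GL (Fin n) F), Geo.subalgebraNormalizer K ≤ N ∧
      (∃ g ∈ Geo.specialLinear (Fin n) F, g ∈ N ∧ g ∉ Geo.subalgebraNormalizer K) ∧
      (∃ g ∈ Geo.specialLinear (Fin n) F, g ∉ N) := by
  have hn : 0 < n := by omega
  have hF : FSub K := ⟨hK.comm, hK.inv⟩
  have hd1 : 1 < r.minFac := (Nat.minFac_prime (by omega)).one_lt
  have hdr : r.minFac ∣ r := Nat.minFac_dvd r
  have hdr' : r.minFac < r := lt_of_le_of_ne (Nat.le_of_dvd (by omega) hdr) (fun h => hrp (by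
    rw [← h]; exact Nat.minFac_prime (by omega)))
  obtain ⟨s1, s2⟩ := frobSub_strict hn hF hK.finrank_eq hdr hd1 hdr'
  have hq2 : 2 ≤ Fintype.card F := Fintype.one_lt_card
  have hcV : Nat.card (Fin n → F) = Fintype.card F ^ n := by
    rw [Nat.card_eq_fintype_card, Fintype.card_fun, Fintype.card_fin]
  have hcK : Nat.card K < Nat.card (Fin n → F) := by
    rw [card_fsub hK.finrank_eq, hcV]
    exact Nat.pow_lt_pow_right hq2 hlt
  have hcK0 : Nat.card (frobSub hn hF r.minFac) ≤ Nat.card K :=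
    Nat.card_le_card_of_injective (Subalgebra.inclusion (frobSub_le hn hF r.minFac))
      (Subalgebra.inclusion_injective (frobSub_le hn hF r.minFac))
  have hbot : FSub (⊥ : Subalgebra F (Matrix (Fin n) (Fin n) F)) := by
    apply (frobSub_fsub hn hF r.minFac).mono bot_le
    rintro x hx y hy hxy
    obtain ⟨c, rfl⟩ := Algebra.mem_bot.1 hx
    have : Nonempty (Fin n) := ⟨⟨0, hn⟩⟩
    have hc : c ≠ 0 := by
      rintro rfl
      rw [map_zero, Matrix.zero_mul] at hxy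
      exact zero_ne_one hxy
    have h1 : y = algebraMap F _ c⁻¹ := by
      have h2 : algebraMap F (Matrix (Fin n) (Fin n) F) c⁻¹ * algebraMap F _ c = 1 := by
        rw [← map_mul, inv_mul_cancel₀ hc, map_one]
      calc y = (algebraMap F (Matrix (Fin n) (Fin n) F) c⁻¹ * algebraMap F _ c) * y := by rw [h2, Matrix.one_mul]
        _ = _ := by rw [Matrix.mul_assoc, hxy, Matrix.mul_one]
    rw [h1]
    exact Subalgebra.algebraMap_mem _ _
  obtain ⟨g1, a1, a2, a3⟩ := (frobSub_fsub hn hF r.minFac).sep hF (frobSub_le hn hF r.minFac) s1 hcK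
  obtain ⟨g2, b1, -, b3⟩ := hbot.sep (frobSub_fsub hn hF r.minFac) bot_le s2 (lt_of_le_of_lt hcK0 hcK)
  exact ⟨Geo.subalgebraNormalizer (frobSub hn hF r.minFac), normalizer_le_frobSub hn hF _,
    ⟨g1, a1, mem_normalizer_of_comm a2, a3⟩, ⟨g2, b1, b3⟩⟩

end Cfsg.Agent.H12
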