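import Cfsg.Prelude.Def_Solvable
import Mathlib.GroupTheory.Coset.Card
import Mathlib.GroupTheory.OrderOfElement

/-! Constructing Frobenius groups from fixed point free action (helper12). -/

namespace Cfsg.Agent.H12

open Subgroup Cfsg
open scoped Pointwise

/-- a fixed point free complement is a Frobenius complement, with the expected kernel -/
theorem frob_mk {G : Type*} [Group G] [Finite G] {K R : Subgroup G} [hK : K.Normal]
    (hK1 : K ≠ ⊥) (hR1 : R ≠ ⊥) (hKR : K ⊓ R = ⊥) (htop : K ⊔ R = ⊤)
    (hfix : ∀ x ∈ R, x ≠ 1 → ∀ k ∈ K, x * k = k * x → k = 1) :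
    IsFrobeniusComplement R ∧ frobeniusKernel R = (K : Set G) := by
  have hdec : ∀ g : G, ∃ k ∈ K, ∃ r ∈ R, k * r = g := by
    intro g
    have : g ∈ K ⊔ R := by rw [htop]; trivial
    rw [Subgroup.mem_sup_of_normal_left] at this
    exact this
  have hbot : ∀ x, x ∈ K → x ∈ R → x = 1 := by
    intro x h1 h2
    have : x ∈ K ⊓ R := Subgroup.mem_inf.2 ⟨h1, h2⟩
    rwa [hKR, Subgroup.mem_bot] at this
  refine ⟨⟨hR1, ?_, ?_⟩, ?_⟩
  · rintro rfl
    apply hK1
    rwa [inf_top_eq] at hKR
  · intro g hg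
    obtain ⟨k, hk, r, hr, rfl⟩ := hdec g
    rw [Subgroup.eq_bot_iff_forall]
    intro x hx
    obtain ⟨hx1, hx2⟩ := Subgroup.mem_inf.1 hx
    rw [Subgroup.mem_pointwise_smul_iff_inv_smul_mem] at hx2
    have h1 : r⁻¹ * (k⁻¹ * x * k) * r ∈ R := by
      have e : (MulAut.conj (k * r))⁻¹ • x = r⁻¹ * (k⁻¹ * x * k) * r := by
        rw [← map_inv, MulAut.smul_def, MulAut.conj_apply]; group
      rwa [e] at hx2
    have h2 : k⁻¹ * x * k ∈ R := by
      have := R.mul_mem (R.mul_mem hr h1) (R.inv_mem hr)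
      have e : r * (r⁻¹ * (k⁻¹ * x * k) * r) * r⁻¹ = k⁻¹ * x * k := by group
      rwa [e] at this
    have h3 : x⁻¹ * (k⁻¹ * x * k) = 1 := by
      apply hbot
      · have e : x⁻¹ * (k⁻¹ * x * k) = (x⁻¹ * k⁻¹ * x⁻¹⁻¹) * k := by group
        rw [e]
        exact K.mul_mem (hK.conj_mem _ (K.inv_mem hk) _) hk
      · exact R.mul_mem (R.inv_mem hx1) h2
    by_contra hx0
    have h4 : x * k = k * x := by
      have : k⁻¹ * x * k = x := (inv_mul_eq_one.1 h3).symm
      calc x * k = k * (k⁻¹ * x * k) := by group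
        _ = k * x := by rw [this]
    have h5 := hfix x hx1 hx0 k hk h4
    rw [h5, one_mul] at hg
    exact hg hr
  · ext x
    constructor
    · intro hx
      rcases hx with rfl | hx
      · exact K.one_mem
      · obtain ⟨k, hk, r, hr, rfl⟩ := hdec x
        by_cases hr1 : r = 1
        · rw [hr1, mul_one]; exact hk
        · exfalso
          -- the coset `K r` consists of conjugates of `r`
          let φ : K → K := fun c => ⟨(c : G) * (r * (c : G)⁻¹ * r⁻¹),
            K.mul_mem c.2 (hK.conj_mem _ (K.inv_mem c.2) r)⟩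
          have hφ : Function.Injective φ := by
            intro c d hcd
            have h1 : (c : G) * (r * (c : G)⁻¹ * r⁻¹) = (d : G) * (r * (d : G)⁻¹ * r⁻¹) :=
              congrArg Subtype.val hcd
            have h2 : r * ((d : G)⁻¹ * (c : G)) = ((d : G)⁻¹ * (c : G)) * r := by
              have h3 : (d : G)⁻¹ * ((c : G) * (r * (c : G)⁻¹ * r⁻¹)) * (r * (c : G)) =
                  (d : G)⁻¹ * ((d : G) * (r * (d : G)⁻¹ * r⁻¹)) * (r * (c : G)) := by rw [h1]
              have e1 : (d : G)⁻¹ * ((c : G) * (r * (c : G)⁻¹ * r⁻¹)) * (r * (c : G)) =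
                  ((d : G)⁻¹ * (c : G)) * r := by group
              have e2 : (d : G)⁻¹ * ((d : G) * (r * (d : G)⁻¹ * r⁻¹)) * (r * (c : G)) =
                  r * ((d : G)⁻¹ * (c : G)) := by group
              rw [e1, e2] at h3
              exact h3.symm
            have h4 := hfix r hr hr1 _ (K.mul_mem (K.inv_mem d.2) c.2) h2
            apply Subtype.ext
            exact (inv_mul_eq_one.1 h4).symm
          obtain ⟨c, hc⟩ := (Finite.injective_iff_surjective.1 hφ) ⟨k, hk⟩
          have hc' : (c : G) * (r * (c : G)⁻¹ * r⁻¹) = k := congrArg Subtype.val hc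
          apply hx (c : G)
          rw [Subgroup.mem_pointwise_smul_iff_inv_smul_mem]
          have e : (MulAut.conj (c : G))⁻¹ • (k * r) = r := by
            rw [← map_inv, MulAut.smul_def, MulAut.conj_apply, ← hc']; group
          rw [e]; exact hr
    · intro hx
      by_cases hx1 : x = 1
      · exact Or.inl hx1
      · right
        intro g hg
        rw [Subgroup.mem_pointwise_smul_iff_inv_smul_mem] at hg
        have e : (MulAut.conj g)⁻¹ • x = g⁻¹ * x * g⁻¹⁻¹ := by
          rw [← map_inv, MulAut.smul_def, MulAut.conj_apply]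
        rw [e] at hg
        have h1 := hbot _ (hK.conj_mem x hx g⁻¹) hg
        apply hx1
        have : x = g * (g⁻¹ * x * g⁻¹⁻¹) * g⁻¹ := by group
        rw [this, h1]; group

end Cfsg.Agent.H12
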