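import Mathlib

/-!
# Distances in connected graphs invariant under a group
-/

set_option linter.unusedSectionVars false
set_option linter.style.longLine false

namespace Cfsg.Agent.H12.MD

open MulAction

section graph

variable {Ω : Type*} {X : SimpleGraph Ω}

/-- first step of a geodesic -/
theorem exists_step (hX : X.Connected) {x y : Ω} (h : x ≠ y) :
    ∃ x', X.Adj x x' ∧ X.dist x' y + 1 = X.dist x y := by
  obtain ⟨p, hp⟩ := hX.exists_walk_length_eq_dist x y
  cases p with
  | nil => exact absurd rfl h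
  | @cons _ x' _ hadj q =>
    refine ⟨x', hadj, ?_⟩
    have h1 : X.dist x' y ≤ q.length := X.dist_le q
    have h2 : X.dist x y ≤ X.dist x x' + X.dist x' y := hX.dist_triangle
    have h3 : X.dist x x' = 1 := SimpleGraph.dist_eq_one_iff_adj.2 hadj
    rw [SimpleGraph.Walk.length_cons] at hp
    omega

/-- points on a geodesic -/
theorem exists_between (hX : X.Connected) (x y : Ω) (t : ℕ) (ht : t ≤ X.dist x y) :
    ∃ z, X.dist x z = t ∧ X.dist z y = X.dist x y - t := by
  induction t generalizing x with
  | zero => exact ⟨x, by simp, by simp⟩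
  | succ t ih =>
    have hne : x ≠ y := by
      rintro rfl
      simp at ht
    obtain ⟨x', hadj, hx'⟩ := exists_step hX hne
    obtain ⟨z, hz1, hz2⟩ := ih x' (by omega)
    have h3 : X.dist x x' = 1 := SimpleGraph.dist_eq_one_iff_adj.2 hadj
    have h4 : X.dist x z ≤ X.dist x x' + X.dist x' z := hX.dist_triangle
    have h5 : X.dist x y ≤ X.dist x z + X.dist z y := hX.dist_triangle
    exact ⟨z, by omega, by omega⟩

end graph

section color

variable {G Ω : Type*} [Group G] [MulAction G Ω]

/-- the colour of an ordered pair -/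
def col (G : Type*) {Ω : Type*} [Group G] [MulAction G Ω] (x y : Ω) : Quotient (MulAction.orbitRel G (Ω × Ω)) :=
  Quotient.mk _ (x, y)

theorem col_smul (g : G) (x y : Ω) : col G (g • x) (g • y) = col G x y :=
  Quotient.sound ⟨g, rfl⟩

theorem col_eq {x y x' y' : Ω} (h : col G x y = col G x' y') : ∃ g : G, g • x' = x ∧ g • y' = y := by
  obtain ⟨g, hg⟩ := Quotient.exact h
  exact ⟨g, congrArg Prod.fst hg, congrArg Prod.snd hg⟩

variable [Fintype Ω] [DecidableEq Ω]

open Classical in
/-- the number of points distinguishing `x` and `y` -/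
noncomputable def Dd (G : Type*) {Ω : Type*} [Group G] [MulAction G Ω] [Fintype Ω] (x y : Ω) : ℕ :=
  (Finset.univ.filter (fun γ : Ω => col G γ x ≠ col G γ y)).card

theorem Dd_comm (x y : Ω) : Dd G x y = Dd G y x := by
  unfold Dd
  congr 1
  ext γ
  simp only [Finset.mem_filter, Finset.mem_univ, true_and]
  exact ne_comm

theorem Dd_smul (g : G) (x y : Ω) : Dd G (g • x) (g • y) = Dd G x y := by
  classical
  unfold Dd
  symm
  apply Finset.card_bij (fun γ _ => g • γ)
  · intro γ hγ
    simp only [Finset.mem_filter, Finset.mem_univ, true_and] at hγ ⊢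
    rw [col_smul, col_smul]
    exact hγ
  · intro a _ b _ hab
    exact smul_left_cancel g hab
  · intro b hb
    refine ⟨g⁻¹ • b, ?_, smul_inv_smul _ _⟩
    simp only [Finset.mem_filter, Finset.mem_univ, true_and] at hb ⊢
    rw [← col_smul g, ← col_smul g (g⁻¹ • b) y, smul_inv_smul]
    exact hb

theorem Dd_triangle (x y z : Ω) : Dd G x z ≤ Dd G x y + Dd G y z := by
  classical
  unfold Dd
  refine le_trans (Finset.card_le_card ?_) (Finset.card_union_le _ _)
  intro γ hγ
  simp only [Finset.mem_filter, Finset.mem_univ, true_and, Finset.mem_union] at hγ ⊢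
  by_contra hcon
  push Not at hcon
  exact hγ (hcon.1.trans hcon.2)

theorem Dd_self (x : Ω) : Dd G x x = 0 := by
  unfold Dd
  simp

/-- an element moves all points distinguishing `x` and `g x` -/
theorem Dd_le_moved (g : G) (x : Ω) :
    Dd G x (g • x) ≤ (Finset.univ.filter (fun y : Ω => g • y ≠ y)).card := by
  classical
  unfold Dd
  apply Finset.card_le_card
  intro γ hγ
  simp only [Finset.mem_filter, Finset.mem_univ, true_and] at hγ ⊢
  intro hfix
  apply hγ
  conv_rhs => rw [← hfix]
  rw [col_smul]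

/-- an invariant graph -/
def InvG (G : Type*) {Ω : Type*} [Group G] [MulAction G Ω] (X : SimpleGraph Ω) : Prop :=
  ∀ (g : G) (x y : Ω), X.Adj x y → X.Adj (g • x) (g • y)

theorem InvG.adj {X : SimpleGraph Ω} (hX : InvG G X) {x y x' y' : Ω} (h : col G x y = col G x' y') :
    X.Adj x y ↔ X.Adj x' y' := by
  obtain ⟨g, rfl, rfl⟩ := col_eq h
  refine ⟨fun h => ?_, fun h => hX g _ _ h⟩
  have := hX g⁻¹ _ _ h
  simpa using this

theorem InvG.reach {X : SimpleGraph Ω} (hX : InvG G X) (g : G) {x y : Ω} (h : X.Reachable x y) :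
    X.Reachable (g • x) (g • y) := by
  obtain ⟨p⟩ := h
  induction p with
  | nil => exact SimpleGraph.Reachable.refl _
  | cons hadj q ih => exact (hX g _ _ hadj).reachable.trans ih

theorem InvG.dist_le {X : SimpleGraph Ω} (hX : InvG G X) (hc : X.Connected) (g : G) (x y : Ω) :
    X.dist (g • x) (g • y) ≤ X.dist x y := by
  obtain ⟨p, hp⟩ := hc.exists_walk_length_eq_dist x y
  rw [← hp]
  clear hp
  induction p with
  | nil => simp
  | @cons u v w hadj q ih =>
    have h1 : X.dist (g • u) (g • v) = 1 := SimpleGraph.dist_eq_one_iff_adj.2 (hX g _ _ hadj)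
    have h2 : X.dist (g • u) (g • w) ≤ X.dist (g • u) (g • v) + X.dist (g • v) (g • w) := hc.dist_triangle
    rw [SimpleGraph.Walk.length_cons]
    omega

theorem InvG.dist_smul {X : SimpleGraph Ω} (hX : InvG G X) (hc : X.Connected) (g : G) (x y : Ω) :
    X.dist (g • x) (g • y) = X.dist x y := by
  apply le_antisymm (hX.dist_le hc g x y)
  have := hX.dist_le hc g⁻¹ (g • x) (g • y)
  simpa using this

theorem InvG.dist_col {X : SimpleGraph Ω} (hX : InvG G X) (hc : X.Connected) {x y x' y' : Ω}
    (h : col G x y = col G x' y') : X.dist x y = X.dist x' y' := by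
  obtain ⟨g, rfl, rfl⟩ := col_eq h
  exact hX.dist_smul hc g _ _

/-- an invariant graph with an edge is connected if the group is primitive -/
theorem InvG.connected (hprim : IsPreprimitive G Ω) {X : SimpleGraph Ω} (hX : InvG G X) {a b : Ω}
    (hab : X.Adj a b) : X.Connected := by
  have : Nonempty Ω := ⟨a⟩
  have hblock : IsBlock G {y : Ω | X.Reachable a y} := by
    rw [isBlock_iff_smul_eq_of_nonempty]
    intro g hne
    obtain ⟨z, hz1, hz2⟩ := hne
    obtain ⟨w, hw, rfl⟩ := hz1
    have h1 : X.Reachable (g • a) (g • w) := hX.reach g hw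
    have h2 : X.Reachable a (g • a) := SimpleGraph.Reachable.trans hz2 h1.symm
    ext y
    constructor
    · rintro ⟨y', hy', rfl⟩
      exact h2.trans (hX.reach g hy')
    · intro hy
      refine ⟨g⁻¹ • y, ?_, smul_inv_smul _ _⟩
      have h3 : X.Reachable (g • a) y := h2.symm.trans hy
      have h4 := hX.reach g⁻¹ h3
      rwa [inv_smul_smul] at h4
  have htriv := hprim.isTrivialBlock_of_isBlock hblock
  rcases htriv with h | h
  · exfalso
    have h1 : a ∈ {y : Ω | X.Reachable a y} := SimpleGraph.Reachable.refl _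
    have h2 : b ∈ {y : Ω | X.Reachable a y} := hab.reachable
    exact hab.ne (h h1 h2)
  · have h3 : ∀ y, X.Reachable a y := by
      intro y
      have : y ∈ {y : Ω | X.Reachable a y} := by rw [h]; trivial
      exact this
    exact ⟨fun x y => (h3 x).symm.trans (h3 y)⟩

/-- the graph of the colour of `(a, b)` -/
def XG (G : Type*) {Ω : Type*} [Group G] [MulAction G Ω] (a b : Ω) : SimpleGraph Ω where
  Adj x y := x ≠ y ∧ (col G x y = col G a b ∨ col G y x = col G a b)
  symm := by
    constructor
    rintro x y ⟨h1, h2⟩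
    exact ⟨h1.symm, h2.symm⟩
  loopless := by
    constructor
    rintro x ⟨h1, _⟩
    exact h1 rfl

theorem XG_inv (a b : Ω) : InvG G (XG G a b) := by
  rintro g x y ⟨h1, h2⟩
  refine ⟨fun h => h1 (smul_left_cancel g h), ?_⟩
  rw [col_smul, col_smul]
  exact h2

theorem XG_Dd {a b x y : Ω} (h : (XG G a b).Adj x y) : Dd G x y = Dd G a b := by
  rcases h.2 with h1 | h1
  · obtain ⟨g, rfl, rfl⟩ := col_eq h1
    exact Dd_smul g a b
  · obtain ⟨g, rfl, rfl⟩ := col_eq h1
    rw [Dd_comm]
    exact Dd_smul g a b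

/-- F1 -/
theorem Dd_le_dist {a b : Ω} (hc : (XG G a b).Connected) (x y : Ω) :
    Dd G x y ≤ (XG G a b).dist x y * Dd G a b := by
  obtain ⟨d, hd⟩ : ∃ d, (XG G a b).dist x y = d := ⟨_, rfl⟩
  rw [hd]
  induction d generalizing x with
  | zero =>
    rw [hc.dist_eq_zero_iff] at hd
    subst hd
    rw [Dd_self]
    exact Nat.zero_le _
  | succ d ih =>
    have hne : x ≠ y := by
      rintro rfl
      simp at hd
    obtain ⟨x', hadj, hx'⟩ := exists_step hc hne
    have h1 := ih x' (by omega)
    have h2 := Dd_triangle (G := G) x x' y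
    rw [XG_Dd hadj] at h2
    calc Dd G x y ≤ Dd G a b + Dd G x' y := h2
      _ ≤ Dd G a b + d * Dd G a b := by omega
      _ = (d + 1) * Dd G a b := by ring

/-- F2 -/
theorem dist_le_Dd {a b : Ω} (hc : (XG G a b).Connected) (x y : Ω) :
    (XG G a b).dist x y ≤ Dd G a b := by
  classical
  by_cases hne : x = y
  · subst hne; simp
  obtain ⟨x', hadj, hx'⟩ := exists_step hc hne
  rw [← XG_Dd hadj]
  set X := XG G a b with hXdef
  have hinv : InvG G X := XG_inv a b
  have key : ∀ t : Fin (X.dist x y), ∃ z, X.dist x z = t + 1 ∧ X.dist x' z = t := by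
    intro t
    obtain ⟨z, hz1, hz2⟩ := exists_between hc x' y t (by omega)
    have h3 : X.dist x x' = 1 := SimpleGraph.dist_eq_one_iff_adj.2 hadj
    have h4 : X.dist x z ≤ X.dist x x' + X.dist x' z := hc.dist_triangle
    have h5 : X.dist x y ≤ X.dist x z + X.dist z y := hc.dist_triangle
    have := t.2
    exact ⟨z, by omega, hz1⟩
  choose f hf1 hf2 using key
  have hinj : Function.Injective f := by
    intro s t hst
    apply Fin.ext
    rw [← hf2 s, ← hf2 t, hst]
  have h1 : (Finset.univ.image f).card = X.dist x y := by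
    rw [Finset.card_image_of_injective _ hinj, Finset.card_univ, Fintype.card_fin]
  rw [← h1]
  unfold Dd
  apply Finset.card_le_card
  intro γ hγ
  rw [Finset.mem_image] at hγ
  obtain ⟨t, _, rfl⟩ := hγ
  simp only [Finset.mem_filter, Finset.mem_univ, true_and]
  intro hcol
  have h2 := hinv.dist_col hc hcol
  have e1 := hf1 t
  have e2 := hf2 t
  rw [SimpleGraph.dist_comm] at e1 e2
  omega

end color

end Cfsg.Agent.H12.MD
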