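import Mathlib
import Cfsg.Agent.H12.MinDeg

/-!
# The number of points distinguishing two points of a uniprimitive group (Babai)
-/

set_option linter.unusedSectionVars false
set_option linter.unusedVariables false
set_option linter.style.longLine false

namespace Cfsg.Agent.H12.MD

open MulAction

variable {G Ω : Type*} [Group G] [MulAction G Ω] [Fintype Ω] [DecidableEq Ω]

open Classical in
/-- invariant relations have constant out-degree -/
theorem deg_const [IsPretransitive G Ω] (R : Ω → Ω → Prop) (hR : ∀ (g : G) x y, R x y → R (g • x) (g • y)) (x x' : Ω) :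
    (Finset.univ.filter (fun y => R x y)).card = (Finset.univ.filter (fun y => R x' y)).card := by
  obtain ⟨g, rfl⟩ := exists_smul_eq G x x'
  apply Finset.card_bij (fun y _ => g • y)
  · intro y hy
    simp only [Finset.mem_filter, Finset.mem_univ, true_and] at hy ⊢
    exact hR g x y hy
  · intro a _ b _ hab
    exact smul_left_cancel g hab
  · intro b hb
    refine ⟨g⁻¹ • b, ?_, smul_inv_smul _ _⟩
    simp only [Finset.mem_filter, Finset.mem_univ, true_and] at hb ⊢
    have := hR g⁻¹ _ _ hb
    rwa [inv_smul_smul] at this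

open Classical in
theorem deg_in_out [IsPretransitive G Ω] (R : Ω → Ω → Prop) (hR : ∀ (g : G) x y, R x y → R (g • x) (g • y)) (x x' : Ω) :
    (Finset.univ.filter (fun y => R x y)).card = (Finset.univ.filter (fun y => R y x')).card := by
  have h1 : ∑ z : Ω, (Finset.univ.filter (fun y => R z y)).card = ∑ z : Ω, (Finset.univ.filter (fun y => R y z)).card := by
    have h2 := Finset.sum_card_bipartiteAbove_eq_sum_card_bipartiteBelow (s := (Finset.univ : Finset Ω))
      (t := (Finset.univ : Finset Ω)) R
    simpa [Finset.bipartiteAbove, Finset.bipartiteBelow] using h2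
  have h3 : ∀ z, (Finset.univ.filter (fun y => R z y)).card = (Finset.univ.filter (fun y => R x y)).card :=
    fun z => deg_const (G := G) R hR z x
  have h4 : ∀ z, (Finset.univ.filter (fun y => R y z)).card = (Finset.univ.filter (fun y => R y x')).card :=
    fun z => deg_const (G := G) (fun u w => R w u) (fun g u w h => hR g w u h) z x'
  simp only [h3, h4, Finset.sum_const, Finset.card_univ, smul_eq_mul] at h1
  have : 0 < Fintype.card Ω := Fintype.card_pos_iff.2 ⟨x⟩
  exact Nat.eq_of_mul_eq_mul_left this h1

/-- the average argument -/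
theorem exists_large {c d : ℕ} (hn : 0 < Fintype.card Ω)
    (h : ∀ z y : Ω, d * Nat.card {y' : Ω // col G z y' = col G z y} ≤ c * Fintype.card Ω) (hcd : c ≤ d) :
    ∃ x y : Ω, (d - c) * Fintype.card Ω ≤ d * Dd G x y := by
  classical
  by_contra hcon
  push Not at hcon
  set n := Fintype.card Ω with hndef
  have h0 : ∀ γ x : Ω, n = (Finset.univ.filter (fun y : Ω => col G γ x ≠ col G γ y)).card +
      (Finset.univ.filter (fun y : Ω => col G γ y = col G γ x)).card := by
    intro γ x
    rw [← Finset.card_union_of_disjoint, hndef, ← Finset.card_univ]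
    · congr 1
      ext y
      simp only [Finset.mem_univ, Finset.mem_union, Finset.mem_filter, true_and, true_iff]
      tauto
    · rw [Finset.disjoint_filter]
      intro y _ h1 h2
      exact h1 h2.symm
  have h1 : ∀ γ x : Ω, (d - c) * n ≤ d * (Finset.univ.filter (fun y : Ω => col G γ x ≠ col G γ y)).card := by
    intro γ x
    have h2 := h γ x
    rw [Nat.card_eq_fintype_card, Fintype.card_subtype] at h2
    have h3 := h0 γ x
    have h4 : d * n = d * (Finset.univ.filter (fun y : Ω => col G γ x ≠ col G γ y)).card +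
      d * (Finset.univ.filter (fun y : Ω => col G γ y = col G γ x)).card := by
      conv_lhs => rw [h3]
      rw [mul_add]
    rw [Nat.sub_mul]
    omega
  have h2 : ∑ x : Ω, ∑ y : Ω, d * Dd G x y = ∑ γ : Ω, ∑ x : Ω, d * (Finset.univ.filter (fun y : Ω => col G γ x ≠ col G γ y)).card := by
    have h3 : ∀ x y : Ω, d * Dd G x y = ∑ γ : Ω, d * (if col G γ x ≠ col G γ y then 1 else 0) := by
      intro x y
      unfold Dd
      rw [Finset.card_filter, Finset.mul_sum]
    have h4 : ∀ γ x : Ω, d * (Finset.univ.filter (fun y : Ω => col G γ x ≠ col G γ y)).card =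
        ∑ y : Ω, d * (if col G γ x ≠ col G γ y then 1 else 0) := by
      intro γ x
      rw [Finset.card_filter, Finset.mul_sum]
    simp_rw [h3, h4]
    have h6 : ∀ x : Ω, ∑ y : Ω, ∑ γ : Ω, d * (if col G γ x ≠ col G γ y then 1 else 0) =
        ∑ γ : Ω, ∑ y : Ω, d * (if col G γ x ≠ col G γ y then 1 else 0) := fun x => Finset.sum_comm
    rw [Finset.sum_congr rfl (fun x _ => h6 x)]
    exact Finset.sum_comm
  have h5 : ∑ γ : Ω, ∑ x : Ω, (d - c) * n ≤ ∑ x : Ω, ∑ y : Ω, d * Dd G x y := by
    rw [h2]
    exact Finset.sum_le_sum (fun γ _ => Finset.sum_le_sum (fun x _ => h1 γ x))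
  have hne : (Finset.univ : Finset Ω).Nonempty := by
    rw [← Finset.card_pos, Finset.card_univ]; exact hn
  have h6 : ∑ x : Ω, ∑ y : Ω, d * Dd G x y < ∑ x : Ω, ∑ y : Ω, (d - c) * n := by
    apply Finset.sum_lt_sum_of_nonempty hne
    intro x _
    apply Finset.sum_lt_sum_of_nonempty hne
    intro y _
    exact hcon x y
  omega

end Cfsg.Agent.H12.MD
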