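import Mathlib
import Cfsg.Agent.H12.MinDeg2

/-!
# The number of points distinguishing two points of a uniprimitive group (Babai), main bound
-/

set_option linter.unusedSectionVars false
set_option linter.unusedVariables false
set_option linter.style.longLine false

namespace Cfsg.Agent.H12.MD

open MulAction

variable {G Ω : Type*} [Group G] [MulAction G Ω] [Fintype Ω] [DecidableEq Ω]

open Classical in
theorem uni (hprim : IsPreprimitive G Ω) (hrank : ∃ x y z : Ω, x ≠ y ∧ x ≠ z ∧ col G x y ≠ col G x z)
    {a b : Ω} (hab : a ≠ b) : Fintype.card Ω ≤ (2 * Dd G a b + 1) ^ 2 := by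
  set n := Fintype.card Ω with hn
  set D := Dd G a b with hD
  have hn2 : 2 ≤ n := by
    rw [hn]
    have : Nontrivial Ω := ⟨a, b, hab⟩
    exact Fintype.one_lt_card
  have hXadj : (XG G a b).Adj a b := ⟨hab, Or.inl rfl⟩
  have hXinv : InvG G (XG G a b) := XG_inv a b
  have hXc : (XG G a b).Connected := hXinv.connected hprim hXadj
  have htr : IsPretransitive G Ω := hprim.toIsPretransitive
  by_cases hcase : ∀ z y : Ω, 4 * Nat.card {y' : Ω // col G z y' = col G z y} ≤ 3 * n
  · obtain ⟨x, y, hxy⟩ := exists_large (G := G) (by omega) hcase (by norm_num)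
    have h1 := Dd_le_dist hXc x y
    have h2 := dist_le_Dd hXc x y
    rw [← hD] at h1 h2
    have h3 : n ≤ 4 * (D * D) := by
      have h4 : Dd G x y ≤ D * D := h1.trans (Nat.mul_le_mul_right _ h2)
      have h5 : (4 - 3) * n ≤ 4 * Dd G x y := hxy
      omega
    nlinarith
  push Not at hcase
  obtain ⟨z0, y0, hzy⟩ := hcase
  rw [Nat.card_eq_fintype_card, Fintype.card_subtype] at hzy
  set k := col G z0 y0 with hk
  set nk := (Finset.univ.filter (fun y : Ω => col G z0 y = k)).card with hnk
  have hKinv : ∀ (g : G) (x y : Ω), col G x y = k → col G (g • x) (g • y) = k := by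
    intro g x y h
    rw [col_smul]; exact h
  have hout : ∀ x : Ω, (Finset.univ.filter (fun y : Ω => col G x y = k)).card = nk :=
    fun x => by
      have h := deg_const (G := G) (fun x y => col G x y = k) hKinv x z0
      rw [hnk]
      convert h
  have hin : ∀ x : Ω, (Finset.univ.filter (fun y : Ω => col G y x = k)).card = nk :=
    fun x => by
      have h := (deg_in_out (G := G) (fun x y => col G x y = k) hKinv z0 x).symm
      rw [hnk]
      convert h
  -- `k` is self-paired
  have hself : ∀ x y : Ω, col G x y = k → col G y x = k := by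
    have h1 : ((Finset.univ.filter (fun y : Ω => col G z0 y = k)) ∩ (Finset.univ.filter (fun y : Ω => col G y z0 = k))).Nonempty := by
      rw [← Finset.card_pos]
      have h2 := Finset.card_union_add_card_inter (Finset.univ.filter (fun y : Ω => col G z0 y = k))
        (Finset.univ.filter (fun y : Ω => col G y z0 = k))
      rw [hout, hin] at h2
      have h3 := Finset.card_le_univ ((Finset.univ.filter (fun y : Ω => col G z0 y = k)) ∪ (Finset.univ.filter (fun y : Ω => col G y z0 = k)))
      omega
    obtain ⟨w, hw⟩ := h1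
    simp only [Finset.mem_inter, Finset.mem_filter, Finset.mem_univ, true_and] at hw
    intro x y hxy
    obtain ⟨g, rfl, rfl⟩ := col_eq (hxy.trans hw.1.symm)
    rw [col_smul]
    exact hw.2
  -- `k` is not the diagonal colour
  have hkne : ∀ x : Ω, col G x x ≠ k := by
    intro x hx
    have h1 : nk ≤ 1 := by
      rw [← hout x, Finset.card_le_one]
      intro u hu w hw
      simp only [Finset.mem_filter, Finset.mem_univ, true_and] at hu hw
      obtain ⟨g, h1, h2⟩ := col_eq (hu.trans hx.symm)
      obtain ⟨g', h3, h4⟩ := col_eq (hw.trans hx.symm)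
      rw [← h2, h1, ← h4, h3]
    omega
  -- the graph `Y`
  let Y : SimpleGraph Ω :=
    { Adj := fun x y => x ≠ y ∧ col G x y ≠ k
      symm := by
        constructor
        rintro x y ⟨h1, h2⟩
        exact ⟨h1.symm, fun h => h2 (hself _ _ h)⟩
      loopless := by
        constructor
        rintro x ⟨h1, _⟩
        exact h1 rfl }
  have hYadj : ∀ x y, Y.Adj x y ↔ x ≠ y ∧ col G x y ≠ k := fun x y => Iff.rfl
  have hYinv : InvG G Y := by
    rintro g x y ⟨h1, h2⟩
    exact ⟨fun h => h1 (smul_left_cancel g h), by rw [col_smul]; exact h2⟩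
  have hYedge : ∃ x y, Y.Adj x y := by
    obtain ⟨x, y, z, hxy, hxz, hne⟩ := hrank
    by_cases h : col G x y = k
    · exact ⟨x, z, hxz, fun h' => hne (h.trans h'.symm)⟩
    · exact ⟨x, y, hxy, h⟩
  obtain ⟨x1, y1, hY1⟩ := hYedge
  have hYc : Y.Connected := hYinv.connected hprim hY1
  obtain ⟨v, hvdef⟩ : ∃ v, (Finset.univ.filter (fun y : Ω => Y.Adj z0 y)).card = v := ⟨_, rfl⟩
  have hv : ∀ x : Ω, (Finset.univ.filter (fun y : Ω => Y.Adj x y)).card = v :=
    fun x => by
      have h := deg_const (G := G) (fun x y => Y.Adj x y) hYinv x z0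
      rw [← hvdef]
      convert h
  have hvn : v + nk + 1 = n := by
    have h1 : (Finset.univ : Finset Ω) = insert z0 ((Finset.univ.filter (fun y : Ω => Y.Adj z0 y)) ∪
        (Finset.univ.filter (fun y : Ω => col G z0 y = k))) := by
      ext y
      simp only [Finset.mem_univ, Finset.mem_insert, Finset.mem_union, Finset.mem_filter, true_and, true_iff, hYadj]
      by_cases h1 : y = z0
      · exact Or.inl h1
      · right
        by_cases h2 : col G z0 y = k
        · exact Or.inr h2
        · exact Or.inl ⟨fun h => h1 h.symm, h2⟩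
    rw [hn, ← Finset.card_univ, h1, Finset.card_insert_of_notMem, Finset.card_union_of_disjoint]
    · rw [hvdef, ← hnk]
    · rw [Finset.disjoint_filter]
      intro y _ h2 h3
      exact h2.2 h3
    · simp only [Finset.mem_union, Finset.mem_filter, Finset.mem_univ, true_and, not_or]
      exact ⟨fun h => h.1 rfl, hkne z0⟩
  have hv1 : 1 ≤ v := by
    rw [← hv x1]
    exact Finset.card_pos.2 ⟨y1, by simp [hY1]⟩
  have hnk3 : 3 * v ≤ nk := by omega
  have hcolk : col G z0 y0 = k := rfl
  -- common neighbours
  have hcommon : ∀ x z : Ω, col G x z = k → ∃ y, Y.Adj x y ∧ Y.Adj y z := by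
    have hd : 2 ≤ Y.dist z0 y0 := by
      by_contra hlt
      have h1 : Y.dist z0 y0 = 0 ∨ Y.dist z0 y0 = 1 := by omega
      rcases h1 with h1 | h1
      · rw [hYc.dist_eq_zero_iff] at h1
        rw [← h1] at hcolk
        exact hkne _ hcolk
      · rw [SimpleGraph.dist_eq_one_iff_adj] at h1
        exact h1.2 hcolk
    obtain ⟨w, hw1, hw2⟩ := exists_between hYc z0 y0 2 hd
    have hcw : col G z0 w = k := by
      by_contra hne
      have hneq : z0 ≠ w := by
        rintro rfl
        simp at hw1
      have : Y.Adj z0 w := ⟨hneq, hne⟩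
      rw [← SimpleGraph.dist_eq_one_iff_adj] at this
      omega
    obtain ⟨u, hu1, hu2⟩ := exists_between hYc z0 w 1 (by omega)
    rw [hw1] at hu2
    rw [SimpleGraph.dist_eq_one_iff_adj] at hu1
    have hu3 : Y.Adj u w := SimpleGraph.dist_eq_one_iff_adj.1 hu2
    intro x z hxz
    obtain ⟨g, rfl, rfl⟩ := col_eq (hxz.trans hcw.symm)
    exact ⟨g • u, hYinv g _ _ hu1, hYinv g _ _ hu3⟩
  have hnv : n ≤ (v + 1) ^ 2 := by
    have h1 : (Finset.univ : Finset Ω) ⊆ insert z0 ((Finset.univ.filter (fun y : Ω => Y.Adj z0 y)) ∪
        (Finset.univ.filter (fun y : Ω => Y.Adj z0 y)).biUnion (fun y => Finset.univ.filter (fun z : Ω => Y.Adj y z))) := by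
      intro z _
      simp only [Finset.mem_insert, Finset.mem_union, Finset.mem_filter, Finset.mem_univ, true_and, Finset.mem_biUnion]
      by_cases h1 : z = z0
      · exact Or.inl h1
      · right
        by_cases h2 : col G z0 z = k
        · exact Or.inr (hcommon z0 z h2)
        · exact Or.inl ⟨fun h => h1 h.symm, h2⟩
    have h2 := Finset.card_le_card h1
    have h3 := (Finset.card_insert_le z0 ((Finset.univ.filter (fun y : Ω => Y.Adj z0 y)) ∪
        (Finset.univ.filter (fun y : Ω => Y.Adj z0 y)).biUnion (fun y => Finset.univ.filter (fun z : Ω => Y.Adj y z))))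
    have h4 := Finset.card_union_le (Finset.univ.filter (fun y : Ω => Y.Adj z0 y))
      ((Finset.univ.filter (fun y : Ω => Y.Adj z0 y)).biUnion (fun y => Finset.univ.filter (fun z : Ω => Y.Adj y z)))
    have h5 := Finset.card_biUnion_le (s := Finset.univ.filter (fun y : Ω => Y.Adj z0 y))
      (t := fun y => Finset.univ.filter (fun z : Ω => Y.Adj y z))
    simp only [hv, Finset.sum_const, smul_eq_mul] at h5
    rw [hv] at h4
    rw [Finset.card_univ, ← hn] at h2
    nlinarith
  -- the number of common neighbours
  obtain ⟨μ, hμdef⟩ : ∃ μ, (Finset.univ.filter (fun y : Ω => Y.Adj y z0 ∧ Y.Adj y y0)).card = μ := ⟨_, rfl⟩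
  have hμ : ∀ x z : Ω, col G x z = k → (Finset.univ.filter (fun y : Ω => Y.Adj y x ∧ Y.Adj y z)).card = μ := by
    intro x z hxz
    obtain ⟨g, rfl, rfl⟩ := col_eq (hxz.trans hcolk.symm)
    rw [← hμdef]
    symm
    apply Finset.card_bij (fun y _ => g • y)
    · intro y hy
      simp only [Finset.mem_filter, Finset.mem_univ, true_and] at hy ⊢
      exact ⟨hYinv g _ _ hy.1, hYinv g _ _ hy.2⟩
    · intro a _ b _ hab
      exact smul_left_cancel g hab
    · intro b hb
      refine ⟨g⁻¹ • b, ?_, smul_inv_smul _ _⟩
      simp only [Finset.mem_filter, Finset.mem_univ, true_and] at hb ⊢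
      have h1 := hYinv g⁻¹ _ _ hb.1
      have h2 := hYinv g⁻¹ _ _ hb.2
      rw [inv_smul_smul] at h1 h2
      exact ⟨h1, h2⟩
  have hμle : nk * μ ≤ v * v := by
    have h1 : ∑ z ∈ Finset.univ.filter (fun z : Ω => col G z0 z = k), (Finset.univ.filter (fun y : Ω => Y.Adj y z0 ∧ Y.Adj y z)).card = nk * μ := by
      rw [Finset.sum_congr rfl (fun z hz => hμ z0 z (by simpa using hz)), Finset.sum_const, smul_eq_mul]
    have h2 : ∑ z ∈ Finset.univ.filter (fun z : Ω => col G z0 z = k), (Finset.univ.filter (fun y : Ω => Y.Adj y z0 ∧ Y.Adj y z)).card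
        ≤ ∑ y ∈ Finset.univ.filter (fun y : Ω => Y.Adj z0 y), (Finset.univ.filter (fun z : Ω => Y.Adj y z)).card := by
      have h3 : ∀ z, (Finset.univ.filter (fun y : Ω => Y.Adj y z0 ∧ Y.Adj y z)).card =
          ∑ y ∈ Finset.univ.filter (fun y : Ω => Y.Adj z0 y), (if Y.Adj y z then 1 else 0) := by
        intro z
        rw [← Finset.card_filter, Finset.filter_filter]
        congr 1
        ext y
        simp only [Finset.mem_filter, Finset.mem_univ, true_and]
        rw [SimpleGraph.adj_comm]
      simp_rw [h3]
      rw [Finset.sum_comm]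
      apply Finset.sum_le_sum
      intro y _
      rw [← Finset.card_filter, Finset.filter_filter]
      apply Finset.card_le_card
      intro z hz
      simp only [Finset.mem_filter, Finset.mem_univ, true_and] at hz ⊢
      exact hz.2
    simp only [hv, Finset.sum_const, smul_eq_mul] at h2
    rw [h1] at h2
    exact h2
  have hμ3 : 3 * μ ≤ v := by
    have h1 : 3 * v * μ ≤ v * v := (Nat.mul_le_mul_right μ hnk3).trans hμle
    have h2 : v * (3 * μ) ≤ v * v := by
      calc v * (3 * μ) = 3 * v * μ := by ring
        _ ≤ _ := h1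
    exact Nat.le_of_mul_le_mul_left h2 hv1
  -- pairs of colour `k` are distinguished by many points
  have hDk : ∀ x z : Ω, col G x z = k → v ≤ Dd G x z := by
    intro x z hxz
    have h1 : (Finset.univ.filter (fun y : Ω => Y.Adj y x)).card = v := by
      rw [← hv x]; congr 1; ext y; simp only [Finset.mem_filter, Finset.mem_univ, true_and]; exact Y.adj_comm y x
    have h1' : (Finset.univ.filter (fun y : Ω => Y.Adj y z)).card = v := by
      rw [← hv z]; congr 1; ext y; simp only [Finset.mem_filter, Finset.mem_univ, true_and]; exact Y.adj_comm y z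
    have h2 : (Finset.univ.filter (fun y : Ω => Y.Adj y x ∧ Y.Adj y z)).card +
        (Finset.univ.filter (fun y : Ω => Y.Adj y x ∧ ¬ Y.Adj y z)).card = v := by
      rw [← h1, ← Finset.card_filter_add_card_filter_not (s := Finset.univ.filter (fun y : Ω => Y.Adj y x)) (fun y => Y.Adj y z),
        Finset.filter_filter, Finset.filter_filter]
    have h3 : (Finset.univ.filter (fun y : Ω => Y.Adj y x ∧ ¬ Y.Adj y z)).card ≤ Dd G x z := by
      unfold Dd
      apply Finset.card_le_card
      intro y hy
      simp only [Finset.mem_filter, Finset.mem_univ, true_and] at hy ⊢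
      intro hcol
      exact hy.2 ((hYinv.adj hcol).1 hy.1)
    have h4 : (Finset.univ.filter (fun y : Ω => Y.Adj y x ∧ Y.Adj y z)).card +
        (Finset.univ.filter (fun y : Ω => ¬ Y.Adj y x ∧ Y.Adj y z)).card = v := by
      rw [← h1', ← Finset.card_filter_add_card_filter_not (s := Finset.univ.filter (fun y : Ω => Y.Adj y z)) (fun y => Y.Adj y x),
        Finset.filter_filter, Finset.filter_filter]
      congr 2
      · ext y; simp only [Finset.mem_filter, Finset.mem_univ, true_and]; tauto
      · ext y; simp only [Finset.mem_filter, Finset.mem_univ, true_and]; tauto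
    have h5 : (Finset.univ.filter (fun y : Ω => Y.Adj y x ∧ ¬ Y.Adj y z)).card +
        (Finset.univ.filter (fun y : Ω => ¬ Y.Adj y x ∧ Y.Adj y z)).card ≤ Dd G x z := by
      rw [← Finset.card_union_of_disjoint]
      · unfold Dd
        apply Finset.card_le_card
        intro y hy
        simp only [Finset.mem_union, Finset.mem_filter, Finset.mem_univ, true_and] at hy ⊢
        intro hcol
        have h6 := hYinv.adj hcol
        tauto
      · rw [Finset.disjoint_filter]
        intro y _ h6 h7
        exact h7.1 h6.1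
    rw [hμ x z hxz] at h2 h4
    omega
  by_cases hik : col G a b = k
  · have h1 := hDk a b hik
    rw [← hD] at h1
    calc n ≤ (v + 1) ^ 2 := hnv
      _ ≤ (2 * D + 1) ^ 2 := Nat.pow_le_pow_left (by omega) 2
  · set X := XG G a b with hXdef
    obtain ⟨e, he⟩ : ∃ e, X.dist z0 y0 = e := ⟨_, rfl⟩
    by_cases he2 : e ≤ 2
    · have h1 := Dd_le_dist hXc z0 y0
      rw [← hXdef, he, ← hD] at h1
      have h2 := hDk z0 y0 hcolk
      have h3 : e * D ≤ 2 * D := Nat.mul_le_mul_right _ he2
      calc n ≤ (v + 1) ^ 2 := hnv
        _ ≤ (2 * D + 1) ^ 2 := Nat.pow_le_pow_left (by omega) 2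
    · let w := (Finset.univ.filter (fun y : Ω => X.Adj z0 y)).card
      have hw : ∀ x : Ω, (Finset.univ.filter (fun y : Ω => X.Adj x y)).card = w :=
        fun x => deg_const (G := G) (fun x y => X.Adj x y) hXinv x z0
      have hek : ∀ x y, col G x y = k → X.dist x y = e := by
        intro x y hxy
        rw [← he]
        exact hXinv.dist_col hXc (hxy.trans hcolk.symm)
      -- (A)
      have hA : nk ≤ w * D := by
        have h1 : (Finset.univ.filter (fun γ : Ω => col G γ z0 = k)) ⊆
            (Finset.univ.filter (fun β : Ω => X.Adj z0 β)).biUnion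
              (fun β => Finset.univ.filter (fun γ : Ω => col G γ z0 ≠ col G γ β)) := by
          intro γ hγ
          simp only [Finset.mem_filter, Finset.mem_univ, true_and, Finset.mem_biUnion] at hγ ⊢
          have h2 : X.dist γ z0 = e := hek _ _ hγ
          have hne : z0 ≠ γ := by
            rintro rfl
            exact hkne _ hγ
          obtain ⟨β, hβ, hdβ⟩ := exists_step hXc hne
          refine ⟨β, hβ, fun hcol => ?_⟩
          rw [hγ] at hcol
          have h3 := hek _ _ hcol.symm
          have h4 : X.dist β γ = X.dist γ β := SimpleGraph.dist_comm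
          have h5 : X.dist z0 γ = X.dist γ z0 := SimpleGraph.dist_comm
          omega
        have h2 := (Finset.card_le_card h1).trans Finset.card_biUnion_le
        rw [hin] at h2
        have h3 : ∀ β ∈ Finset.univ.filter (fun β : Ω => X.Adj z0 β),
            (Finset.univ.filter (fun γ : Ω => col G γ z0 ≠ col G γ β)).card = D := by
          intro β hβ
          have h4 := XG_Dd (G := G) (a := a) (b := b) (x := z0) (y := β) (by simpa using hβ)
          rw [hD, ← h4]
          rfl
        rw [Finset.sum_congr rfl h3, Finset.sum_const, smul_eq_mul] at h2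
        exact h2
      -- (B)
      have hB : 2 * w ≤ 3 * D := by
        obtain ⟨z, hz1, hz2⟩ := exists_between hXc z0 y0 3 (by omega)
        have h1 := Dd_le_dist hXc z0 z
        rw [← hXdef, hz1, ← hD] at h1
        refine le_trans ?_ h1
        have h2 : Disjoint (Finset.univ.filter (fun y : Ω => X.Adj z0 y)) (Finset.univ.filter (fun y : Ω => X.Adj z y)) := by
          rw [Finset.disjoint_filter]
          intro y _ h3 h4
          have h5 : X.dist z0 y = 1 := SimpleGraph.dist_eq_one_iff_adj.2 h3
          have h6 : X.dist y z = 1 := SimpleGraph.dist_eq_one_iff_adj.2 h4.symm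
          have h7 : X.dist z0 z ≤ X.dist z0 y + X.dist y z := hXc.dist_triangle
          omega
        have h3 : 2 * w = ((Finset.univ.filter (fun y : Ω => X.Adj z0 y)) ∪ (Finset.univ.filter (fun y : Ω => X.Adj z y))).card := by
          rw [Finset.card_union_of_disjoint h2, hw z0, hw z]
          ring
        rw [h3]
        unfold Dd
        apply Finset.card_le_card
        intro y hy
        have hd : ¬ (X.Adj z0 y ∧ X.Adj z y) := by
          rintro ⟨h4, h5⟩
          have h6 : y ∈ (Finset.univ.filter (fun y : Ω => X.Adj z0 y)) := by simp [h4]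
          have h7 : y ∈ (Finset.univ.filter (fun y : Ω => X.Adj z y)) := by simp [h5]
          exact Finset.disjoint_left.1 h2 h6 h7
        simp only [Finset.mem_union, Finset.mem_filter, Finset.mem_univ, true_and] at hy ⊢
        intro hcol
        have h6 := hXinv.adj hcol
        rw [X.adj_comm y z0, X.adj_comm y z] at h6
        tauto
      have h7 : 2 * nk ≤ 3 * (D * D) := by
        calc 2 * nk ≤ 2 * (w * D) := Nat.mul_le_mul_left _ hA
          _ = (2 * w) * D := by ring
          _ ≤ (3 * D) * D := Nat.mul_le_mul_right _ hB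
          _ = _ := by ring
      nlinarith

end Cfsg.Agent.H12.MD
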