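import Mathlib
import Cfsg.Agent.H12.MinDeg3

/-!
# Minimal degree of primitive groups: the 2-transitive case and the final bound
-/

set_option linter.unusedSectionVars false
set_option linter.unusedVariables false
set_option linter.style.longLine false

namespace Cfsg.Agent.H12.MD

open MulAction Equiv

theorem aii {Ω : Type*} (σ : Perm Ω) (z : Ω) : σ (σ⁻¹ z) = z := by
  rw [← Perm.mul_apply, mul_inv_cancel]; rfl

theorem iia {Ω : Type*} (σ : Perm Ω) (z : Ω) : σ⁻¹ (σ z) = z := by
  rw [← Perm.mul_apply, inv_mul_cancel]; rfl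

/-- the commutator of two permutations whose supports meet in one point is a 3-cycle -/
theorem three_cycle {Ω : Type*} [Fintype Ω] [DecidableEq Ω] (σ τ : Perm Ω) (a : Ω) (hσ : σ a ≠ a) (hτ : τ a ≠ a)
    (h : ∀ z, σ z ≠ z → τ z ≠ z → z = a) : (σ * τ * σ⁻¹ * τ⁻¹).IsThreeCycle := by
  rw [← card_support_eq_three_iff]
  have hστ : σ a ≠ τ a := by
    intro heq
    have h1 : σ (σ a) ≠ σ a := fun hc => hσ (σ.injective hc)
    have h2 : τ (σ a) ≠ σ a := by
      rw [heq]
      exact fun hc => hτ (τ.injective hc)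
    exact hσ (h _ h1 h2)
  -- values
  have hσ' : σ⁻¹ a ≠ a := by
    intro hc
    rw [Perm.inv_eq_iff_eq] at hc
    exact hσ hc.symm
  have hτ' : τ⁻¹ a ≠ a := by
    intro hc
    rw [Perm.inv_eq_iff_eq] at hc
    exact hτ hc.symm
  have mσ : ∀ z, σ z ≠ z → z ≠ a → τ z = z := by
    intro z h1 h2
    by_contra h3
    exact h2 (h z h1 h3)
  have mτ : ∀ z, τ z ≠ z → z ≠ a → σ z = z := by
    intro z h1 h2
    by_contra h3
    exact h2 (h z h3 h1)
  have hca : (σ * τ * σ⁻¹ * τ⁻¹) a = σ a := by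
    simp only [Perm.coe_mul, Function.comp_apply]
    have h1 : τ (τ⁻¹ a) ≠ τ⁻¹ a := by rw [aii]; exact hτ'.symm
    have h2 := mτ _ h1 hτ'
    have h3 : σ⁻¹ (τ⁻¹ a) = τ⁻¹ a := by rw [Perm.inv_eq_iff_eq]; exact h2.symm
    rw [h3, aii]
  have hcτ : (σ * τ * σ⁻¹ * τ⁻¹) (τ a) = a := by
    simp only [Perm.coe_mul, Function.comp_apply, iia]
    have h1 : σ (σ⁻¹ a) ≠ σ⁻¹ a := by rw [aii]; exact hσ'.symm
    rw [mσ _ h1 hσ', aii]
  have hsupp : (σ * τ * σ⁻¹ * τ⁻¹).support = {a, σ a, τ a} := by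
    ext z
    rw [Perm.mem_support]
    simp only [Finset.mem_insert, Finset.mem_singleton]
    constructor
    · intro hz
      by_contra hcon
      push Not at hcon
      obtain ⟨hza, hzσ, hzτ⟩ := hcon
      apply hz
      simp only [Perm.coe_mul, Function.comp_apply]
      by_cases h1 : τ z = z
      · have h2 : τ⁻¹ z = z := by rw [Perm.inv_eq_iff_eq]; exact h1.symm
        rw [h2]
        by_cases h3 : σ z = z
        · have h4 : σ⁻¹ z = z := by rw [Perm.inv_eq_iff_eq]; exact h3.symm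
          rw [h4, h1, h3]
        · have h5 : σ (σ⁻¹ z) ≠ σ⁻¹ z := by
            rw [aii]
            intro hc
            apply h3
            conv_lhs => rw [hc]
            rw [aii]
          have h6 : σ⁻¹ z ≠ a := by
            intro hc
            rw [Perm.inv_eq_iff_eq] at hc
            exact hzσ hc
          rw [mσ _ h5 h6, aii]
      · have h5 : τ (τ⁻¹ z) ≠ τ⁻¹ z := by
          rw [aii]
          intro hc
          apply h1
          conv_lhs => rw [hc]
          rw [aii]
        have h6 : τ⁻¹ z ≠ a := by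
          intro hc
          rw [Perm.inv_eq_iff_eq] at hc
          exact hzτ hc
        have h7 := mτ _ h5 h6
        have h8 : σ⁻¹ (τ⁻¹ z) = τ⁻¹ z := by rw [Perm.inv_eq_iff_eq]; exact h7.symm
        rw [h8, aii]
        exact mτ z h1 hza
    · rintro (rfl | rfl | rfl)
      · rw [hca]; exact hσ
      · intro hc
        have h9 := (σ * τ * σ⁻¹ * τ⁻¹).injective (hc.trans hca.symm)
        exact hσ h9
      · rw [hcτ]; exact hτ.symm
  rw [hsupp, Finset.card_eq_three]
  exact ⟨a, σ a, τ a, hσ.symm, hτ.symm, hστ, rfl⟩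

variable {G Ω : Type*} [Group G] [Finite G] [MulAction G Ω] [Fintype Ω] [DecidableEq Ω]

theorem two_trans_bound [FaithfulSMul G Ω] (hprim : IsPreprimitive G Ω)
    (h2 : ∀ x y x' y' : Ω, x ≠ y → x' ≠ y' → ∃ g : G, g • x = x' ∧ g • y = y')
    (hA : ¬ alternatingGroup Ω ≤ (MulAction.toPermHom G Ω).range) (g : G) (hg : g ≠ 1) :
    Fintype.card Ω ≤ ((Finset.univ.filter (fun y : Ω => g • y ≠ y)).card + 1) ^ 2 := by
  classical
  by_contra hlt
  push Not at hlt
  have : Fintype G := Fintype.ofFinite G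
  set S := Finset.univ.filter (fun y : Ω => g • y ≠ y) with hS
  have hmS : ∀ y, y ∈ S ↔ g • y ≠ y := fun y => by simp [hS]
  obtain ⟨s0, hs0⟩ : ∃ s0, g • s0 ≠ s0 := by
    by_contra hcon
    push Not at hcon
    apply hg
    apply FaithfulSMul.eq_of_smul_eq_smul (α := Ω)
    intro x
    rw [hcon, one_smul]
  have hs0S : s0 ∈ S := (hmS _).2 hs0
  let s2 := g • s0
  have hs2 : s2 ≠ s0 := hs0
  let Nn : Ω → Ω → ℕ := fun s t => (Finset.univ.filter (fun x : G => x • s0 = s0 ∧ x • s = t)).card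
  have hconst : ∀ s t s' t', s ≠ s0 → t ≠ s0 → s' ≠ s0 → t' ≠ s0 → Nn s t ≤ Nn s' t' := by
    intro s t s' t' hs ht hs' ht'
    obtain ⟨u, hu1, hu2⟩ := h2 s0 s' s0 s hs'.symm hs.symm
    obtain ⟨w, hw1, hw2⟩ := h2 s0 t s0 t' ht.symm ht'.symm
    apply Finset.card_le_card_of_injOn (fun x => w * x * u)
    · intro x hx
      simp only [Finset.coe_filter, Finset.mem_univ, true_and, Set.mem_ofPred_eq] at hx ⊢
      refine ⟨?_, ?_⟩
      · rw [mul_smul, mul_smul, hu1, hx.1, hw1]
      · rw [mul_smul, mul_smul, hu2, hx.2, hw2]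
    · intro x _ y _ hxy
      simpa using hxy
  set b := Nn s2 s2 with hb
  have hN : ∀ s t, s ≠ s0 → t ≠ s0 → Nn s t = b := fun s t hs ht =>
    le_antisymm (hconst s t s2 s2 hs ht hs2 hs2) (hconst s2 s2 s t hs2 hs2 hs ht)
  have hbpos : 0 < b := by
    rw [hb]
    exact Finset.card_pos.2 ⟨1, by simp⟩
  let C := Finset.univ.filter (fun x : G => x • s0 = s0)
  have hC : C.card = (Fintype.card Ω - 1) * b := by
    have h3 : C = (Finset.univ.erase s0).biUnion (fun t => Finset.univ.filter (fun x : G => x • s0 = s0 ∧ x • s2 = t)) := by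
      ext x
      simp only [C, Finset.mem_filter, Finset.mem_univ, true_and, Finset.mem_biUnion, Finset.mem_erase, ne_eq, and_true]
      constructor
      · intro hx
        refine ⟨x • s2, ?_, hx, rfl⟩
        intro hc
        apply hs2
        have : x • s2 = x • s0 := by rw [hc, hx]
        exact smul_left_cancel x this
      · rintro ⟨t, ht, hx, _⟩
        exact hx
    rw [h3, Finset.card_biUnion]
    · rw [Finset.sum_congr rfl (fun t ht => hN s2 t hs2 (Finset.ne_of_mem_erase ht)), Finset.sum_const, smul_eq_mul,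
        Finset.card_erase_of_mem (Finset.mem_univ _), Finset.card_univ]
    · intro t _ t' _ htt'
      rw [Function.onFun, Finset.disjoint_filter]
      rintro x _ ⟨_, h4⟩ ⟨_, h5⟩
      exact htt' (h4.symm.trans h5)
  let B := ((S.erase s0) ×ˢ (S.erase s0)).biUnion (fun p => Finset.univ.filter (fun x : G => x • s0 = s0 ∧ x • p.1 = p.2))
  have hB : B.card ≤ (S.card - 1) * (S.card - 1) * b := by
    refine Finset.card_biUnion_le.trans ?_
    rw [Finset.sum_congr rfl (fun p hp => ?_)]
    · rw [Finset.sum_const, smul_eq_mul, Finset.card_product, Finset.card_erase_of_mem hs0S]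
    · rw [Finset.mem_product] at hp
      exact hN p.1 p.2 (Finset.ne_of_mem_erase hp.1) (Finset.ne_of_mem_erase hp.2)
  have hBC : B.card < C.card := by
    rw [hC]
    refine lt_of_le_of_lt hB (Nat.mul_lt_mul_of_pos_right ?_ hbpos)
    have h3 : 1 ≤ S.card := Finset.card_pos.2 ⟨s0, hs0S⟩
    obtain ⟨m, hm⟩ : ∃ m, S.card = m + 1 := ⟨S.card - 1, by omega⟩
    rw [hm] at hlt ⊢
    have h4 : (m + 1 + 1) ^ 2 = m * m + 4 * m + 4 := by ring
    rw [h4] at hlt
    have h5 : m + 1 - 1 = m := by omega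
    rw [h5]
    omega
  obtain ⟨x, hxC, hxB⟩ := Finset.exists_mem_notMem_of_card_lt_card hBC
  have hx0 : x • s0 = s0 := by simpa [C] using hxC
  have hxS : ∀ z ∈ S, ∀ z' ∈ S, x • z = z' → z' = s0 := by
    intro z hz z' hz' hzz
    by_contra hne
    apply hxB
    simp only [B, Finset.mem_biUnion, Finset.mem_product, Finset.mem_erase, Finset.mem_filter, Finset.mem_univ, true_and]
    refine ⟨(z, z'), ⟨⟨?_, hz⟩, ⟨hne, hz'⟩⟩, hx0, hzz⟩
    rintro rfl
    exact hne (hzz.symm.trans hx0)
  -- the 3-cycle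
  apply hA
  have h3c := three_cycle (MulAction.toPermHom G Ω g) (MulAction.toPermHom G Ω (x * g * x⁻¹)) s0
    (show g • s0 ≠ s0 from hs0) (by
      show (x * g * x⁻¹) • s0 ≠ s0
      have h4 : x⁻¹ • s0 = s0 := by rw [inv_smul_eq_iff, hx0]
      rw [mul_smul, mul_smul, h4]
      intro hc
      apply hs0
      have : x • g • s0 = x • s0 := by rw [hc, hx0]
      exact smul_left_cancel x this) (by
      intro z hz1 hz2
      change g • z ≠ z at hz1
      change (x * g * x⁻¹) • z ≠ z at hz2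
      have h4 : x⁻¹ • z ∈ S := by
        rw [hmS]
        intro hc
        apply hz2
        rw [mul_smul, mul_smul, hc, smul_inv_smul]
      exact hxS _ h4 z ((hmS z).2 hz1) (smul_inv_smul x z))
  have hprim' : IsPreprimitive (MulAction.toPermHom G Ω).range Ω := by
    let f : Ω →ₑ[(MulAction.toPermHom G Ω).rangeRestrict] Ω := ⟨id, fun g x => rfl⟩
    exact IsPreprimitive.of_surjective (f := f) Function.surjective_id
  refine Perm.alternatingGroup_le_of_isPreprimitive_of_isThreeCycle_mem hprim' h3c ?_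
  refine ⟨g * (x * g * x⁻¹) * g⁻¹ * (x * g * x⁻¹)⁻¹, ?_⟩
  simp only [map_mul, map_inv]

theorem final_bound [FaithfulSMul G Ω] (hprim : IsPreprimitive G Ω)
    (hA : ¬ alternatingGroup Ω ≤ (MulAction.toPermHom G Ω).range) (g : G) (hg : g ≠ 1) :
    Fintype.card Ω ≤ (2 * (Finset.univ.filter (fun y : Ω => g • y ≠ y)).card + 1) ^ 2 := by
  classical
  obtain ⟨s0, hs0⟩ : ∃ s0, g • s0 ≠ s0 := by
    by_contra hcon
    push Not at hcon
    apply hg
    apply FaithfulSMul.eq_of_smul_eq_smul (α := Ω)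
    intro x
    rw [hcon, one_smul]
  by_cases hrank : ∃ x y z : Ω, x ≠ y ∧ x ≠ z ∧ col G x y ≠ col G x z
  · have h1 := uni hprim hrank hs0.symm
    have h2 := Dd_le_moved g s0
    exact h1.trans (Nat.pow_le_pow_left (by omega) 2)
  · push Not at hrank
    have h2 : ∀ x y x' y' : Ω, x ≠ y → x' ≠ y' → ∃ g : G, g • x = x' ∧ g • y = y' := by
      intro x y x' y' hxy hxy'
      have htr : IsPretransitive G Ω := hprim.toIsPretransitive
      obtain ⟨g1, hg1⟩ := exists_smul_eq G x x'
      have h3 : x' ≠ g1 • y := by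
        rw [← hg1]
        exact fun hc => hxy (smul_left_cancel g1 hc)
      obtain ⟨g2, h4, h5⟩ := col_eq (hrank x' y' (g1 • y) hxy' h3)
      exact ⟨g2 * g1, by rw [mul_smul, hg1, h4], by rw [mul_smul, h5]⟩
    refine (two_trans_bound hprim h2 hA g hg).trans (Nat.pow_le_pow_left (by omega) 2)

end Cfsg.Agent.H12.MD
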