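import Cfsg.Agent.H16.Torus2
import Cfsg.Agent.H16.SL2Cent
import Cfsg.Agent.H12.RedSyl
import Mathlib.Combinatorics.SimpleGraph.Diam

/-! Odd product graph on the involutions of `PSL(2, q)` (helper12). -/

set_option autoImplicit false

namespace Cfsg.Agent.H12.OG

open Matrix Cfsg.Agent.H16

theorem diam_two {V : Type*} (G : SimpleGraph V)
    (h : ∀ u v, u ≠ v → G.Adj u v ∨ ∃ w, G.Adj u w ∧ G.Adj w v)
    (hn : ∃ u v, u ≠ v ∧ ¬ G.Adj u v) : G.Connected ∧ G.diam = 2 := by
  have h1 : ∀ u v, G.edist u v ≤ 2 := by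
    intro u v
    by_cases huv : u = v
    · subst huv; simp
    · rcases h u v huv with h2 | ⟨w, h2, h3⟩
      · have := SimpleGraph.Walk.edist_le (SimpleGraph.Walk.cons h2 .nil)
        refine this.trans ?_
        simp
      · have := SimpleGraph.Walk.edist_le (SimpleGraph.Walk.cons h2 (.cons h3 .nil))
        refine this.trans ?_
        simp
  have h2 : G.ediam = 2 := by
    apply le_antisymm (SimpleGraph.ediam_le_of_edist_le h1)
    obtain ⟨u, v, huv, hadj⟩ := hn
    refine le_trans ?_ (SimpleGraph.edist_le_ediam (u := u) (v := v))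
    by_contra hlt
    push Not at hlt
    have h3 : G.edist u v ≤ 1 := by
      have h5 : G.edist u v < ((1 : ℕ) : ℕ∞) + 1 := by
        refine lt_of_lt_of_eq hlt ?_
        norm_num
      have h6 := ENat.lt_coe_add_one_iff.1 h5
      simpa using h6
    rcases SimpleGraph.edist_le_one_iff_adj_or_eq.1 h3 with h4 | h4
    · exact hadj h4
    · exact huv h4
  obtain ⟨u, v, huv, hadj⟩ := hn
  have hne : Nonempty V := ⟨u⟩
  refine ⟨SimpleGraph.connected_of_ediam_ne_top (by rw [h2]; exact ENat.coe_ne_top 2), ?_⟩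
  rw [SimpleGraph.diam, h2]; rfl

variable {F : Type*} [Field F] [Fintype F]

local notation "SL₂" => Matrix.SpecialLinearGroup (Fin 2) F
local notation "M₂" => Matrix (Fin 2) (Fin 2) F
local notation "PSL₂" => Matrix.ProjectiveSpecialLinearGroup (Fin 2) F

theorem mem_center_iff' {g : SL₂} : g ∈ Subgroup.center SL₂ ↔ IsScal (g : M₂) := by
  constructor
  · intro h
    rw [Matrix.SpecialLinearGroup.mem_center_iff] at h
    obtain ⟨r, -, hr⟩ := h
    rw [isScal_iff]
    refine ⟨r, ?_⟩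
    rw [← hr, Matrix.scalar_apply, Matrix.smul_one_eq_diagonal]
  · intro h
    rw [Subgroup.mem_center_iff]
    intro x
    apply Subtype.ext
    change (x : M₂) * (g : M₂) = (g : M₂) * x
    rw [isScal_eq h]; simp

/-- the projection -/
abbrev pr (g : SL₂) : PSL₂ := QuotientGroup.mk' (Subgroup.center SL₂) g

theorem pr_eq_one {g : SL₂} : pr g = 1 ↔ IsScal (g : M₂) := by
  rw [← mem_center_iff']
  exact QuotientGroup.eq_one_iff g

theorem pr_surj (x : PSL₂) : ∃ g : SL₂, pr g = x := QuotientGroup.mk'_surjective _ x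

/-- involutions lift to trace zero elements -/
theorem lift_inv {x : PSL₂} (hx : orderOf x = 2) :
    ∃ A : SL₂, pr A = x ∧ (A : M₂).trace = 0 ∧ ¬ IsScal (A : M₂) := by
  obtain ⟨A, rfl⟩ := pr_surj x
  have hns : ¬ IsScal (A : M₂) := by
    intro h
    rw [← pr_eq_one] at h
    rw [h, orderOf_one] at hx
    omega
  refine ⟨A, rfl, ?_, hns⟩
  have h1 : pr (A * A) = 1 := by
    have : (pr A) ^ 2 = 1 := by
      have h := pow_orderOf_eq_one (pr A)
      rwa [hx] at h
    rw [pow_two] at this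
    rw [← this]
    exact map_mul _ A A
  rw [pr_eq_one, isScal_iff] at h1
  obtain ⟨c, hc⟩ := h1
  rw [Matrix.SpecialLinearGroup.coe_mul, sl_sq] at hc
  by_contra ht
  apply hns
  rw [isScal_iff]
  refine ⟨(A : M₂).trace⁻¹ * (c + 1), ?_⟩
  have h2 : (A : M₂).trace • (A : M₂) = (c + 1) • (1 : M₂) := by
    rw [add_smul, one_smul, ← hc]; abel
  rw [mul_smul, ← h2, smul_smul, inv_mul_cancel₀ ht, one_smul]

theorem order_inv {A : SL₂} (ht : (A : M₂).trace = 0) (hns : ¬ IsScal (A : M₂)) :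
    orderOf (pr A) = 2 := by
  apply orderOf_eq_prime
  · have h1 : IsScal ((A * A : SL₂) : M₂) := by
      rw [Matrix.SpecialLinearGroup.coe_mul, sl_sq, ht, zero_smul, zero_sub, isScal_iff]
      exact ⟨-1, by rw [neg_smul, one_smul]⟩
    rw [← pr_eq_one] at h1
    rw [pow_two, ← h1]
    exact (map_mul _ A A).symm
  · intro h
    exact hns (pr_eq_one.1 h)

/-- all trace zero elements are conjugate -/
theorem conj_inv {A C : SL₂} (hA : (A : M₂).trace = 0) (hAs : ¬ IsScal (A : M₂))
    (hC : (C : M₂).trace = 0) (hCs : ¬ IsScal (C : M₂)) : IsConj A C := by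
  by_cases h2 : (2 : F) = 0
  · have hc2 : CharP F 2 := by
      obtain ⟨c, hc⟩ := CharP.exists F
      have hcp : c.Prime := (CharP.char_is_prime_or_zero F c).resolve_right
        (CharP.char_ne_zero_of_finite F c)
      have h' : ((2 : ℕ) : F) = 0 := by exact_mod_cast h2
      rw [CharP.cast_eq_zero_iff F c 2] at h'
      rw [← (Nat.prime_dvd_prime_iff_eq hcp Nat.prime_two).1 h']
      exact hc
    obtain ⟨c, hc, h3⟩ := sl2_exists_conj_cform A hAs
    obtain ⟨c', hc', h4⟩ := sl2_exists_conj_cform C hCs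
    rw [hA] at h3
    rw [hC] at h4
    refine h3.trans (IsConj.trans ?_ h4.symm)
    rw [sl2_cform_conj_iff']
    have h5 : IsSquare (c⁻¹ * c') := FiniteField.isSquare_of_char_two (by
      exact ringChar.eq F 2 |>.symm ▸ rfl) _
    obtain ⟨s, hs⟩ := h5
    refine ⟨(s, 0), ?_⟩
    simp only [nf]
    have : c * (s * s) = c' := by rw [← hs]; field_simp
    linear_combination this
  · apply sl2_isConj_of_universal (t := 0) (fun c _ => nf_pos_universal _ (by
      intro h; apply h2
      have : (2 : F) ^ 2 = 0 := by linear_combination -h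
      exact pow_eq_zero_iff two_ne_zero |>.1 this) c) hAs hCs hA hC

theorem sq_one_scal (h2 : (2 : F) ≠ 0) {h : SL₂} (hh : h ^ 2 = 1) : IsScal (h : M₂) := by
  have h5 : (h : M₂) * h = 1 := by
    have := congrArg (fun z : SL₂ => (z : M₂)) hh
    rw [pow_two] at this
    exact this
  rw [sl_sq] at h5
  rw [isScal_iff]
  have h6 : (h : M₂).trace • (h : M₂) = (2 : F) • (1 : M₂) := by
    rw [sub_eq_iff_eq_add] at h5
    rw [h5, two_smul]
  have ht0 : (h : M₂).trace ≠ 0 := by
    intro h7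
    rw [h7, zero_smul] at h6
    have := congrFun (congrFun h6 0) 0
    simp at this
    exact h2 this.symm
  refine ⟨(h : M₂).trace⁻¹ * 2, ?_⟩
  rw [mul_smul, ← h6, smul_smul, inv_mul_cancel₀ ht0, one_smul]

theorem odd_of_pow {g : SL₂} {n : ℕ} (hn : Odd n) (h : IsScal ((g ^ n : SL₂) : M₂)) :
    Odd (orderOf (pr g)) := by
  rw [← pr_eq_one] at h
  have h1 : (pr g) ^ n = 1 := by rw [← h]; exact (map_pow _ g n).symm
  exact Odd.of_dvd_nat hn (orderOf_dvd_of_pow_eq_one h1)

theorem odd_unip (h2 : (2 : F) ≠ 0) {g : SL₂} (ht : (g : M₂).trace ^ 2 = 4) :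
    Odd (orderOf (pr g)) := by
  obtain ⟨c, hc⟩ := CharP.exists F
  have hcp : c.Prime := (CharP.char_is_prime_or_zero F c).resolve_right
    (CharP.char_ne_zero_of_finite F c)
  have hfc : Fact c.Prime := ⟨hcp⟩
  have hc2 : c ≠ 2 := by
    rintro rfl
    exact h2 (by exact_mod_cast CharP.cast_eq_zero F 2)
  have h1 : ((g ^ 2 : SL₂) : M₂).trace = 2 := by
    rw [pow_two, Matrix.SpecialLinearGroup.coe_mul, sl_sq, trace_sub, trace_smul, trace_one]
    simp only [smul_eq_mul, Fintype.card_fin]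
    push_cast
    linear_combination ht
  have h3 : (g ^ 2) ^ c = 1 := (sl2_pow_p_eq_one_iff c _).2 h1
  apply odd_of_pow (hcp.odd_of_ne_two hc2)
  apply sq_one_scal h2
  rw [← pow_mul, mul_comm, pow_mul, h3]

theorem odd_split (h2 : (2 : F) ≠ 0) (hq : Odd ((Fintype.card F - 1) / 2)) {g : SL₂} {m : F}
    (hm : m ≠ 0) (hmm : m * m ≠ 1) (ht : (g : M₂).trace = m + m⁻¹ ∨ (g : M₂).trace = -(m + m⁻¹)) :
    Odd (orderOf (pr g)) := by
  have hcard : Nat.card (Subgroup.centralizer ({g} : Set SL₂)) = Fintype.card F - 1 := by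
    rcases ht with ht | ht
    · exact card_cent_sl2_split g hm hmm ht
    · apply card_cent_sl2_split g (neg_ne_zero.2 hm) (by rw [neg_mul_neg]; exact hmm)
      rw [ht, neg_add, inv_neg]
  have hg : g ∈ Subgroup.centralizer ({g} : Set SL₂) := by rw [mem_cent_iff]
  have h1 : g ^ (Fintype.card F - 1) = 1 := by
    have h := pow_card_eq_one' (G := Subgroup.centralizer ({g} : Set SL₂)) (x := ⟨g, hg⟩)
    rw [hcard] at h
    exact congrArg Subtype.val h
  apply odd_of_pow hq
  apply sq_one_scal h2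
  have hodd : Odd (Fintype.card F) := by
    obtain ⟨c, hc⟩ := CharP.exists F
    have h := FiniteField.odd_card_of_char_ne_two (F := F) (by
      intro hr
      apply h2
      have : ((ringChar F : ℕ) : F) = 0 := ringChar.Nat.cast_ringChar
      rw [hr] at this
      exact_mod_cast this)
    exact Nat.odd_iff.2 h
  have h3 : (Fintype.card F - 1) / 2 * 2 = Fintype.card F - 1 := by
    obtain ⟨k, hk⟩ := hodd
    omega
  rw [← pow_mul, h3, h1]

theorem odd_char2 (h2 : (2 : F) = 0) {g : SL₂} (ht : (g : M₂).trace ≠ 0) :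
    Odd (orderOf (pr g)) := by
  have h4 : (g : M₂).trace ^ 2 ≠ 4 := by
    intro h
    apply ht
    have : (g : M₂).trace ^ 2 = 0 := by rw [h]; linear_combination 2 * h2
    exact pow_eq_zero_iff two_ne_zero |>.1 this
  have hc2 : CharP F 2 := by
    obtain ⟨c, hc⟩ := CharP.exists F
    have hcp : c.Prime := (CharP.char_is_prime_or_zero F c).resolve_right
      (CharP.char_ne_zero_of_finite F c)
    have h' : ((2 : ℕ) : F) = 0 := by exact_mod_cast h2
    rw [CharP.cast_eq_zero_iff F c 2] at h'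
    rw [← (Nat.prime_dvd_prime_iff_eq hcp Nat.prime_two).1 h']
    exact hc
  have hev : 2 ∣ Fintype.card F := by
    obtain ⟨e, -, hq⟩ := FiniteField.card F 2
    rw [hq]; exact dvd_pow_self 2 e.2.ne'
  have hq1 : 1 < Fintype.card F := Fintype.one_lt_card
  have hodd : Odd (Nat.card (Subgroup.centralizer ({g} : Set SL₂))) := by
    rcases RS.card_tor h4 with h | h <;> rw [h, Nat.odd_iff] <;> omega
  have hg : g ∈ Subgroup.centralizer ({g} : Set SL₂) := by rw [mem_cent_iff]
  have h1 : g ^ (Nat.card (Subgroup.centralizer ({g} : Set SL₂))) = 1 := by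
    have h := pow_card_eq_one' (G := Subgroup.centralizer ({g} : Set SL₂)) (x := ⟨g, hg⟩)
    exact congrArg Subtype.val h
  apply odd_of_pow hodd
  rw [h1]
  simp [IsScal]

/-- construction of the common neighbour -/
theorem exists_B {A C : SL₂} (hA : (A : M₂).trace = 0) (hC : (C : M₂).trace = 0) (a t₁ t₂ β : F)
    (ha : ((A * C : SL₂) : M₂).trace = a) (hδ : 4 - a ^ 2 ≠ 0)
    (hβ : β ^ 2 * (4 - a ^ 2) ^ 2 = 4 - a ^ 2 - t₁ ^ 2 - t₂ ^ 2 - a * t₁ * t₂) :
    ∃ B : SL₂, (B : M₂).trace = 0 ∧ ((A * B : SL₂) : M₂).trace = t₁ ∧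
      ((B * C : SL₂) : M₂).trace = t₂ := by
  set x := (A : M₂) 0 0 with hx
  set y := (A : M₂) 0 1 with hy
  set z := (A : M₂) 1 0 with hz
  set u := (C : M₂) 0 0 with hu
  set v := (C : M₂) 0 1 with hv
  set w := (C : M₂) 1 0 with hw
  have hA11 : (A : M₂) 1 1 = -x := by
    rw [Matrix.trace_fin_two] at hA; linear_combination hA
  have hC11 : (C : M₂) 1 1 = -u := by
    rw [Matrix.trace_fin_two] at hC; linear_combination hC
  have dA : -x ^ 2 - y * z = 1 := by
    have := A.2
    rw [Matrix.det_fin_two] at this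
    rw [hA11] at this
    linear_combination this
  have dC : -u ^ 2 - v * w = 1 := by
    have := C.2
    rw [Matrix.det_fin_two] at this
    rw [hC11] at this
    linear_combination this
  have ha' : 2 * x * u + y * w + z * v = a := by
    rw [Matrix.SpecialLinearGroup.coe_mul, Matrix.trace_fin_two, Matrix.mul_apply, Matrix.mul_apply,
      Fin.sum_univ_two, Fin.sum_univ_two, hA11, hC11] at ha
    linear_combination ha
  obtain ⟨α, hα⟩ : ∃ α, α * (4 - a ^ 2) = -2 * t₁ - a * t₂ :=
    ⟨(-2 * t₁ - a * t₂) / (4 - a ^ 2), div_mul_cancel₀ _ hδ⟩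
  obtain ⟨γ, hγ⟩ : ∃ γ, γ * (4 - a ^ 2) = -a * t₁ - 2 * t₂ :=
    ⟨(-a * t₁ - 2 * t₂) / (4 - a ^ 2), div_mul_cancel₀ _ hδ⟩
  have e1 : -2 * α + a * γ = t₁ := by
    apply mul_right_cancel₀ hδ
    linear_combination -2 * hα + a * hγ
  have e2 : a * α - 2 * γ = t₂ := by
    apply mul_right_cancel₀ hδ
    linear_combination a * hα - 2 * hγ
  let B0 : M₂ := !![α * x + γ * u + β * (y * w - v * z), α * y + γ * v + 2 * β * (x * v - y * u);
    α * z + γ * w + 2 * β * (z * u - x * w), -(α * x + γ * u + β * (y * w - v * z))]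
  have hdet : B0.det = 1 := by
    have h1 : B0.det = α ^ 2 * (-x ^ 2 - y * z) + γ ^ 2 * (-u ^ 2 - v * w) -
        α * γ * (2 * x * u + y * w + z * v) +
        β ^ 2 * (4 * (-x ^ 2 - y * z) * (-u ^ 2 - v * w) - (2 * x * u + y * w + z * v) ^ 2) := by
      simp only [B0, Matrix.det_fin_two_of]; ring
    rw [h1, dA, dC, ha']
    apply mul_right_cancel₀ hδ
    have h3 : (α ^ 2 + γ ^ 2 - a * α * γ) * (4 - a ^ 2) = t₁ ^ 2 + t₂ ^ 2 + a * t₁ * t₂ := by
      rw [← e1, ← e2]; ring
    linear_combination h3 + hβ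
  let B : SL₂ := ⟨B0, hdet⟩
  refine ⟨B, ?_, ?_, ?_⟩
  · change B0.trace = 0
    simp [B0, Matrix.trace_fin_two]
  · change ((A : M₂) * B0).trace = t₁
    rw [Matrix.trace_fin_two, Matrix.mul_apply, Matrix.mul_apply,
      Fin.sum_univ_two, Fin.sum_univ_two, hA11]
    simp only [B0, Matrix.of_apply, Matrix.cons_val', Matrix.cons_val_zero, Matrix.cons_val_one,
      Matrix.cons_val_fin_one, ← hx, ← hy, ← hz]
    linear_combination -2 * α * dA + γ * ha' + e1
  · change (B0 * (C : M₂)).trace = t₂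
    rw [Matrix.trace_fin_two, Matrix.mul_apply, Matrix.mul_apply,
      Fin.sum_univ_two, Fin.sum_univ_two, hC11]
    simp only [B0, Matrix.of_apply, Matrix.cons_val', Matrix.cons_val_zero, Matrix.cons_val_one,
      Matrix.cons_val_fin_one, ← hu, ← hv, ← hw]
    linear_combination -2 * γ * dC + α * ha' + e2

end Cfsg.Agent.H12.OG
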