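import Cfsg.Agent.H12.OddGr
import Mathlib.NumberTheory.LegendreSymbol.QuadraticChar.Basic

/-! Odd product graph on the involutions of `PSL(2, q)`, II (helper12). -/

set_option autoImplicit false

namespace Cfsg.Agent.H12.OG

open Matrix Cfsg.Agent.H16

variable {F : Type*} [Field F] [Fintype F]

local notation "SL₂" => Matrix.SpecialLinearGroup (Fin 2) F
local notation "M₂" => Matrix (Fin 2) (Fin 2) F
local notation "PSL₂" => Matrix.ProjectiveSpecialLinearGroup (Fin 2) F

theorem pr_eq_iff {A B : SL₂} : pr B = pr A ↔ ∃ c : F, c ^ 2 = 1 ∧ (B : M₂) = c • (A : M₂) := by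
  constructor
  · intro h
    have h1 : A⁻¹ * B ∈ Subgroup.center SL₂ := QuotientGroup.eq.1 h.symm
    rw [mem_center_iff', isScal_iff] at h1
    obtain ⟨c, hc⟩ := h1
    refine ⟨c, ?_, ?_⟩
    · have := (A⁻¹ * B).2
      rw [show ((A⁻¹ * B).val : M₂) = c • (1 : M₂) from hc, Matrix.det_smul, Matrix.det_one] at this
      simpa using this
    · have h2 : (B : M₂) = (A : M₂) * ((A⁻¹ * B : SL₂) : M₂) := by
        rw [← Matrix.SpecialLinearGroup.coe_mul, mul_inv_cancel_left]
      rw [h2, hc]; simp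
  · rintro ⟨c, hc, h⟩
    symm
    apply QuotientGroup.eq.2
    rw [mem_center_iff', isScal_iff]
    refine ⟨c, ?_⟩
    rw [Matrix.SpecialLinearGroup.coe_mul, h, Matrix.mul_smul, ← Matrix.SpecialLinearGroup.coe_mul,
      inv_mul_cancel]
    rfl

theorem tr_sq {A : SL₂} (hA : (A : M₂).trace = 0) : ((A * A : SL₂) : M₂).trace = -2 := by
  rw [Matrix.SpecialLinearGroup.coe_mul, sl_sq, hA, zero_smul, zero_sub, trace_neg, trace_one]
  simp

theorem pr_ne {A B : SL₂} (hA : (A : M₂).trace = 0)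
    (h : ((A * B : SL₂) : M₂).trace ^ 2 ≠ 4) : pr B ≠ pr A := by
  rw [Ne, pr_eq_iff]
  rintro ⟨c, hc, hB⟩
  apply h
  rw [Matrix.SpecialLinearGroup.coe_mul, hB, Matrix.mul_smul, ← Matrix.SpecialLinearGroup.coe_mul,
    trace_smul, tr_sq hA, smul_eq_mul]
  linear_combination 4 * hc

theorem pr_ne' {A B C : SL₂} 
    (h : ((B * C : SL₂) : M₂).trace ^ 2 ≠ ((A * C : SL₂) : M₂).trace ^ 2) : pr B ≠ pr A := by
  rw [Ne, pr_eq_iff]
  rintro ⟨c, hc, hB⟩
  apply h
  rw [Matrix.SpecialLinearGroup.coe_mul, hB, Matrix.smul_mul, ← Matrix.SpecialLinearGroup.coe_mul,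
    trace_smul, smul_eq_mul]
  linear_combination ((A * C : SL₂) : M₂).trace ^ 2 * hc

theorem sq_or (hn : ¬ IsSquare (-1 : F)) (x : F) : IsSquare x ∨ IsSquare (-x) := by
  classical
  by_contra h
  push Not at h
  have h1 := (quadraticChar_neg_one_iff_not_isSquare (F := F)).2 hn
  have h2 := (quadraticChar_neg_one_iff_not_isSquare (F := F)).2 h.1
  have h3 := (quadraticChar_neg_one_iff_not_isSquare (F := F)).2 h.2
  rw [show -x = -1 * x by ring, map_mul, h1, h2] at h3
  norm_num at h3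

theorem exists_lam (h2 : (2 : F) ≠ 0) (hF : 4 ≤ Fintype.card F) : ∃ l : F, l ≠ 0 ∧ l ^ 2 ≠ 1 := by
  classical
  by_contra h
  push Not at h
  have : (Finset.univ : Finset F) ⊆ {0, 1, -1} := by
    intro l _
    by_cases hl : l = 0
    · simp [hl]
    · have := h l hl
      rcases mul_self_eq_one_iff.1 ((pow_two l).symm.trans this) with h3 | h3 <;> simp [h3]
  have h5 := Finset.card_le_card this
  rw [Finset.card_univ] at h5
  have h6 : ({0, 1, -1} : Finset F).card ≤ 3 := Finset.card_le_three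
  omega

/-- sums of two nonzero squares -/
theorem sum_sq (h2 : (2 : F) ≠ 0) (hF : 4 ≤ Fintype.card F) (hn : ¬ IsSquare (-1 : F)) {e : F}
    (he : e ≠ 0) : ∃ u v : F, u ≠ 0 ∧ v ≠ 0 ∧ u ^ 2 + v ^ 2 = e := by
  have key : ∀ w : F, w ≠ 0 → w ^ 2 = e → ∃ u v : F, u ≠ 0 ∧ v ≠ 0 ∧ u ^ 2 + v ^ 2 = e := by
    intro w hw hwe
    obtain ⟨l, hl0, hl1⟩ := exists_lam h2 hF
    have hl2 : 1 + l ^ 2 ≠ 0 := by
      intro h
      apply hn
      exact ⟨l, by linear_combination -h⟩
    have hl3 : 1 - l ^ 2 ≠ 0 := by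
      intro h; apply hl1; linear_combination -h
    refine ⟨2 * l * w / (1 + l ^ 2), w * (1 - l ^ 2) / (1 + l ^ 2), ?_, ?_, ?_⟩
    · exact div_ne_zero (mul_ne_zero (mul_ne_zero h2 hl0) hw) hl2
    · exact div_ne_zero (mul_ne_zero hw hl3) hl2
    · field_simp
      rw [← hwe]
      ring
  obtain ⟨p, hp⟩ := nf_pos_universal (F := F) 0 (by
    intro h; apply h2
    have : (2 : F) ^ 2 = 0 := by linear_combination -h
    exact pow_eq_zero_iff two_ne_zero |>.1 this) e
  simp only [nf] at hp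
  have hp' : p.1 ^ 2 + p.2 ^ 2 = e := by linear_combination hp
  by_cases h1 : p.1 = 0
  · apply key p.2 _ (by rw [← hp', h1]; ring)
    intro h3; apply he; rw [← hp', h1, h3]; ring
  · by_cases h3 : p.2 = 0
    · exact key p.1 h1 (by rw [← hp', h3]; ring)
    · exact ⟨p.1, p.2, h1, h3, hp'⟩

theorem inv_sq_ne {m : F} (hm : m ≠ 0) (hmm : m * m ≠ 1) : (m + m⁻¹) ^ 2 ≠ 4 := by
  intro h
  apply hmm
  have h1 : (m * m - 1) ^ 2 = 0 := by
    have : m * m⁻¹ = 1 := mul_inv_cancel₀ hm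
    linear_combination m ^ 2 * h - (m * m⁻¹ + 1 + 2 * m ^ 2) * this
  have h3 := pow_eq_zero_iff two_ne_zero |>.1 h1
  linear_combination h3

/-- the conclusion -/
def Good (A C : SL₂) : Prop := Odd (orderOf (pr (A * C))) ∨ ∃ B : SL₂, (B : M₂).trace = 0 ∧
  Odd (orderOf (pr (A * B))) ∧ Odd (orderOf (pr (B * C))) ∧ pr B ≠ pr A ∧ pr B ≠ pr C

theorem tr_comm (A B : SL₂) : ((A * B : SL₂) : M₂).trace = ((B * A : SL₂) : M₂).trace := by
  rw [Matrix.SpecialLinearGroup.coe_mul, Matrix.SpecialLinearGroup.coe_mul, Matrix.trace_mul_comm]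

theorem good_one (h2 : (2 : F) ≠ 0) (hn : IsSquare (-1 : F)) {A C : SL₂}
    (hA : (A : M₂).trace = 0) (hC : (C : M₂).trace = 0) : Good A C := by
  by_cases ha : ((A * C : SL₂) : M₂).trace ^ 2 = 4
  · exact Or.inl (odd_unip h2 ha)
  · right
    obtain ⟨i, hi⟩ := hn
    set a := ((A * C : SL₂) : M₂).trace with hadef
    have hδ : 4 - a ^ 2 ≠ 0 := by
      intro h; apply ha; linear_combination -h
    obtain ⟨B, h3, h4, h5⟩ := exists_B hA hC a 2 2 (i * (a + 2) / (4 - a ^ 2)) rfl hδ (by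
      rw [div_pow, div_mul_cancel₀ _ (pow_ne_zero 2 hδ)]
      linear_combination -(a + 2) ^ 2 * hi)
    refine ⟨B, h3, odd_unip h2 (by rw [h4]; norm_num), odd_unip h2 (by rw [h5]; norm_num), ?_, ?_⟩
    · apply pr_ne' (C := C)
      rw [h5, ← hadef]
      intro h; apply ha; rw [← h]; norm_num
    · apply pr_ne' (C := A)
      rw [tr_comm B A, h4, tr_comm C A, ← hadef]
      intro h; apply ha; rw [← h]; norm_num

theorem good_three (h2 : (2 : F) ≠ 0) (hF : 4 ≤ Fintype.card F) (hn : ¬ IsSquare (-1 : F))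
    {A C : SL₂} (hA : (A : M₂).trace = 0) (hC : (C : M₂).trace = 0) : Good A C := by
  have hq : Odd ((Fintype.card F - 1) / 2) := by
    rw [FiniteField.isSquare_neg_one_iff] at hn
    push Not at hn
    rw [Nat.odd_iff]
    omega
  by_cases ha : ((A * C : SL₂) : M₂).trace ^ 2 = 4
  · exact Or.inl (odd_unip h2 ha)
  set a := ((A * C : SL₂) : M₂).trace with hadef
  have hδ : 4 - a ^ 2 ≠ 0 := by
    intro h; apply ha; linear_combination -h
  have h2a : 2 - a ≠ 0 := by
    intro h; apply ha; linear_combination -(2 + a) * h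
  by_cases hsq : IsSquare (a ^ 2 - 4)
  · left
    obtain ⟨e, he⟩ := hsq
    have hprod : (a + e) / 2 * ((a - e) / 2) = 1 := by
      field_simp
      linear_combination he
    have hm0 : (a + e) / 2 ≠ 0 := left_ne_zero_of_mul_eq_one hprod
    have hinv : ((a + e) / 2)⁻¹ = (a - e) / 2 := inv_eq_of_mul_eq_one_right hprod
    have hsum : a = (a + e) / 2 + ((a + e) / 2)⁻¹ := by
      rw [hinv]; field_simp; ring
    apply odd_split h2 hq hm0 _ (Or.inl (hadef.symm.trans hsum))
    intro hmm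
    apply ha
    have : ((a + e) / 2 + ((a + e) / 2)⁻¹) ^ 2 = 4 := by
      have h3 : (a + e) / 2 * ((a + e) / 2)⁻¹ = 1 := mul_inv_cancel₀ hm0
      have h4 : ((a + e) / 2)⁻¹ = (a + e) / 2 := inv_eq_of_mul_eq_one_right hmm
      rw [h4]
      linear_combination 4 * hmm
    rw [hsum, this]
  · right
    obtain ⟨d, hd⟩ : IsSquare (4 - a ^ 2) := by
      rcases sq_or hn (4 - a ^ 2) with h | h
      · exact h
      · exfalso; apply hsq; rwa [show a ^ 2 - 4 = -(4 - a ^ 2) by ring]
    have hd0 : d ≠ 0 := by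
      rintro rfl; apply hδ; rw [hd]; ring
    have he : a - 2 ≠ 0 := by
      intro h; apply h2a; linear_combination -h
    obtain ⟨u0, v0, hu0, hv0, huv⟩ := sum_sq h2 hF hn he
    obtain ⟨s, hs⟩ : ∃ s, s * v0 * 2 = d := ⟨d / 2 / v0, by field_simp⟩
    have hs0 : s ≠ 0 := by
      rintro rfl; apply hd0; rw [← hs]; ring
    have key : ∃ M y : F, M ≠ 0 ∧ y ^ 2 = (2 - a) * (a * M - M ^ 2 - 1) := by
      have h1 : ∀ u : F, u ^ 2 = u0 ^ 2 → (a - 2) ^ 2 * s ^ 2 =
          (2 - a) * (a * (u * s + a / 2) - (u * s + a / 2) ^ 2 - 1) := by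
        intro u hu
        have h4 : (4 - a ^ 2) = s ^ 2 * v0 ^ 2 * 4 := by rw [hd, ← hs]; ring
        field_simp
        linear_combination -4 * (a - 2) * s ^ 2 * huv - (a - 2) * h4 - 4 * (a - 2) * s ^ 2 * hu
      by_cases h5 : u0 * s + a / 2 = 0
      · refine ⟨-u0 * s + a / 2, (a - 2) * s, ?_, ?_⟩
        · intro h6
          have h7 : 2 * (u0 * s) = 0 := by linear_combination h5 - h6
          exact mul_ne_zero h2 (mul_ne_zero hu0 hs0) h7
        · rw [mul_pow]; exact h1 (-u0) (by ring)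
      · exact ⟨u0 * s + a / 2, (a - 2) * s, h5, by rw [mul_pow]; exact h1 u0 rfl⟩
    obtain ⟨M, y, hM, hy⟩ := key
    have hM1 : M ≠ 1 := by
      rintro rfl
      apply hn
      refine ⟨y / (2 - a), ?_⟩
      field_simp
      linear_combination -hy
    have hM2 : M ≠ -1 := by
      rintro rfl
      apply hsq
      exact ⟨y, by linear_combination -hy⟩
    rcases sq_or hn M with ⟨m, hm⟩ | ⟨m, hm⟩
    · have hm0 : m ≠ 0 := by rintro rfl; apply hM; rw [hm]; ring
      have hmm : m * m ≠ 1 := by rw [← hm]; exact hM1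
      have hne := inv_sq_ne hm0 hmm
      obtain ⟨B, h3, h4, h5⟩ := exists_B hA hC a (m + m⁻¹) (-(m + m⁻¹))
        (y / (m * (4 - a ^ 2))) rfl hδ (by
          rw [div_pow, mul_pow, div_mul_eq_mul_div, mul_div_mul_right _ _ (pow_ne_zero 2 hδ), hy, hm]
          field_simp
          ring)
      refine ⟨B, h3, odd_split h2 hq hm0 hmm (Or.inl h4), odd_split h2 hq hm0 hmm (Or.inr h5), ?_, ?_⟩
      · exact pr_ne hA (by rw [h4]; exact hne)
      · exact pr_ne hC (by rw [tr_comm, h5, neg_sq]; exact hne)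
    · have hm0 : m ≠ 0 := by
        rintro rfl; apply hM
        have : -M = 0 := by rw [hm]; ring
        exact neg_eq_zero.1 this
      have hmm : m * m ≠ 1 := by
        rw [← hm]; intro h; apply hM2; rw [← h]; ring
      have hne := inv_sq_ne hm0 hmm
      have hM' : M = -(m * m) := by rw [← hm]; ring
      obtain ⟨B, h3, h4, h5⟩ := exists_B hA hC a (m + m⁻¹) (m + m⁻¹)
        (d * y / ((2 - a) * m * (4 - a ^ 2))) rfl hδ (by
          rw [div_pow, mul_pow _ (4 - a ^ 2), div_mul_eq_mul_div,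
            mul_div_mul_right _ _ (pow_ne_zero 2 hδ), mul_pow, hy,
            show d ^ 2 = (2 - a) * (2 + a) by rw [pow_two, ← hd]; ring, hM']
          field_simp
          ring)
      refine ⟨B, h3, odd_split h2 hq hm0 hmm (Or.inl h4), odd_split h2 hq hm0 hmm (Or.inl h5), ?_, ?_⟩
      · exact pr_ne hA (by rw [h4]; exact hne)
      · exact pr_ne hC (by rw [tr_comm, h5]; exact hne)

theorem good_two (h2 : (2 : F) = 0) {A C : SL₂} (hA : (A : M₂).trace = 0)
    (hAs : ¬ IsScal (A : M₂)) (hC : (C : M₂).trace = 0) (hCs : ¬ IsScal (C : M₂)) : Good A C := by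
  have hneg : ∀ x : F, -x = x := fun x => by linear_combination -x * h2
  by_cases ha : ((A * C : SL₂) : M₂).trace = 0
  swap
  · exact Or.inl (odd_char2 h2 ha)
  right
  have h4 : (4 : F) = 0 := by linear_combination 2 * h2
  have key : ∀ B : SL₂, (B : M₂).trace = 0 → ((A * B : SL₂) : M₂).trace ≠ 0 →
      ((B * C : SL₂) : M₂).trace ≠ 0 → ∃ B : SL₂, (B : M₂).trace = 0 ∧
      Odd (orderOf (pr (A * B))) ∧ Odd (orderOf (pr (B * C))) ∧ pr B ≠ pr A ∧ pr B ≠ pr C := by
    intro B h3 h5 h6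
    refine ⟨B, h3, odd_char2 h2 h5, odd_char2 h2 h6, ?_, ?_⟩
    · apply pr_ne hA; rw [h4]; exact pow_ne_zero 2 h5
    · apply pr_ne hC; rw [h4, tr_comm]; exact pow_ne_zero 2 h6
  have hA1 : (A : M₂) 0 0 = (A : M₂) 1 1 := by
    rw [Matrix.trace_fin_two] at hA; linear_combination hA - (A : M₂) 1 1 * h2
  have hC1 : (C : M₂) 0 0 = (C : M₂) 1 1 := by
    rw [Matrix.trace_fin_two] at hC; linear_combination hC - (C : M₂) 1 1 * h2
  have hac : (A : M₂) 0 1 * (C : M₂) 1 0 = (A : M₂) 1 0 * (C : M₂) 0 1 := by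
    rw [Matrix.SpecialLinearGroup.coe_mul, Matrix.trace_fin_two, Matrix.mul_apply, Matrix.mul_apply,
      Fin.sum_univ_two, Fin.sum_univ_two] at ha
    rw [hA1, hC1] at ha
    linear_combination ha - ((A : M₂) 1 1 * (C : M₂) 1 1 + (A : M₂) 1 0 * (C : M₂) 0 1) * h2
  by_cases hz : (A : M₂) 1 0 = 0
  · have hy : (A : M₂) 0 1 ≠ 0 := fun h => hAs ⟨h, hz, hA1⟩
    have hw : (C : M₂) 1 0 = 0 := by
      rw [hz, zero_mul] at hac
      exact (mul_eq_zero.1 hac).resolve_left hy
    have hv : (C : M₂) 0 1 ≠ 0 := fun h => hCs ⟨h, hw, hC1⟩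
    let B : SL₂ := ⟨!![1, 0; 1, 1], by simp [Matrix.det_fin_two_of]⟩
    apply key B
    · change (!![1, 0; 1, 1] : M₂).trace = 0
      rw [Matrix.trace_fin_two_of]; linear_combination h2
    · change ((A : M₂) * !![1, 0; 1, 1]).trace ≠ 0
      rw [Matrix.trace_fin_two, Matrix.mul_apply, Matrix.mul_apply,
        Fin.sum_univ_two, Fin.sum_univ_two, hA1]
      simp
      intro h; apply hy
      linear_combination h - (A : M₂) 1 1 * h2
    · change ((!![1, 0; 1, 1] : M₂) * (C : M₂)).trace ≠ 0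
      rw [Matrix.trace_fin_two, Matrix.mul_apply, Matrix.mul_apply,
        Fin.sum_univ_two, Fin.sum_univ_two, hC1]
      simp
      intro h; apply hv
      linear_combination h - (C : M₂) 1 1 * h2
  · have hw : (C : M₂) 1 0 ≠ 0 := by
      intro h
      rw [h, mul_zero] at hac
      have hv : (C : M₂) 0 1 = 0 := (mul_eq_zero.1 hac.symm).resolve_left hz
      exact hCs ⟨hv, h, hC1⟩
    let B : SL₂ := ⟨!![1, 1; 0, 1], by simp [Matrix.det_fin_two_of]⟩
    apply key B
    · change (!![1, 1; 0, 1] : M₂).trace = 0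
      rw [Matrix.trace_fin_two_of]; linear_combination h2
    · change ((A : M₂) * !![1, 1; 0, 1]).trace ≠ 0
      rw [Matrix.trace_fin_two, Matrix.mul_apply, Matrix.mul_apply,
        Fin.sum_univ_two, Fin.sum_univ_two, hA1]
      simp
      intro h; apply hz
      linear_combination h - (A : M₂) 1 1 * h2
    · change ((!![1, 1; 0, 1] : M₂) * (C : M₂)).trace ≠ 0
      rw [Matrix.trace_fin_two, Matrix.mul_apply, Matrix.mul_apply,
        Fin.sum_univ_two, Fin.sum_univ_two, hC1]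
      simp
      intro h; apply hw
      linear_combination h - (C : M₂) 1 1 * h2

theorem good (hF : 4 ≤ Fintype.card F) {A C : SL₂} (hA : (A : M₂).trace = 0)
    (hAs : ¬ IsScal (A : M₂)) (hC : (C : M₂).trace = 0) (hCs : ¬ IsScal (C : M₂)) : Good A C := by
  by_cases h2 : (2 : F) = 0
  · exact good_two h2 hA hAs hC hCs
  · by_cases hn : IsSquare (-1 : F)
    · exact good_one h2 hn hA hC
    · exact good_three h2 hF hn hA hC

theorem exists_nonadj (hF : 4 ≤ Fintype.card F) : ∃ A C : SL₂, (A : M₂).trace = 0 ∧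
    ¬ IsScal (A : M₂) ∧ (C : M₂).trace = 0 ∧ ¬ IsScal (C : M₂) ∧
    ((A * C : SL₂) : M₂).trace = 0 ∧ ¬ IsScal ((A * C : SL₂) : M₂) := by
  classical
  by_cases h2 : (2 : F) = 0
  · obtain ⟨l, hl0, hl1⟩ : ∃ l : F, l ≠ 0 ∧ l ≠ 1 := by
      by_contra h
      push Not at h
      have : (Finset.univ : Finset F) ⊆ {0, 1} := by
        intro l _
        by_cases hl : l = 0
        · simp [hl]
        · simp [h l hl]
      have h5 := Finset.card_le_card this
      rw [Finset.card_univ] at h5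
      have h6 : ({0, 1} : Finset F).card ≤ 2 := Finset.card_le_two
      omega
    let A : SL₂ := ⟨!![1, 1; 0, 1], by simp [Matrix.det_fin_two_of]⟩
    let C : SL₂ := ⟨!![1, l; 0, 1], by simp [Matrix.det_fin_two_of]⟩
    have hAC : ((A * C : SL₂) : M₂) = !![1, l + 1; 0, 1] := by
      change (!![1, 1; 0, 1] : M₂) * !![1, l; 0, 1] = _
      ext i j; fin_cases i <;> fin_cases j <;> simp [Matrix.mul_apply, Fin.sum_univ_two]
    refine ⟨A, C, ?_, ?_, ?_, ?_, ?_, ?_⟩
    · change (!![1, 1; 0, 1] : M₂).trace = 0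
      rw [Matrix.trace_fin_two_of]; linear_combination h2
    · intro h; exact one_ne_zero (α := F) h.1
    · change (!![1, l; 0, 1] : M₂).trace = 0
      rw [Matrix.trace_fin_two_of]; linear_combination h2
    · intro h; exact hl0 h.1
    · rw [hAC, Matrix.trace_fin_two_of]; linear_combination h2
    · rw [hAC]; intro h
      apply hl1
      have h3 : l + 1 = 0 := h.1
      linear_combination h3 - h2
  · obtain ⟨p, hp⟩ := nf_pos_universal (F := F) 0 (by
      intro h; apply h2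
      have : (2 : F) ^ 2 = 0 := by linear_combination -h
      exact pow_eq_zero_iff two_ne_zero |>.1 this) (-1)
    simp only [nf] at hp
    have hp' : p.1 ^ 2 + p.2 ^ 2 = -1 := by linear_combination hp
    let A : SL₂ := ⟨!![0, 1; -1, 0], by simp [Matrix.det_fin_two_of]⟩
    let C : SL₂ := ⟨!![p.1, p.2; p.2, -p.1], by
      rw [Matrix.det_fin_two_of]; linear_combination -hp'⟩
    have hAC : ((A * C : SL₂) : M₂) = !![p.2, -p.1; -p.1, -p.2] := by
      change (!![0, 1; -1, 0] : M₂) * !![p.1, p.2; p.2, -p.1] = _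
      ext i j; fin_cases i <;> fin_cases j <;> simp [Matrix.mul_apply, Fin.sum_univ_two]
    have hno : ∀ x : F, x = -x → x = 0 := by
      intro x hx
      have : 2 * x = 0 := by linear_combination hx
      exact (mul_eq_zero.1 this).resolve_left h2
    refine ⟨A, C, ?_, ?_, ?_, ?_, ?_, ?_⟩
    · change (!![0, 1; -1, 0] : M₂).trace = 0
      rw [Matrix.trace_fin_two_of]; ring
    · intro h; exact one_ne_zero (α := F) h.1
    · change (!![p.1, p.2; p.2, -p.1] : M₂).trace = 0
      rw [Matrix.trace_fin_two_of]; ring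
    · intro h
      have h3 : p.2 = 0 := h.1
      have h4 : p.1 = 0 := hno _ h.2.2
      rw [h3, h4] at hp'
      apply one_ne_zero (α := F)
      linear_combination hp'
    · rw [hAC, Matrix.trace_fin_two_of]; ring
    · rw [hAC]; intro h
      have h3 : p.2 = 0 := hno _ h.2.2
      have h4 : -p.1 = 0 := h.1
      have h5 : p.1 = 0 := neg_eq_zero.1 h4
      rw [h3, h5] at hp'
      apply one_ne_zero (α := F)
      linear_combination hp'

end Cfsg.Agent.H12.OG
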