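import Mathlib
import Cfsg.Agent.H23.RankOne
import Cfsg.Agent.H2.Frat

/-! 2-groups acting faithfully on abelian groups of odd order: bound for the index of the subgroup
generated by the squares. -/

set_option autoImplicit false
set_option linter.all false

namespace Cfsg.Agent.H12

open Subgroup

universe u v

/-- subgroup generated by the squares -/
def sqs (P : Type*) [Group P] : Subgroup P := closure {y | ∃ x : P, y = x * x}

theorem sq_mem_sqs {P : Type*} [Group P] (x : P) : x * x ∈ sqs P := subset_closure ⟨x, rfl⟩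

instance sqs_normal (P : Type*) [Group P] : (sqs P).Normal := by
  refine ⟨fun a ha g => ?_⟩
  refine closure_induction (p := fun a _ => g * a * g⁻¹ ∈ sqs P) ?_ ?_ ?_ ?_ ha
  · rintro _ ⟨x, rfl⟩
    have : g * (x * x) * g⁻¹ = (g * x * g⁻¹) * (g * x * g⁻¹) := by group
    rw [this]; exact sq_mem_sqs _
  · rw [mul_one, mul_inv_cancel]; exact one_mem _
  · intro a b _ _ ha hb
    have : g * (a * b) * g⁻¹ = (g * a * g⁻¹) * (g * b * g⁻¹) := by group
    rw [this]; exact mul_mem ha hb
  · intro a _ ha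
    have : g * a⁻¹ * g⁻¹ = (g * a * g⁻¹)⁻¹ := by group
    rw [this]; exact inv_mem ha

theorem map_sqs_le {A B : Type*} [Group A] [Group B] (f : A →* B) : (sqs A).map f ≤ sqs B := by
  rw [sqs, MonoidHom.map_closure, closure_le]
  rintro _ ⟨_, ⟨x, rfl⟩, rfl⟩
  rw [map_mul]; exact sq_mem_sqs _

theorem map_sqs {A B : Type*} [Group A] [Group B] (f : A →* B) (hf : Function.Surjective f) :
    (sqs A).map f = sqs B := by
  refine le_antisymm (map_sqs_le f) ?_
  rw [sqs, closure_le]
  rintro _ ⟨x, rfl⟩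
  obtain ⟨a, rfl⟩ := hf x
  exact ⟨a * a, sq_mem_sqs a, map_mul f a a⟩

theorem sqs_index_ker {A B : Type*} [Group A] [Finite A] [Group B] (f : A →* B)
    (hf : Function.Surjective f) : (sqs A).index ≤ (sqs B).index * (sqs f.ker).index := by
  have h1 : (sqs B).index = (sqs A ⊔ f.ker).index := by
    rw [← map_sqs f hf, index_map, MonoidHom.range_eq_top.2 hf, index_top, mul_one]
  have h2 : (sqs A).relIndex (sqs A ⊔ f.ker) * (sqs A ⊔ f.ker).index = (sqs A).index :=
    relIndex_mul_index le_sup_left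
  have h3 : (sqs A).relIndex (sqs A ⊔ f.ker) = (sqs A).relIndex f.ker := by
    rw [sup_comm, relIndex_sup_right]
  have h4 : (sqs A).relIndex f.ker ≤ (sqs f.ker).index := by
    have : (sqs f.ker) ≤ (sqs A).subgroupOf f.ker := by
      show sqs f.ker ≤ (sqs A).comap f.ker.subtype
      rw [← map_le_iff_le_comap]
      exact map_sqs_le f.ker.subtype
    exact Nat.le_of_dvd (Nat.pos_of_ne_zero index_ne_zero_of_finite) (index_dvd_of_le this)
  rw [← h2, h3, h1, mul_comm]
  exact Nat.mul_le_mul_left _ h4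

theorem sqs_index_congr {A B : Type*} [Group A] [Group B] (e : A ≃* B) :
    (sqs A).index = (sqs B).index := by
  rw [← map_sqs e.toMonoidHom e.surjective]
  exact (index_map_of_bijective (f := e.toMonoidHom) e.bijective (sqs A)).symm

theorem sqs_index_le_mul {A : Type*} [Group A] [Finite A] (H : Subgroup A) :
    (sqs A).index ≤ H.index * (sqs H).index := by
  have h1 : (sqs H).map H.subtype ≤ sqs A := map_sqs_le _
  have h2 : ((sqs H).map H.subtype).index = (sqs H).index * H.index := by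
    rw [index_map_subtype]
  have h3 : (sqs A).index ≤ ((sqs H).map H.subtype).index :=
    Nat.le_of_dvd (Nat.pos_of_ne_zero index_ne_zero_of_finite) (index_dvd_of_le h1)
  rw [h2, mul_comm] at h3
  exact h3

theorem sqs_index_cyclic {A : Type*} [Group A] [Finite A] [IsCyclic A] : (sqs A).index ≤ 2 := by
  obtain ⟨g, hg⟩ := IsCyclic.exists_generator (α := A)
  have h1 : zpowers (g * g) ≤ sqs A := zpowers_le.2 (sq_mem_sqs g)
  have h2 : (sqs A).index ≤ (zpowers (g * g)).index :=
    Nat.le_of_dvd (Nat.pos_of_ne_zero index_ne_zero_of_finite) (index_dvd_of_le h1)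
  have h3 : Nat.card A = orderOf g := by
    rw [← Nat.card_zpowers, (eq_top_iff' (zpowers g)).2 hg, Nat.card_congr topEquiv.toEquiv]
  have h4 : Nat.card (zpowers (g * g)) * (zpowers (g * g)).index = Nat.card A := card_mul_index _
  rw [Nat.card_zpowers, h3, ← pow_two, orderOf_pow] at h4
  have h5 : Nat.gcd (orderOf g) 2 ∣ 2 := Nat.gcd_dvd_right _ _
  have h6 : Nat.gcd (orderOf g) 2 ∣ orderOf g := Nat.gcd_dvd_left _ _
  obtain ⟨k, hk⟩ := h6
  have hg0 : 0 < orderOf g := orderOf_pos g
  have h7 : 0 < Nat.gcd (orderOf g) 2 := Nat.gcd_pos_of_pos_right _ (by norm_num)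
  have h8 : orderOf g / Nat.gcd (orderOf g) 2 = k := Nat.div_eq_of_eq_mul_right h7 hk
  have hk0 : 0 < k := by
    rcases Nat.eq_zero_or_pos k with h | h
    · rw [h, mul_zero] at hk; omega
    · exact h
  rw [h8] at h4
  have h9 : (zpowers (g ^ 2)).index = Nat.gcd (orderOf g) 2 := by
    apply Nat.eq_of_mul_eq_mul_left hk0
    rw [h4, mul_comm k, ← hk]
  rw [← pow_two, h9] at h2
  exact h2.trans (Nat.le_of_dvd (by norm_num) h5)

theorem sqs_index_dqs {A : Type*} [Group A] [Finite A] {n : ℕ} (h : H23.DQS A n) :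
    (sqs A).index ≤ 4 := by
  have hc := h.card
  obtain ⟨hn, u, x, hu, -⟩ := h
  have h1 : zpowers (u ^ 2) ≤ sqs A := zpowers_le.2 (by rw [pow_two]; exact sq_mem_sqs u)
  have h2 : (sqs A).index ≤ (zpowers (u ^ 2)).index :=
    Nat.le_of_dvd (Nat.pos_of_ne_zero index_ne_zero_of_finite) (index_dvd_of_le h1)
  have h4 : Nat.card (zpowers (u ^ 2)) * (zpowers (u ^ 2)).index = Nat.card A := card_mul_index _
  have h5 : orderOf (u ^ 2) = 2 ^ n := by
    rw [orderOf_pow_of_dvd (by norm_num) (by rw [hu]; exact dvd_pow_self 2 (by omega)), hu, pow_succ]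
    simp
  rw [Nat.card_zpowers, h5, hc, pow_add] at h4
  have h6 := Nat.eq_of_mul_eq_mul_left (by positivity) h4
  omega

theorem dqs_not_comm {A : Type*} [Group A] {n : ℕ} (h : H23.DQS A n)
    (hc : ∀ a b : A, a * b = b * a) : False := by
  obtain ⟨hn, u, x, hu, -, -, h⟩ := h
  have h1 : x * u * x⁻¹ = u := by rw [hc x u, mul_inv_cancel_right]
  rw [h1] at h
  have key : ∀ k : ℕ, 0 < k → k < 2 ^ (n + 1) → u ^ k ≠ 1 := by
    intro k hk hk' hu'
    have := orderOf_dvd_of_pow_eq_one hu'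
    rw [hu] at this
    exact absurd (Nat.le_of_dvd hk this) (by omega)
  have h2n : 2 ≤ 2 ^ n := by
    calc 2 = 2 ^ 1 := rfl
      _ ≤ 2 ^ n := Nat.pow_le_pow_right (by norm_num) hn
  rcases h with ⟨h, -⟩ | ⟨h, -⟩ | ⟨hn2, h, -⟩
  · apply key 2 (by norm_num) (by rw [pow_succ]; omega)
    rw [pow_two]; nth_rewrite 1 [h]; exact inv_mul_cancel u
  · apply key 2 (by norm_num) (by rw [pow_succ]; omega)
    rw [pow_two]; nth_rewrite 1 [h]; exact inv_mul_cancel u
  · have h4 : 4 ≤ 2 ^ n := by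
      calc 4 = 2 ^ 2 := rfl
        _ ≤ 2 ^ n := Nat.pow_le_pow_right (by norm_num) hn2
    apply key (2 ^ n - 2) (by omega) (by rw [pow_succ]; omega)
    have : u * u ^ (2 ^ n - 2) = u * 1 := by
      rw [← pow_succ', show 2 ^ n - 2 + 1 = 2 ^ n - 1 by omega, ← h, mul_one]
    exact mul_left_cancel this

end Cfsg.Agent.H12
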