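import Mathlib
import Cfsg.Agent.H12.SqIdx
import Cfsg.Agent.H1.Hall

/-! 2-groups acting faithfully on abelian groups of odd order. -/

set_option autoImplicit false
set_option linter.all false

namespace Cfsg.Agent.H12

open Subgroup

universe u v

section act

variable {W : Type u} [CommGroup W]

/-- restriction of a group of automorphisms to an invariant subgroup -/
def resAut (P : Subgroup (MulAut W)) (F : Subgroup W) (hF : ∀ g ∈ P, ∀ w ∈ F, g w ∈ F) :
    P →* MulAut F where
  toFun g :=
    { toFun := fun w => ⟨(g : MulAut W) w, hF g.1 g.2 w w.2⟩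
      invFun := fun w => ⟨(g : MulAut W)⁻¹ w, hF _ (inv_mem g.2) w w.2⟩
      left_inv := fun w => Subtype.ext (MulAut.inv_apply_self _ _ _)
      right_inv := fun w => Subtype.ext (MulAut.apply_inv_self _ _ _)
      map_mul' := fun a b => Subtype.ext (map_mul (g : MulAut W) (a : W) (b : W)) }
  map_one' := rfl
  map_mul' := fun a b => rfl

theorem resAut_apply (P : Subgroup (MulAut W)) (F : Subgroup W) (hF : ∀ g ∈ P, ∀ w ∈ F, g w ∈ F)
    (g : P) (w : F) : ((resAut P F hF g w : F) : W) = (g : MulAut W) w := rfl

theorem resAut_eq_one (P : Subgroup (MulAut W)) (F : Subgroup W) (hF : ∀ g ∈ P, ∀ w ∈ F, g w ∈ F)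
    {g : P} (h : resAut P F hF g = 1) {w : W} (hw : w ∈ F) : (g : MulAut W) w = w := by
  have := congrArg (fun t : MulAut F => ((t ⟨w, hw⟩ : F) : W)) h
  exact this

theorem aut_eq_one_of_sup {F I : Subgroup W} (hs : F ⊔ I = ⊤) {g : MulAut W}
    (h1 : ∀ w ∈ F, g w = w) (h2 : ∀ w ∈ I, g w = w) : g = 1 := by
  ext w
  have hw : w ∈ F ⊔ I := by rw [hs]; exact mem_top w
  rw [mem_sup] at hw
  obtain ⟨a, ha, b, hb, rfl⟩ := hw
  rw [map_mul, h1 a ha, h2 b hb]; rfl

theorem split_bound [Finite W] (P : Subgroup (MulAut W)) (F I : Subgroup W)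
    (hF : ∀ g ∈ P, ∀ w ∈ F, g w ∈ F) (hI : ∀ g ∈ P, ∀ w ∈ I, g w ∈ I) (hs : F ⊔ I = ⊤)
    (hP : IsPGroup 2 P) :
    ∃ (P1 : Subgroup (MulAut F)) (P2 : Subgroup (MulAut I)), IsPGroup 2 P1 ∧ IsPGroup 2 P2 ∧
      (sqs P).index ≤ (sqs P1).index * (sqs P2).index ∧
      Nat.card P = Nat.card P1 * Nat.card P2 := by
  set f := resAut P F hF with hf
  set h := (resAut P I hI).comp f.ker.subtype with hh
  have hinj : Function.Injective h := by
    rw [injective_iff_map_eq_one]
    intro a ha
    have h1 : ∀ w ∈ F, ((a : P) : MulAut W) w = w := fun w hw =>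
      resAut_eq_one P F hF (MonoidHom.mem_ker.1 a.2) hw
    have h2 : ∀ w ∈ I, ((a : P) : MulAut W) w = w := fun w hw =>
      resAut_eq_one P I hI ha hw
    exact Subtype.ext (Subtype.ext (aut_eq_one_of_sup hs h1 h2))
  have hP1 : IsPGroup 2 f.range :=
    hP.of_surjective f.rangeRestrict f.rangeRestrict_surjective
  have hK : IsPGroup 2 f.ker := hP.to_subgroup _
  have hP2 : IsPGroup 2 h.range :=
    hK.of_surjective h.rangeRestrict h.rangeRestrict_surjective
  have e : f.ker ≃* h.range := MonoidHom.ofInjective hinj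
  refine ⟨f.range, h.range, hP1, hP2, ?_, ?_⟩
  · have h1 := sqs_index_ker f.rangeRestrict f.rangeRestrict_surjective
    rw [MonoidHom.ker_rangeRestrict] at h1
    rw [sqs_index_congr e] at h1
    exact h1
  · have h1 : Nat.card f.ker * f.ker.index = Nat.card P := card_mul_index _
    rw [index_ker] at h1
    rw [← h1, mul_comm, Nat.card_congr e.toEquiv]

/-- fixed points -/
def fixS (z : MulAut W) : Subgroup W where
  carrier := {w | z w = w}
  one_mem' := map_one z
  mul_mem' := by
    intro a b ha hb
    show z (a * b) = a * b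
    rw [map_mul, show z a = a from ha, show z b = b from hb]
  inv_mem' := by
    intro a ha
    show z a⁻¹ = a⁻¹
    rw [map_inv, show z a = a from ha]

/-- inverted elements -/
def invS (z : MulAut W) : Subgroup W where
  carrier := {w | z w = w⁻¹}
  one_mem' := by show z 1 = 1⁻¹; rw [map_one, inv_one]
  mul_mem' := by
    intro a b ha hb
    show z (a * b) = (a * b)⁻¹
    rw [map_mul, show z a = a⁻¹ from ha, show z b = b⁻¹ from hb, mul_inv]
  inv_mem' := by
    intro a ha
    show z a⁻¹ = a⁻¹⁻¹
    rw [map_inv, show z a = a⁻¹ from ha]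

theorem mem_fixS {z : MulAut W} {w : W} : w ∈ fixS z ↔ z w = w := Iff.rfl
theorem mem_invS {z : MulAut W} {w : W} : w ∈ invS z ↔ z w = w⁻¹ := Iff.rfl

theorem eq_one_of_sq [Finite W] (hodd : Odd (Nat.card W)) {w : W} (h : w * w = 1) : w = 1 := by
  have h1 : orderOf w ∣ 2 := orderOf_dvd_of_pow_eq_one (by rw [pow_two]; exact h)
  have h2 : orderOf w ∣ Nat.card W := orderOf_dvd_natCard w
  have h3 : orderOf w ∣ 1 := by
    have : Nat.gcd (Nat.card W) 2 = 1 := hodd.coprime_two_right
    rw [← this]; exact Nat.dvd_gcd h2 h1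
  exact orderOf_eq_one_iff.1 (Nat.dvd_one.1 h3)

theorem fix_inf_inv [Finite W] (hodd : Odd (Nat.card W)) (z : MulAut W) :
    fixS z ⊓ invS z = ⊥ := by
  rw [eq_bot_iff]
  rintro w ⟨h1, h2⟩
  rw [mem_bot]
  apply eq_one_of_sq hodd
  have h3 : z w = w := h1
  have h4 : z w = w⁻¹ := h2
  rw [h3] at h4
  nth_rewrite 1 [h4]
  exact inv_mul_cancel w

theorem fix_sup_inv [Finite W] (hodd : Odd (Nat.card W)) {z : MulAut W} (hz : z * z = 1) :
    fixS z ⊔ invS z = ⊤ := by
  rw [eq_top_iff]
  intro w _
  obtain ⟨m, hm⟩ := hodd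
  have hzz : z (z w) = w := by
    have := congrArg (fun t : MulAut W => t w) hz
    exact this
  have hw : w = (w * z w) ^ (m + 1) * (w * (z w)⁻¹) ^ (m + 1) := by
    rw [← mul_pow]
    have : w * z w * (w * (z w)⁻¹) = w ^ 2 := by
      rw [mul_mul_mul_comm, mul_inv_cancel, mul_one, pow_two]
    rw [this, ← pow_mul, show 2 * (m + 1) = Nat.card W + 1 by omega, pow_succ, pow_card_eq_one',
      one_mul]
  rw [hw]
  refine mul_mem (mem_sup_left ?_) (mem_sup_right ?_)
  · rw [mem_fixS, map_pow, map_mul, hzz, mul_comm]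
  · rw [mem_invS, map_pow, map_mul, map_inv, hzz, ← inv_pow, mul_inv, inv_inv, mul_comm]

theorem fix_card [Finite W] (hodd : Odd (Nat.card W)) {z : MulAut W} (hz : z * z = 1) :
    Nat.card (fixS z) * Nat.card (invS z) = Nat.card W := by
  have h1 := H1.card_sup_mul_card_inf_of_le_normalizer (H := fixS z) (K := invS z)
    (by rw [normalizer_eq_top]; exact le_top)
  rw [fix_inf_inv hodd z, fix_sup_inv hodd hz, card_bot, card_top, mul_one] at h1
  rw [h1]

theorem fix_conj {z g : MulAut W} {w : W} (h : w ∈ fixS z) : g w ∈ fixS (g * z * g⁻¹) := by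
  rw [mem_fixS] at h ⊢
  show g (z (g⁻¹ (g w))) = g w
  rw [MulAut.inv_apply_self, h]

theorem inv_conj {z g : MulAut W} {w : W} (h : w ∈ invS z) : g w ∈ invS (g * z * g⁻¹) := by
  rw [mem_invS] at h ⊢
  show g (z (g⁻¹ (g w))) = (g w)⁻¹
  rw [MulAut.inv_apply_self, h, map_inv]

theorem fix_ne_bot {z : MulAut W} [Finite W] (hodd : Odd (Nat.card W)) (hz : z * z = 1)
    (h : fixS z = ⊥) (w : W) : z w = w⁻¹ := by
  have := fix_sup_inv hodd hz
  rw [h, bot_sup_eq] at this
  have hw : w ∈ invS z := by rw [this]; exact mem_top w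
  exact hw

theorem inv_ne_bot {z : MulAut W} [Finite W] (hodd : Odd (Nat.card W)) (hz : z * z = 1)
    (h : invS z = ⊥) : z = 1 := by
  have := fix_sup_inv hodd hz
  rw [h, sup_bot_eq] at this
  ext w
  have hw : w ∈ fixS z := by rw [this]; exact mem_top w
  exact hw

theorem mulAut_comm_of_prime [Finite W] (h : (Nat.card W).Prime) (a b : MulAut W) :
    a * b = b * a := by
  haveI : Fact (Nat.card W).Prime := ⟨h⟩
  haveI : IsCyclic W := isCyclic_of_prime_card rfl
  apply (IsCyclic.mulAutMulEquiv W).injective
  rw [map_mul, map_mul, mul_comm]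

theorem mulAut_card_three [Finite W] (h : Nat.card W = 3) : Nat.card (MulAut W) = 2 := by
  haveI : Fact (Nat.card W).Prime := ⟨by rw [h]; exact Nat.prime_three⟩
  haveI : IsCyclic W := isCyclic_of_prime_card rfl
  rw [IsCyclic.card_mulAut, h]; rfl

end act

def QB (n e : ℕ) : Prop := 2 * e ≤ n ∨ (n = 3 ∧ e ≤ 2) ∨ (n = 1 ∧ e = 1)

theorem QB_mul {n1 n2 e1 e2 e : ℕ} (h1 : QB n1 e1) (h2 : QB n2 e2) (hn1 : 3 ≤ n1) (hn2 : 3 ≤ n2)
    (he : e ≤ e1 * e2) : 2 * e ≤ n1 * n2 := by
  rcases h1 with h1 | ⟨h1, h1'⟩ | ⟨h1, -⟩
  · rcases h2 with h2 | ⟨h2, h2'⟩ | ⟨h2, -⟩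
    · have : (2 * e1) * (2 * e2) ≤ n1 * n2 := Nat.mul_le_mul h1 h2
      nlinarith
    · subst h2
      have : e1 * e2 ≤ e1 * 2 := Nat.mul_le_mul_left _ h2'
      nlinarith
    · omega
  · subst h1
    rcases h2 with h2 | ⟨h2, h2'⟩ | ⟨h2, -⟩
    · have : e1 * e2 ≤ 2 * e2 := Nat.mul_le_mul_right _ h1'
      nlinarith
    · subst h2
      have : e1 * e2 ≤ 2 * 2 := Nat.mul_le_mul h1' h2'
      nlinarith
    · omega
  · omega

theorem three_le_of_odd {W : Type*} [Group W] [Finite W] {F : Subgroup W}
    (hodd : Odd (Nat.card F)) (h : F ≠ ⊥) : 3 ≤ Nat.card F := by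
  have h1 : Nat.card F ≠ 1 := fun h' => h (card_eq_one.1 h')
  obtain ⟨k, hk⟩ := hodd
  omega

theorem comm_of_sqs_bot {A : Type*} [Group A] (h : sqs A = ⊥) (a b : A) : a * b = b * a := by
  have key : ∀ x : A, x * x = 1 := fun x => by
    have := sq_mem_sqs x
    rw [h, mem_bot] at this; exact this
  have ha : a⁻¹ = a := inv_eq_of_mul_eq_one_left (key a)
  have hb : b⁻¹ = b := inv_eq_of_mul_eq_one_left (key b)
  have hab : (a * b)⁻¹ = a * b := inv_eq_of_mul_eq_one_left (key _)
  rw [_root_.mul_inv_rev, ha, hb] at hab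
  exact hab.symm

theorem sqs_bound (n : ℕ) : ∀ (W : Type u) [CommGroup W] [Finite W], Nat.card W = n → Odd n →
    ∀ P : Subgroup (MulAut W), IsPGroup 2 P → QB n (sqs P).index := by
  induction n using Nat.strong_induction_on with
  | _ n ih =>
  intro W _ _ hn hodd P hP
  subst hn
  haveI : Finite (MulAut W) := inferInstance
  -- the splitting step
  have split : ∀ F I : Subgroup W, F ⊔ I = ⊤ → Nat.card F * Nat.card I = Nat.card W → F ≠ ⊥ →
      I ≠ ⊥ → (∀ g ∈ P, ∀ w ∈ F, g w ∈ F) → (∀ g ∈ P, ∀ w ∈ I, g w ∈ I) →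
      QB (Nat.card W) (sqs P).index := by
    intro F I hs hc hF0 hI0 hF hI
    obtain ⟨P1, P2, h1, h2, h3, -⟩ := split_bound P F I hF hI hs hP
    have hoF : Odd (Nat.card F) := (Nat.odd_mul.1 (hc ▸ hodd)).1
    have hoI : Odd (Nat.card I) := (Nat.odd_mul.1 (hc ▸ hodd)).2
    have hF3 := three_le_of_odd hoF hF0
    have hI3 := three_le_of_odd hoI hI0
    have q1 := ih (Nat.card F) (by rw [← hc]; nlinarith) F rfl hoF P1 h1
    have q2 := ih (Nat.card I) (by rw [← hc]; nlinarith) I rfl hoI P2 h2
    left
    rw [← hc]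
    exact QB_mul q1 q2 hF3 hI3 h3
  rcases Classical.em (∃ E : Subgroup P, E.Normal ∧ Nat.card E = 2 ^ 2 ∧ ∀ a ∈ E, a ^ 2 = 1) with
    hE | hE
  · obtain ⟨E, hEn, hEc, hE2⟩ := hE
    haveI := hEn
    haveI : Fact (Nat.Prime 2) := ⟨Nat.prime_two⟩
    have hbE : (⊥ : Subgroup P) < E := by
      rw [bot_lt_iff_ne_bot]
      rintro rfl
      rw [card_bot] at hEc; omega
    obtain ⟨z, hzE, hz1, -, hzc⟩ := H23.exists_central_mod hP hbE
    have hzc' : ∀ g : P, g * z = z * g := fun g => by
      have := hzc g
      rw [mem_bot, commutatorElement_eq_one_iff_mul_comm] at this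
      exact this
    have hzz : z * z = 1 := by rw [← pow_two]; exact hE2 z hzE
    have hz1' : z ≠ 1 := fun h => hz1 (by rw [h]; exact one_mem _)
    haveI hzn : (zpowers z).Normal := by
      refine ⟨fun a ha g => ?_⟩
      obtain ⟨k, rfl⟩ := mem_zpowers_iff.1 ha
      have : g * z ^ k = z ^ k * g := ((show Commute g z from hzc' g).zpow_right k)
      rw [this, mul_inv_cancel_right]; exact zpow_mem (mem_zpowers z) k
    have hzo : orderOf z = 2 := orderOf_eq_prime (by rw [pow_two]; exact hzz) hz1'
    have hzE' : zpowers z < E := by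
      refine lt_of_le_of_ne (zpowers_le.2 hzE) ?_
      intro h
      rw [← h, Nat.card_zpowers, hzo] at hEc; omega
    have hzp : ∀ a ∈ zpowers z, a = 1 ∨ a = z := by
      intro a ha
      obtain ⟨k, rfl⟩ := mem_zpowers_iff.1 ha
      rcases Int.even_or_odd' k with ⟨j, rfl | rfl⟩
      · left; rw [zpow_mul, zpow_two, hzz, one_zpow]
      · right; rw [zpow_add, zpow_mul, zpow_two, hzz, one_zpow, one_mul, zpow_one]
    obtain ⟨y, hyE, hy1, -, hyc⟩ := H23.exists_central_mod hP hzE'
    have hyy : y * y = 1 := by rw [← pow_two]; exact hE2 y hyE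
    have hy1' : y ≠ 1 := fun h => hy1 (by rw [h]; exact one_mem _)
    have hyz : y ≠ z := fun h => hy1 (by rw [h]; exact mem_zpowers z)
    -- in the automorphism group
    have hzz' : (z : MulAut W) * (z : MulAut W) = 1 := congrArg Subtype.val hzz
    have hyy' : (y : MulAut W) * (y : MulAut W) = 1 := congrArg Subtype.val hyy
    have inva : ∀ t : P, t * t = 1 → (∀ g : P, g * t = t * g) →
        (∀ g ∈ P, ∀ w ∈ fixS (t : MulAut W), g w ∈ fixS (t : MulAut W)) ∧
        (∀ g ∈ P, ∀ w ∈ invS (t : MulAut W), g w ∈ invS (t : MulAut W)) := by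
      intro t _ htc
      have key : ∀ g ∈ P, g * (t : MulAut W) * g⁻¹ = t := by
        intro g hg
        have := congrArg Subtype.val (htc ⟨g, hg⟩)
        change g * (t : MulAut W) = t * g at this
        rw [this, mul_inv_cancel_right]
      constructor
      · intro g hg w hw
        have := fix_conj (g := g) hw
        rwa [key g hg] at this
      · intro g hg w hw
        have := inv_conj (g := g) hw
        rwa [key g hg] at this
    have hIz : invS (z : MulAut W) ≠ ⊥ := fun h =>
      hz1' (Subtype.ext (inv_ne_bot hodd hzz' h))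
    have hIy : invS (y : MulAut W) ≠ ⊥ := fun h =>
      hy1' (Subtype.ext (inv_ne_bot hodd hyy' h))
    by_cases hFz : fixS (z : MulAut W) = ⊥
    · -- z inverts W
      have hzi := fix_ne_bot hodd hzz' hFz
      have hFy : fixS (y : MulAut W) ≠ ⊥ := by
        intro h
        have hyi := fix_ne_bot hodd hyy' h
        apply hyz
        apply Subtype.ext
        ext w
        rw [hzi, hyi]
      by_cases hcen : ∀ g : P, g * y = y * g
      · obtain ⟨i1, i2⟩ := inva y hyy hcen
        exact split _ _ (fix_sup_inv hodd hyy') (fix_card hodd hyy') hFy hIy i1 i2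
      · push Not at hcen
        obtain ⟨x, hx⟩ := hcen
        -- conjugates of y
        have hcj : ∀ g : P, g * y = y * g ∨ g * y * g⁻¹ = z * y := by
          intro g
          rcases hzp _ (hyc g) with h | h
          · left; rwa [commutatorElement_eq_one_iff_mul_comm] at h
          · right
            rw [commutatorElement_def] at h
            rw [← h]; group
        have hxc : x * y * x⁻¹ = z * y := (hcj x).resolve_left hx
        -- x swaps
        have hzy : ∀ w, ((z * y : P) : MulAut W) w = ((y : MulAut W) w)⁻¹ := fun w => by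
          show (z : MulAut W) ((y : MulAut W) w) = _
          rw [hzi]
        have hfz : fixS ((z * y : P) : MulAut W) = invS (y : MulAut W) := by
          ext w
          rw [mem_fixS, mem_invS, hzy, inv_eq_iff_eq_inv]
        have hiz : invS ((z * y : P) : MulAut W) = fixS (y : MulAut W) := by
          ext w
          rw [mem_fixS, mem_invS, hzy, inv_inj]
        have hcard : Nat.card (fixS (y : MulAut W)) = Nat.card (invS (y : MulAut W)) := by
          have hxc' : (x : MulAut W) * (y : MulAut W) * (x : MulAut W)⁻¹ = ((z * y : P) : MulAut W) :=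
            congrArg Subtype.val hxc
          have hm : ∀ w, w ∈ fixS (y : MulAut W) → (x : MulAut W) w ∈ invS (y : MulAut W) := by
            intro w hw
            have := fix_conj (g := (x : MulAut W)) hw
            rwa [hxc', hfz] at this
          have hm' : ∀ w, w ∈ invS (y : MulAut W) → (x : MulAut W) w ∈ fixS (y : MulAut W) := by
            intro w hw
            have := inv_conj (g := (x : MulAut W)) hw
            rwa [hxc', hiz] at this
          apply le_antisymm
          · exact Nat.card_le_card_of_injective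
              (fun w : fixS (y : MulAut W) => (⟨(x : MulAut W) w, hm w w.2⟩ : invS (y : MulAut W)))
              (fun a b h => Subtype.ext ((x : MulAut W).injective (congrArg Subtype.val h)))
          · exact Nat.card_le_card_of_injective
              (fun w : invS (y : MulAut W) => (⟨(x : MulAut W) w, hm' w w.2⟩ : fixS (y : MulAut W)))
              (fun a b h => Subtype.ext ((x : MulAut W).injective (congrArg Subtype.val h)))
        -- H = C_P(y)
        set H : Subgroup P := centralizer ({y} : Set P) with hH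
        have hHm : ∀ g : P, g ∈ H ↔ g * y = y * g := fun g => by
          rw [hH, mem_centralizer_singleton_iff]
        have hHi : H.index = 2 := by
          rw [index_eq_two_iff_exists_notMem_and]
          refine ⟨x, fun h => hx ((hHm x).1 h), fun b => ?_⟩
          by_cases hb : b * y = y * b
          · right; exact (hHm b).2 hb
          · left
            have hbc := (hcj b).resolve_left hb
            rw [hHm]
            have e1 : x * y = z * y * x := by rw [← hxc, inv_mul_cancel_right]
            have e2 : b * y = z * y * b := by rw [← hbc, inv_mul_cancel_right]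
            calc b * x * y = b * (x * y) := mul_assoc _ _ _
              _ = (b * z) * (y * x) := by rw [e1]; group
              _ = z * (b * y) * x := by rw [hzc' b]; group
              _ = (z * z) * y * (b * x) := by rw [e2]; group
              _ = y * (b * x) := by rw [hzz, one_mul]
        set P' : Subgroup (MulAut W) := H.map P.subtype with hP'
        have hP'p : IsPGroup 2 P' := (hP.to_subgroup H).map P.subtype
        have eH : H ≃* P' := H.equivMapOfInjective P.subtype P.subtype_injective
        have key : ∀ g ∈ P', g * (y : MulAut W) * g⁻¹ = y := by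
          rintro _ ⟨g, hg, rfl⟩
          have := congrArg Subtype.val ((hHm g).1 hg)
          change (g : MulAut W) * (y : MulAut W) = y * g at this
          show (g : MulAut W) * (y : MulAut W) * (g : MulAut W)⁻¹ = y
          rw [this, mul_inv_cancel_right]
        obtain ⟨P1, P2, q1, q2, q3, q4⟩ := split_bound P' (fixS (y : MulAut W)) (invS (y : MulAut W))
          (fun g hg w hw => by have := fix_conj (g := g) hw; rwa [key g hg] at this)
          (fun g hg w hw => by have := inv_conj (g := g) hw; rwa [key g hg] at this)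
          (fix_sup_inv hodd hyy') hP'p
        have hc := fix_card hodd hyy'
        have hoF : Odd (Nat.card (fixS (y : MulAut W))) := (Nat.odd_mul.1 (hc ▸ hodd)).1
        have hoI : Odd (Nat.card (invS (y : MulAut W))) := (Nat.odd_mul.1 (hc ▸ hodd)).2
        have hF3 := three_le_of_odd hoF hFy
        have hI3 := three_le_of_odd hoI hIy
        have b1 := ih _ (by rw [← hc]; nlinarith) (fixS (y : MulAut W)) rfl hoF P1 q1
        have b2 := ih _ (by rw [← hc]; nlinarith) (invS (y : MulAut W)) rfl hoI P2 q2
        have b3 := sqs_index_le_mul H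
        rw [hHi, sqs_index_congr eH] at b3
        left
        rw [← hc, ← hcard]
        rw [← hcard] at b2
        by_cases hw3 : Nat.card (fixS (y : MulAut W)) = 3
        · have c1 : Nat.card P1 ≤ 2 := by
            rw [← mulAut_card_three hw3]; exact card_le_card_group P1
          have c2 : Nat.card P2 ≤ 2 := by
            rw [← mulAut_card_three (hcard ▸ hw3)]; exact card_le_card_group P2
          have c3 : Nat.card H = Nat.card P' := Nat.card_congr eH.toEquiv
          have c4 : Nat.card P = 2 * Nat.card H := by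
            rw [← card_mul_index H, hHi, mul_comm]
          have c5 : Nat.card P ≤ 8 := by
            rw [c4, c3, q4]
            have : Nat.card P1 * Nat.card P2 ≤ 2 * 2 := Nat.mul_le_mul c1 c2
            omega
          have c6 : sqs P ≠ ⊥ := fun h => hx (comm_of_sqs_bot h x y)
          have c7 : 2 ≤ Nat.card (sqs P) := by
            have h1 : Nat.card (sqs P) ≠ 1 := fun h => c6 (card_eq_one.1 h)
            have h2 : 0 < Nat.card (sqs P) := Nat.card_pos
            omega
          have c8 : Nat.card (sqs P) * (sqs P).index = Nat.card P := card_mul_index _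
          rw [hw3]
          have c9 : 2 * (sqs P).index ≤ Nat.card (sqs P) * (sqs P).index := Nat.mul_le_mul_right _ c7
          omega
        · have d1 : 2 * (sqs P1).index ≤ Nat.card (fixS (y : MulAut W)) := by
            rcases b1 with h | ⟨h, -⟩ | ⟨h, -⟩
            · exact h
            · exact absurd h hw3
            · omega
          have d2 : 2 * (sqs P2).index ≤ Nat.card (fixS (y : MulAut W)) := by
            rcases b2 with h | ⟨h, -⟩ | ⟨h, -⟩
            · exact h
            · exact absurd h hw3
            · omega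
          have d3 := Nat.mul_le_mul d1 d2
          nlinarith
    · obtain ⟨i1, i2⟩ := inva z hzz hzc'
      exact split _ _ (fix_sup_inv hodd hzz') (fix_card hodd hzz') hFz hIz i1 i2
  · haveI : Fact (Nat.Prime 2) := ⟨Nat.prime_two⟩
    rcases H23.cyclic_or_dqs hP (fun E h1 h2 h3 => hE ⟨E, h1, h2, h3⟩) with h | ⟨-, m, hm⟩
    · have h2 : (sqs P).index ≤ 2 := sqs_index_cyclic
      obtain ⟨k, hk⟩ := hodd
      rcases Nat.lt_or_ge k 2 with hk2 | hk2
      · interval_cases k
        · right; right
          refine ⟨by omega, ?_⟩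
          have h1 : Nat.card W = 1 := by omega
          have : Subsingleton W := (Nat.card_eq_one_iff_unique.1 h1).1
          have : Subsingleton (MulAut W) := ⟨fun a b => by ext w; exact Subsingleton.elim _ _⟩
          have : Subsingleton P := inferInstance
          rw [index_eq_one]
          exact Subsingleton.elim _ _
        · right; left
          exact ⟨by omega, h2⟩
      · left; omega
    · left
      have h4 := sqs_index_dqs hm
      obtain ⟨k, hk⟩ := hodd
      have hne : ∀ q : ℕ, q.Prime → Nat.card W ≠ q := by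
        intro q hq h
        apply dqs_not_comm hm
        intro a b
        exact Subtype.ext (mulAut_comm_of_prime (by rw [h]; exact hq) a b)
      have h3 := hne 3 (by norm_num)
      have h5 := hne 5 (by norm_num)
      have h7 := hne 7 (by norm_num)
      have h1 : Nat.card W ≠ 1 := by
        intro h1
        have : Subsingleton W := (Nat.card_eq_one_iff_unique.1 h1).1
        apply dqs_not_comm hm
        intro a b
        apply Subtype.ext
        ext w
        exact Subsingleton.elim _ _
      omega

end Cfsg.Agent.H12
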